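import Mathlib
import Cfsg.Prelude.Def_Local
import Cfsg.Agent.Lib.Cores
import Cfsg.Agent.Lib.ThompsonPQ
import Cfsg.Agent.Lib.GenFitting
import Cfsg.Agent.TwoFusion.PResidual
import Cfsg.Agent.TwoFusion.FStarControl
import Cfsg.Agent.SignalizersComponents.Components

/-!
# The Thompson–Wielandt theorem for pairs of maximal subgroups (Knapp's version)

`A`, `B` two different conjugate subgroups of a finite group `G` such that the normalizer of every
nontrivial subgroup of `A` normal in `A` is in `A`, and similarly for `B`. If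
`1 ≠ T ≤ C₂ ≤ A`, `T` normal in `A`, `C₂` normal in `B`, and
`1 ≠ T' ≤ C₁ ≤ B`, `T'` normal in `B`, `C₁` normal in `A`, then `F*(A)` is a `p`-group.
-/

set_option autoImplicit false
set_option linter.unusedSectionVars false

namespace Cfsg.Agent.H429.TW

open Subgroup Cfsg
open Cfsg.Agent.SignalizersComponents.Components
open Cfsg.Agent.TwoFusion.FStarControl

/-! ### One group -/

section one

variable {H : Type*} [Group H] [Finite H]

/-- `O_{q'}(F*(H))`. -/
def Y (q : ℕ) (H : Type*) [Group H] : Subgroup H :=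
  layer H ⊔ (fittingSubgroup H ⊓ pPrimeCore q H)

theorem Y_def (q : ℕ) : Y q H = layer H ⊔ (fittingSubgroup H ⊓ pPrimeCore q H) := rfl

theorem Y_normal (q : ℕ) : (Y q H).Normal := by
  have := layer_normal (G := H)
  have := Cfsg.Agent.Lib.Cores.pPrimeCore_normal (G := H) q
  have := Cfsg.Agent.Lib.Cores.fittingSubgroup_normal (G := H)
  rw [Y_def]
  infer_instance

theorem Y_le_genFitting (q : ℕ) : Y q H ≤ generalizedFittingSubgroup H :=
  sup_le layer_le_genFitting (inf_le_left.trans fitting_le_genFitting)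

theorem genFitting_le (q : ℕ) [Fact q.Prime] :
    generalizedFittingSubgroup H ≤ pCore q H ⊔ Y q H := by
  refine sup_le (le_sup_left.trans le_sup_right) ((fitting_le_sup q).trans ?_)
  exact sup_le le_sup_left (le_sup_right.trans le_sup_right)

theorem pCore_le_centralizer_Y (q : ℕ) [Fact q.Prime] :
    pCore q H ≤ centralizer (Y q H : Set H) := by
  rw [le_centralizer_iff]
  refine sup_le ?_ ?_
  · have h1 := layer_le_centralizer_fitting (G := H)
    exact h1.trans (centralizer_le (Cfsg.Agent.Lib.Cores.pCore_le_fittingSubgroup q))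
  · refine inf_le_right.trans ?_
    rw [le_centralizer_iff]
    exact pCore_le_centralizer_pPrimeCore q

/-- The layer is generated by its elements of order prime to `p`. -/
theorem layer_le_of_coprime (p : ℕ) [Fact p.Prime]
    {K : Subgroup H} (h : ∀ y ∈ layer H, (orderOf y).Coprime p → y ∈ K) : layer H ≤ K := by
  have hn := Cfsg.Agent.TwoFusion.PResidual.pResidual_normal (G := layer H) p
  have h1 : pResidual p (layer H) = ⊤ := by
    by_contra hne
    have hp := Cfsg.Agent.TwoFusion.PResidual.isPGroup_quotient_pResidual (G := layer H) p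
    have : Group.IsNilpotent (layer H ⧸ pResidual p (layer H)) := hp.isNilpotent
    have hper : Group.IsPerfect (layer H ⧸ pResidual p (layer H)) := by
      have := layer_isPerfect H
      exact Group.IsPerfect.ofSurjective (f := QuotientGroup.mk' _) (QuotientGroup.mk'_surjective _)
    have hnt : Nontrivial (layer H ⧸ pResidual p (layer H)) := by
      rw [QuotientGroup.nontrivial_iff]
      exact hne
    exact Group.IsPerfect.not_isSolvable (layer H ⧸ pResidual p (layer H)) inferInstance
  have h2 : pResidual p (layer H) ≤ K.subgroupOf (layer H) := by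
    refine Cfsg.Agent.TwoFusion.PResidual.pResidual_le p (fun g hg => ?_)
    rw [mem_subgroupOf]
    refine h g g.2 ?_
    rwa [Subgroup.orderOf_coe]
  rw [h1, top_le_iff, subgroupOf_eq_top] at h2
  exact h2

/-- `O_{q'}(F*(H))` is generated by its `q'`-elements. -/
theorem Y_le_of_coprime (q : ℕ) [Fact q.Prime] {K : Subgroup H}
    (h : ∀ y ∈ Y q H, (orderOf y).Coprime q → y ∈ K) : Y q H ≤ K := by
  refine sup_le (layer_le_of_coprime q fun y hy hc => h y (mem_sup_left hy) hc) ?_
  intro y hy
  refine h y (mem_sup_right hy) ?_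
  have h1 := Cfsg.Agent.Lib.Cores.pPrimeCore_coprime (G := H) q
  have h2 : orderOf y ∣ Nat.card (pPrimeCore q H) := by
    have := orderOf_dvd_natCard (⟨y, hy.2⟩ : pPrimeCore q H)
    rwa [Subgroup.orderOf_mk] at this
  exact Nat.Coprime.coprime_dvd_left h2 h1

/-- If a product of commuting elements `z u` has order a power of `q`, `u` too, and `z` has order prime to `q`, then
`z = 1`. -/
theorem eq_one_of_mul {q : ℕ} {z u : H} (hc : Commute z u) {k l : ℕ}
    (h1 : (z * u) ^ q ^ k = 1) (h2 : u ^ q ^ l = 1) (hz : (orderOf z).Coprime q) : z = 1 := by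
  have h3 : (z * u) ^ q ^ (k + l) = 1 := by rw [pow_add, pow_mul, h1, one_pow]
  have h4 : u ^ q ^ (k + l) = 1 := by rw [pow_add, mul_comm, pow_mul, h2, one_pow]
  rw [hc.mul_pow, h4, mul_one] at h3
  have h5 : orderOf z ∣ q ^ (k + l) := orderOf_dvd_of_pow_eq_one h3
  have h6 : orderOf z = 1 :=
    Nat.eq_one_of_dvd_coprimes (Nat.Coprime.pow_right (k + l) hz) dvd_rfl h5
  exact orderOf_eq_one_iff.mp h6

/-- If `x` commutes with `z`, `x r x⁻¹ = z r`, `x` has order prime to `q` and `z` has `q`-power order then `z = 1`. -/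
theorem eq_one_of_conj {q : ℕ} {x z r : H} (hc : Commute x z) (h : x * r * x⁻¹ = z * r)
    {k : ℕ} (hz : z ^ q ^ k = 1) (hx : (orderOf x).Coprime q) : z = 1 := by
  have h1 : ∀ n : ℕ, x ^ n * r * (x ^ n)⁻¹ = z ^ n * r := by
    intro n
    induction n with
    | zero => simp
    | succ n ih =>
      have e1 : x ^ (n + 1) * r * (x ^ (n + 1))⁻¹ = x * (x ^ n * r * (x ^ n)⁻¹) * x⁻¹ := by
        rw [pow_succ']; group
      rw [e1, ih]
      have e2 : x * z ^ n = z ^ n * x := (hc.pow_right n).eq
      calc x * (z ^ n * r) * x⁻¹ = (x * z ^ n) * r * x⁻¹ := by group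
        _ = z ^ n * (x * r * x⁻¹) := by rw [e2]; group
        _ = z ^ (n + 1) * r := by rw [h, pow_succ]; group
  have h2 := h1 (orderOf x)
  rw [pow_orderOf_eq_one] at h2
  have h3 : z ^ orderOf x = 1 := by
    have : r = z ^ orderOf x * r := by simpa using h2
    exact (mul_eq_right.mp this.symm)
  have h4 : orderOf z ∣ orderOf x := orderOf_dvd_of_pow_eq_one h3
  have h5 : orderOf z ∣ q ^ k := orderOf_dvd_of_pow_eq_one hz
  have h6 : orderOf z = 1 := Nat.eq_one_of_dvd_coprimes (Nat.Coprime.pow_right k hx) h4 h5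
  exact orderOf_eq_one_iff.mp h6

/-- **Key lemma in one group.** A `q`-subgroup `R₁` centralizing `O_{q'}(F*(H))` commutes with every `q'`-element
centralizing `O_q(H)`. -/
theorem commute_of_centralizes (q : ℕ) [hq : Fact q.Prime] {R₁ : Subgroup H} (hR : IsPGroup q R₁)
    (hY : R₁ ≤ centralizer (Y q H : Set H)) {x : H} (hx : x ∈ centralizer (pCore q H : Set H))
    (hxq : (orderOf x).Coprime q) {r : H} (hr : r ∈ R₁) : x * r = r * x := by
  have hYn := Y_normal (H := H) q
  have hPn := Cfsg.Agent.Lib.Cores.pCore_normal (G := H) q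
  have hCY : (centralizer (Y q H : Set H)).Normal := inferInstance
  have hCP : (centralizer (pCore q H : Set H)).Normal := inferInstance
  set z : H := x * r * x⁻¹ * r⁻¹ with hz
  have hz1 : z ∈ centralizer (pCore q H : Set H) := by
    have : z = x * (r * x⁻¹ * r⁻¹) := by rw [hz]; group
    rw [this]
    exact mul_mem hx (hCP.conj_mem _ (inv_mem hx) r)
  have hz2 : z ∈ centralizer (Y q H : Set H) := by
    rw [hz]
    exact mul_mem (hCY.conj_mem _ (hY hr) x) (inv_mem (hY hr))
  have hz3 : z ∈ centralizer (generalizedFittingSubgroup H : Set H) := by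
    have h1 : pCore q H ⊔ Y q H ≤ centralizer ({z} : Set H) := by
      refine sup_le ?_ ?_
      · intro y hy
        rw [mem_centralizer_singleton_iff]
        exact (mem_centralizer_iff.mp hz1 y hy)
      · intro y hy
        rw [mem_centralizer_singleton_iff]
        exact (mem_centralizer_iff.mp hz2 y hy)
    rw [mem_centralizer_iff]
    intro y hy
    exact mem_centralizer_singleton_iff.mp (h1 (genFitting_le q hy))
  have hz4 : z ∈ fittingSubgroup H := centralizer_genFitting_le_fitting hz3
  obtain ⟨a, b, hab, ha, hb⟩ := exists_fitting_decomp q hz4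
  have hbY : z ^ b ∈ Y q H := mem_sup_right hb
  have hbr : Commute (z ^ b) r := mem_centralizer_iff.mp (hY hr) _ hbY
  have hba : Commute (z ^ b) (z ^ a) := ((Commute.refl z).zpow_zpow b a)
  have hbc : (orderOf (z ^ b)).Coprime q := by
    have h1 := Cfsg.Agent.Lib.Cores.pPrimeCore_coprime (G := H) q
    have h2 : orderOf (z ^ b) ∣ Nat.card (pPrimeCore q H) := by
      have := orderOf_dvd_natCard (⟨z ^ b, hb.2⟩ : pPrimeCore q H)
      rwa [Subgroup.orderOf_mk] at this
    exact Nat.Coprime.coprime_dvd_left h2 h1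
  have hsup : IsPGroup q (pCore q H ⊔ R₁ : Subgroup H) :=
    (Cfsg.Agent.Lib.Cores.pCore_isPGroup q).to_sup_of_normal_left hR
  have hu : z ^ a * r ∈ pCore q H ⊔ R₁ := mul_mem (mem_sup_left ha) (mem_sup_right hr)
  obtain ⟨l, hl⟩ := hsup ⟨_, hu⟩
  have hl' : (z ^ a * r) ^ q ^ l = 1 := by simpa using congrArg Subtype.val hl
  obtain ⟨k, hk⟩ := hR ⟨r, hr⟩
  have hk' : r ^ q ^ k = 1 := by simpa using congrArg Subtype.val hk
  have hxr : x * r * x⁻¹ = z ^ b * (z ^ a * r) := by
    rw [← mul_assoc, hba.eq, ← hab, hz]; group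
  have h1 : z ^ b = 1 := by
    refine eq_one_of_mul (q := q) (u := z ^ a * r) ?_ (k := k) (l := l) ?_ hl' hbc
    · exact (hba.mul_right hbr)
    · rw [← hxr, conj_pow, hk']; group
  have h2 : z = z ^ a := by
    have := hab
    rwa [h1, mul_one] at this
  have hzP : z ∈ pCore q H := by rw [h2]; exact ha
  obtain ⟨m, hm⟩ := (Cfsg.Agent.Lib.Cores.pCore_isPGroup (G := H) q) ⟨z, hzP⟩
  have hm' : z ^ q ^ m = 1 := by simpa using congrArg Subtype.val hm
  have hxz : Commute x z := (mem_centralizer_iff.mp hx z hzP).symm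
  have h3 : z = 1 := eq_one_of_conj (q := q) hxz (r := r) (by rw [hz]; group) hm' hxq
  have h4 : x * r * x⁻¹ * r⁻¹ = 1 := by rw [← hz]; exact h3
  have h5 : x * r * x⁻¹ = r := by rwa [mul_inv_eq_one] at h4
  rwa [mul_inv_eq_iff_eq_mul] at h5

end one

end Cfsg.Agent.H429.TW
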