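import Mathlib
import Cfsg.Agent.H429.TW

/-!
# The Thompson–Wielandt theorem for pairs of maximal subgroups: the pair
-/

set_option autoImplicit false
set_option linter.unusedSectionVars false

namespace Cfsg.Agent.H429.TW

open Subgroup Cfsg
open Cfsg.Agent.SignalizersComponents.Components
open Cfsg.Agent.TwoFusion.FStarControl

variable {G : Type*} [Group G]

/-- `O_{q'}(F*(X))` in the ambient group. -/
def YY (q : ℕ) (X : Subgroup G) : Subgroup G := (Y q X).map X.subtype

/-- `O_q(X)` in the ambient group. -/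
def OO (q : ℕ) (X : Subgroup G) : Subgroup G := (pCore q X).map X.subtype

theorem YY_def (q : ℕ) (X : Subgroup G) : YY q X = (Y q X).map X.subtype := rfl
theorem OO_def (q : ℕ) (X : Subgroup G) : OO q X = (pCore q X).map X.subtype := rfl

theorem YY_le (q : ℕ) (X : Subgroup G) : YY q X ≤ X := map_subtype_le _
theorem OO_le (q : ℕ) (X : Subgroup G) : OO q X ≤ X := map_subtype_le _

theorem le_normalizer_map_subtype {X : Subgroup G} {N : Subgroup X} (hN : N.Normal) :
    X ≤ normalizer ((N.map X.subtype : Subgroup G) : Set G) := by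
  have h := le_normalizer_map (H := N) X.subtype
  rw [normalizer_eq_top_iff.mpr hN, ← MonoidHom.range_eq_map, range_subtype] at h
  exact h

theorem OO_isPGroup (q : ℕ) (X : Subgroup G) : IsPGroup q (OO q X) :=
  (Cfsg.Agent.Lib.Cores.pCore_isPGroup q).map X.subtype

theorem le_normalizer_OO (q : ℕ) (X : Subgroup G) : X ≤ normalizer (OO q X : Set G) :=
  le_normalizer_map_subtype (Cfsg.Agent.Lib.Cores.pCore_normal q)

variable [Finite G]

theorem le_normalizer_YY (q : ℕ) (X : Subgroup G) : X ≤ normalizer (YY q X : Set G) :=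
  le_normalizer_map_subtype (Y_normal q)

theorem OO_le_centralizer_YY (q : ℕ) [Fact q.Prime] (X : Subgroup G) :
    OO q X ≤ centralizer (YY q X : Set G) := by
  rintro _ ⟨x, hx, rfl⟩
  rw [mem_centralizer_iff]
  rintro _ ⟨y, hy, rfl⟩
  have := mem_centralizer_iff.mp (pCore_le_centralizer_Y q hx) y hy
  exact congrArg Subtype.val this

theorem YY_le_of_coprime (q : ℕ) [Fact q.Prime] {X K : Subgroup G}
    (h : ∀ y ∈ YY q X, (orderOf y).Coprime q → y ∈ K) : YY q X ≤ K := by
  have h1 : Y q X ≤ K.subgroupOf X := by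
    refine Y_le_of_coprime q fun y hy hc => ?_
    rw [mem_subgroupOf]
    refine h y ⟨y, hy, rfl⟩ ?_
    rwa [Subgroup.orderOf_coe]
  rintro _ ⟨y, hy, rfl⟩
  exact h1 hy

/-- A `q`-subgroup normal in `X` is in `O_q(X)`. -/
theorem le_OO (q : ℕ) {X T : Subgroup G} (hT : IsPGroup q T) (hTX : T ≤ X)
    (hn : X ≤ normalizer (T : Set G)) : T ≤ OO q X := by
  have hN : (T.subgroupOf X).Normal := by
    rw [normal_subgroupOf_iff_le_normalizer hTX]; exact hn
  have h1 : T.subgroupOf X ≤ pCore q X :=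
    Cfsg.Agent.Lib.Cores.le_pCore hN (hT.comap_of_injective X.subtype X.subtype_injective)
  intro t ht
  exact ⟨⟨t, hTX ht⟩, h1 (mem_subgroupOf.mpr ht), rfl⟩

/-- `q'`-elements of `O_{q'}(F*(B)) ≤ A` commute with `O_q(A) ∩ B`. -/
theorem commute_OO (q : ℕ) [Fact q.Prime] {A B : Subgroup G} (hYA : YY q B ≤ A) {r y : G}
    (hr : r ∈ OO q A) (hrB : r ∈ B) (hy : y ∈ YY q B) (hyq : (orderOf y).Coprime q) :
    r * y = y * r := by
  set V : Subgroup G := OO q A ⊓ YY q B with hV
  have hVB : V ≤ B := inf_le_right.trans (YY_le q B)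
  set v : G := r * y * r⁻¹ * y⁻¹ with hv
  have hrY : r * y * r⁻¹ ∈ YY q B := (mem_normalizer_iff.mp (le_normalizer_YY q B hrB) y).mp hy
  have hv1 : v ∈ YY q B := mul_mem hrY (inv_mem hy)
  have hv2 : v ∈ OO q A := by
    have h1 : y * r⁻¹ * y⁻¹ ∈ OO q A :=
      (mem_normalizer_iff.mp (le_normalizer_OO q A (hYA hy)) r⁻¹).mp (inv_mem hr)
    have : v = r * (y * r⁻¹ * y⁻¹) := by rw [hv]; group
    rw [this]
    exact mul_mem hr h1
  have hVn : YY q B ≤ normalizer (V : Set G) := by
    intro x hx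
    have h1 := mem_normalizer_iff.mp (le_normalizer_OO q A (hYA hx))
    rw [mem_normalizer_iff]
    intro w
    constructor
    · rintro ⟨ha, hb⟩
      exact ⟨(h1 w).mp ha, (YY q B).mul_mem ((YY q B).mul_mem hx hb) ((YY q B).inv_mem hx)⟩
    · rintro ⟨ha, hb⟩
      refine ⟨(h1 w).mpr ha, ?_⟩
      have e : w = x⁻¹ * (x * w * x⁻¹) * x := by group
      have h3 : x⁻¹ * (x * w * x⁻¹) * x ∈ YY q B :=
        (YY q B).mul_mem ((YY q B).mul_mem ((YY q B).inv_mem hx) hb) hx
      rwa [← e] at h3
  have hVO : V.subgroupOf B ≤ pCore q B := by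
    refine Cfsg.Agent.Lib.GenFitting.le_pCore_of_normal_in_normal (X := Y q B) (Y_normal q) ?_ ?_ ?_
    · intro w hw
      obtain ⟨w', hw', hww⟩ := (mem_subgroupOf.mp hw).2
      have : w' = w := Subtype.ext hww
      rwa [this] at hw'
    · intro x hx
      rw [mem_normalizer_iff]
      intro w
      have := mem_normalizer_iff.mp (hVn ⟨x, hx, rfl⟩) w
      exact this
    · refine IsPGroup.comap_of_injective ?_ B.subtype B.subtype_injective
      exact (OO_isPGroup q A).to_le inf_le_left
  have hvO : v ∈ OO q B := ⟨⟨v, YY_le q B hv1⟩, hVO (mem_subgroupOf.mpr ⟨hv2, hv1⟩), rfl⟩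
  have hvy : Commute v y := (mem_centralizer_iff.mp (OO_le_centralizer_YY q B hvO) y hy).symm
  have h1 : r * y * r⁻¹ = v * y := by rw [hv]; group
  have h2 : v ^ orderOf y = 1 := by
    have h3 : (v * y) ^ orderOf y = 1 := by
      rw [← h1, conj_pow, pow_orderOf_eq_one]; group
    rwa [hvy.mul_pow, pow_orderOf_eq_one, mul_one] at h3
  obtain ⟨k, hk⟩ := OO_isPGroup q B ⟨v, hvO⟩
  have hk' : v ^ q ^ k = 1 := by simpa using congrArg Subtype.val hk
  have h4 : orderOf v = 1 := Nat.eq_one_of_dvd_coprimes (Nat.Coprime.pow_right k hyq)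
    (orderOf_dvd_of_pow_eq_one h2) (orderOf_dvd_of_pow_eq_one hk')
  have h5 : v = 1 := orderOf_eq_one_iff.mp h4
  rw [h5, one_mul, mul_inv_eq_iff_eq_mul] at h1
  exact h1

/-- The `A × B` step. -/
theorem OO_le_of_normal (q : ℕ) [Fact q.Prime] {A B T' : Subgroup G} (hYA : YY q B ≤ A)
    (hT'p : IsPGroup q T') (hT'A : T' ≤ A) (hT'B : T' ≤ B) (hn : B ≤ normalizer (T' : Set G))
    (hc : centralizer (T' : Set G) ≤ B) : YY q B ≤ centralizer (OO q A : Set G) := by
  refine YY_le_of_coprime q fun y hy hyq => ?_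
  have h1 : zpowers y ≤ centralizer (OO q A : Set G) := by
    refine Cfsg.Agent.Lib.ThompsonPQ.thompson_p_times_q q T' (zpowers y) (OO q A) hT'p ?_
      (OO_isPGroup q A) ?_ ?_ ?_ ?_
    · rwa [Nat.card_zpowers]
    · have h2 := (le_OO q hT'p hT'B hn).trans (OO_le_centralizer_YY q B)
      refine h2.trans (centralizer_le ?_)
      exact_mod_cast (zpowers_le.mpr hy)
    · exact hT'A.trans (le_normalizer_OO q A)
    · exact (zpowers_le.mpr (hYA hy)).trans (le_normalizer_OO q A)
    · rintro r ⟨hr1, hr2⟩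
      have h3 := commute_OO q hYA hr1 (hc hr2) hy hyq
      rw [mem_centralizer_iff]
      rintro _ ⟨n, rfl⟩
      exact ((show Commute r y from h3).zpow_right n).symm
  exact h1 (mem_zpowers y)

/-- The subgroup generated by the `q'`-elements of the centralizer. -/
def LL (q : ℕ) (X : Subgroup G) : Subgroup G :=
  closure {x | x ∈ centralizer (X : Set G) ∧ (orderOf x).Coprime q}

theorem LL_le (q : ℕ) (X : Subgroup G) : LL q X ≤ centralizer (X : Set G) := by
  rw [LL, closure_le]
  exact fun x hx => hx.1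

theorem mem_LL {q : ℕ} {X : Subgroup G} {x : G} (h1 : x ∈ centralizer (X : Set G))
    (h2 : (orderOf x).Coprime q) : x ∈ LL q X := subset_closure ⟨h1, h2⟩

theorem orderOf_conj' (g x : G) : orderOf (g * x * g⁻¹) = orderOf x := by
  have := orderOf_injective (MulAut.conj g).toMonoidHom (MulAut.conj g).injective x
  simpa using this

theorem map_conj_LL_le (q : ℕ) (X : Subgroup G) (g : G) :
    (LL q X).map (MulAut.conj g).toMonoidHom ≤ LL q (X.map (MulAut.conj g).toMonoidHom) := by
  rw [map_le_iff_le_comap, LL, closure_le]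
  rintro x ⟨hx1, hx2⟩
  change g * x * g⁻¹ ∈ LL q (X.map (MulAut.conj g).toMonoidHom)
  refine mem_LL ?_ ?_
  · rw [mem_centralizer_iff]
    rintro _ ⟨y, hy, rfl⟩
    have := mem_centralizer_iff.mp hx1 y hy
    change g * y * g⁻¹ * (g * x * g⁻¹) = g * x * g⁻¹ * (g * y * g⁻¹)
    calc g * y * g⁻¹ * (g * x * g⁻¹) = g * (y * x) * g⁻¹ := by group
      _ = g * (x * y) * g⁻¹ := by rw [this]
      _ = _ := by group
  · rwa [orderOf_conj']

theorem card_LL_le (q : ℕ) (X : Subgroup G) (g : G) :
    Nat.card (LL q X) ≤ Nat.card (LL q (X.map (MulAut.conj g).toMonoidHom)) := by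
  rw [← card_map_of_injective (K := LL q X) (f := (MulAut.conj g).toMonoidHom)
    (MulAut.conj g).injective]
  exact Nat.card_mono (Set.toFinite _) (map_conj_LL_le q X g)

theorem normalizer_le_normalizer_LL (q : ℕ) (X : Subgroup G) :
    normalizer (X : Set G) ≤ normalizer (LL q X : Set G) := by
  have key : ∀ g ∈ normalizer (X : Set G), ∀ x ∈ LL q X, g * x * g⁻¹ ∈ LL q X := by
    intro g hg x hx
    have h1 := map_conj_LL_le q X g (mem_map_of_mem _ hx)
    have h2 : X.map (MulAut.conj g).toMonoidHom = X := by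
      ext y
      rw [mem_map_equiv, MulAut.conj_symm_apply]
      have := mem_normalizer_iff.mp (inv_mem hg) y
      rw [inv_inv] at this
      exact this.symm
    rwa [h2] at h1
  intro g hg
  rw [mem_normalizer_iff]
  intro x
  refine ⟨key g hg x, fun h => ?_⟩
  have := key g⁻¹ (inv_mem hg) _ h
  have e : g⁻¹ * (g * x * g⁻¹) * g⁻¹⁻¹ = x := by group
  rwa [e] at this

/-- `O_q` of a conjugate. -/
theorem map_conj_OO (q : ℕ) (X : Subgroup G) (g : G) :
    (OO q X).map (MulAut.conj g).toMonoidHom = OO q (X.map (MulAut.conj g).toMonoidHom) := by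
  have h := Cfsg.Agent.Lib.Cores.map_equiv_pCore
    (X.equivMapOfInjective (MulAut.conj g).toMonoidHom (MulAut.conj g).injective) q
  rw [OO_def, OO_def, ← h, map_map, map_map]
  congr 1

theorem map_conj_genFitting {X Z : Subgroup G} {g : G}
    (h : X.map (MulAut.conj g).toMonoidHom = Z) (q : ℕ) :
    generalizedFittingSubgroup X = pCore q X ↔ generalizedFittingSubgroup Z = pCore q Z := by
  subst h
  let e := X.equivMapOfInjective (MulAut.conj g).toMonoidHom (MulAut.conj g).injective
  have h1 := Cfsg.Agent.Lib.Cores.map_equiv_pCore e q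
  have h2 := Cfsg.Agent.Lib.GenFitting.map_genFitting e
  constructor
  · intro h3
    rw [← h1, ← h2, h3]
  · intro h3
    apply map_injective (f := e.toMonoidHom) e.injective
    rw [h1, h2, h3]

/-- If `F*(X) ≠ O_q(X)` then `O_{q'}(F*(X)) ≠ 1`. -/
theorem YY_ne_bot (q : ℕ) [Fact q.Prime] {X : Subgroup G}
    (h : generalizedFittingSubgroup X ≠ pCore q X) : YY q X ≠ ⊥ := by
  intro h1
  apply h
  have h2 : Y q X = ⊥ := (map_eq_bot_iff_of_injective _ X.subtype_injective).mp h1
  apply le_antisymm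
  · have := genFitting_le (H := X) q
    rwa [h2, sup_bot_eq] at this
  · exact (Cfsg.Agent.Lib.Cores.pCore_le_fittingSubgroup q).trans fitting_le_genFitting

/-- The situation: two different conjugate subgroups `A`, `B` such that `A` contains the normalizer of each
nontrivial normal subgroup of `A`, and the same for `B`; the generalized Fitting subgroups are not of prime power
order. -/
structure Hyp (A B : Subgroup G) : Prop where
  hA : ∀ X : Subgroup G, X ≤ A → X ≠ ⊥ → A ≤ normalizer (X : Set G) → normalizer (X : Set G) ≤ A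
  hB : ∀ X : Subgroup G, X ≤ B → X ≠ ⊥ → B ≤ normalizer (X : Set G) → normalizer (X : Set G) ≤ B
  conj : ∃ g : G, A.map (MulAut.conj g).toMonoidHom = B
  ne : A ≠ B
  nF : ∀ q : ℕ, q.Prime → generalizedFittingSubgroup A ≠ pCore q A

theorem Hyp.conj_symm {A B : Subgroup G} (h : ∃ g : G, A.map (MulAut.conj g).toMonoidHom = B) :
    ∃ g : G, B.map (MulAut.conj g).toMonoidHom = A := by
  obtain ⟨g, rfl⟩ := h
  refine ⟨g⁻¹, ?_⟩
  rw [map_map]
  have : (MulAut.conj g⁻¹).toMonoidHom.comp (MulAut.conj g).toMonoidHom = MonoidHom.id G := by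
    ext x
    simp [mul_assoc]
  rw [this, map_id]

theorem Hyp.nFB {A B : Subgroup G} (h : Hyp A B) (q : ℕ) (hq : q.Prime) :
    generalizedFittingSubgroup B ≠ pCore q B := by
  obtain ⟨g, hg⟩ := h.conj
  intro h1
  exact h.nF q hq ((map_conj_genFitting hg q).mpr h1)

theorem Hyp.symm {A B : Subgroup G} (h : Hyp A B) : Hyp B A :=
  ⟨h.hB, h.hA, Hyp.conj_symm h.conj, h.ne.symm, h.nFB⟩

theorem Hyp.card_eq {A B : Subgroup G} (h : Hyp A B) : Nat.card A = Nat.card B := by
  obtain ⟨g, hg⟩ := h.conj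
  rw [← hg, card_map_of_injective (MulAut.conj g).injective]

theorem Hyp.not_le {A B : Subgroup G} (h : Hyp A B) : ¬ A ≤ B := fun h1 =>
  h.ne (eq_of_le_of_card_ge h1 h.card_eq.ge)

/-- A nontrivial subgroup is not normal in both. -/
theorem Hyp.false_of_normal {A B : Subgroup G} (h : Hyp A B) {X : Subgroup G} (hX : X ≤ B)
    (h1 : X ≠ ⊥) (hA : A ≤ normalizer (X : Set G)) (hB : B ≤ normalizer (X : Set G)) : False :=
  h.not_le (hA.trans (h.hB X hX h1 hB))

/-- **Lemma A**. -/
theorem Hyp.false_of_centralizes {A B : Subgroup G} (h : Hyp A B) (q : ℕ) [hq : Fact q.Prime]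
    (h1 : OO q A ≠ ⊥) (hAB : OO q A ≤ B) (hY : OO q A ≤ centralizer (YY q B : Set G)) : False := by
  obtain ⟨g, hg⟩ := h.conj
  have hOB : OO q B = (OO q A).map (MulAut.conj g).toMonoidHom := by rw [map_conj_OO, hg]
  have hOB1 : OO q B ≠ ⊥ := by
    rw [hOB]
    intro h2
    exact h1 ((map_eq_bot_iff_of_injective _ (MulAut.conj g).injective).mp h2)
  have hCA : centralizer (OO q A : Set G) ≤ A :=
    (centralizer_le_normalizer _).trans (h.hA _ (OO_le q A) h1 (le_normalizer_OO q A))
  have hCB : centralizer (OO q B : Set G) ≤ B :=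
    (centralizer_le_normalizer _).trans (h.hB _ (OO_le q B) hOB1 (le_normalizer_OO q B))
  have hle : LL q (OO q B) ≤ LL q (OO q A) := by
    rw [LL, closure_le]
    rintro x ⟨hx1, hx2⟩
    refine mem_LL ?_ hx2
    rw [mem_centralizer_iff]
    intro r hr
    have hR : IsPGroup q ((OO q A).subgroupOf B) :=
      (OO_isPGroup q A).comap_of_injective B.subtype B.subtype_injective
    have hYR : (OO q A).subgroupOf B ≤ centralizer (Y q B : Set B) := by
      intro s hs
      rw [mem_centralizer_iff]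
      intro y hy
      apply Subtype.ext
      exact mem_centralizer_iff.mp (hY (mem_subgroupOf.mp hs)) y ⟨y, hy, rfl⟩
    have hxB : (⟨x, hCB hx1⟩ : B) ∈ centralizer (pCore q B : Set B) := by
      rw [mem_centralizer_iff]
      intro y hy
      apply Subtype.ext
      exact mem_centralizer_iff.mp hx1 y ⟨y, hy, rfl⟩
    have := commute_of_centralizes q hR hYR hxB (by rwa [Subgroup.orderOf_mk])
      (r := ⟨r, hAB hr⟩) (mem_subgroupOf.mpr hr)
    exact (congrArg Subtype.val this).symm
  have heq : LL q (OO q B) = LL q (OO q A) := by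
    refine eq_of_le_of_card_ge hle ?_
    rw [hOB]
    exact card_LL_le q (OO q A) g
  have hYL : YY q B ≤ LL q (OO q B) := by
    refine YY_le_of_coprime q fun y hy hc => mem_LL ?_ hc
    exact le_centralizer_iff.mp (OO_le_centralizer_YY q B) hy
  refine h.false_of_normal (X := LL q (OO q B)) ((LL_le q _).trans hCB) ?_ ?_ ?_
  · intro h2
    rw [h2, le_bot_iff] at hYL
    exact YY_ne_bot q (h.nFB q hq.out) hYL
  · rw [heq]
    exact (le_normalizer_OO q A).trans (normalizer_le_normalizer_LL q _)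
  · exact (le_normalizer_OO q B).trans (normalizer_le_normalizer_LL q _)

/-- **Lemma A'**. -/
theorem Hyp.false_of_le {A B : Subgroup G} (h : Hyp A B) (q : ℕ) [hq : Fact q.Prime]
    (h1 : OO q A ≠ ⊥) (hAB : OO q A ≤ B) (hYA : YY q B ≤ A) : False := by
  refine h.false_of_centralizes q h1 hAB ?_
  rw [le_centralizer_iff]
  refine YY_le_of_coprime q fun y hy hyq => ?_
  rw [mem_centralizer_iff]
  intro r hr
  exact commute_OO q hYA hr (hAB hr) hy hyq

end Cfsg.Agent.H429.TW
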