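import Mathlib
import Cfsg.Agent.H429.TWPair
import Cfsg.Agent.PLocal.SubnormalCore

/-!
# The Thompson–Wielandt theorem for pairs of maximal subgroups: the theorem
-/

set_option autoImplicit false
set_option linter.unusedSectionVars false

namespace Cfsg.Agent.H429.TW

open Subgroup Cfsg
open scoped commutatorElement
open Cfsg.Agent.SignalizersComponents.Components
open Cfsg.Agent.TwoFusion.FStarControl

variable {G : Type*} [Group G] [Finite G]

/-- `F*(X)` in the ambient group. -/
def FF (X : Subgroup G) : Subgroup G := (generalizedFittingSubgroup X).map X.subtype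

theorem FF_def (X : Subgroup G) : FF X = (generalizedFittingSubgroup X).map X.subtype := rfl

theorem YY_le_FF (q : ℕ) (X : Subgroup G) : YY q X ≤ FF X := map_mono (Y_le_genFitting q)

theorem OO_le_FF (q : ℕ) [Fact q.Prime] (X : Subgroup G) : OO q X ≤ FF X :=
  map_mono ((Cfsg.Agent.Lib.Cores.pCore_le_fittingSubgroup q).trans fitting_le_genFitting)

theorem FF_le (X : Subgroup G) : FF X ≤ X := map_subtype_le _

theorem le_normalizer_FF (X : Subgroup G) : X ≤ normalizer (FF X : Set G) :=
  le_normalizer_map_subtype (genFitting_normal X)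

/-- A group which is not a `p`-group has a nontrivial element of order prime to `p`. -/
theorem exists_coprime_of_not_isPGroup {p : ℕ} [hp : Fact p.Prime] {T : Subgroup G}
    (h : ¬ IsPGroup p T) : ∃ t ∈ T, t ≠ 1 ∧ (orderOf t).Coprime p := by
  by_contra hcon
  push Not at hcon
  apply h
  intro t
  have hpos : orderOf (t : G) ≠ 0 := (orderOf_pos _).ne'
  refine ⟨(orderOf (t : G)).factorization p, ?_⟩
  apply Subtype.ext
  by_contra hne
  have hmem : ((t : G) ^ p ^ (orderOf (t : G)).factorization p) ∈ T := pow_mem t.2 _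
  have := hcon _ hmem (by simpa using hne)
  apply this
  rw [orderOf_pow_of_dvd (pow_ne_zero _ hp.out.ne_zero) (Nat.ordProj_dvd _ _)]
  exact (Nat.coprime_ordCompl hp.out hpos).symm

/-- `O_p(B)` normalizes the subgroup generated by the `p'`-elements of `T`, `T ⊴ C₂ ⊴ B`. -/
theorem OO_le_normalizer_closure (p : ℕ) {B T C₂ : Subgroup G}
    (hTC : T ≤ C₂) (hC2B : C₂ ≤ B) (hC2n : B ≤ normalizer (C₂ : Set G))
    (hTn : C₂ ≤ normalizer (T : Set G)) :
    OO p B ≤ normalizer (closure {t | t ∈ T ∧ (orderOf t).Coprime p} : Set G) := by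
  have key : ∀ r ∈ OO p B, ∀ t ∈ closure {t | t ∈ T ∧ (orderOf t).Coprime p},
      r * t * r⁻¹ ∈ closure {t | t ∈ T ∧ (orderOf t).Coprime p} := by
    intro r hr t ht
    have h1 : closure {t | t ∈ T ∧ (orderOf t).Coprime p} ≤
        (closure {t | t ∈ T ∧ (orderOf t).Coprime p}).comap (MulAut.conj r).toMonoidHom := by
      rw [closure_le]
      rintro s ⟨hs1, hs2⟩
      change r * s * r⁻¹ ∈ closure {t | t ∈ T ∧ (orderOf t).Coprime p}
      refine subset_closure ⟨?_, ?_⟩
      swap
      · rwa [orderOf_conj']
      -- `r s r⁻¹ = v s`, `v ∈ O_p(B) ∩ C₂`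
      have hrB := OO_le p B hr
      have hsB := hC2B (hTC hs1)
      set v : G := r * s * r⁻¹ * s⁻¹ with hv
      have hvO : v ∈ OO p B := by
        have e : v = r * (s * r⁻¹ * s⁻¹) := by rw [hv]; group
        rw [e]
        exact mul_mem hr ((mem_normalizer_iff.mp (le_normalizer_OO p B hsB) r⁻¹).mp (inv_mem hr))
      have hvC : v ∈ C₂ :=
        mul_mem ((mem_normalizer_iff.mp (hC2n hrB) s).mp (hTC hs1)) (inv_mem (hTC hs1))
      have hN : (T.subgroupOf C₂).Normal := by
        rw [normal_subgroupOf_iff_le_normalizer hTC]; exact hTn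
      obtain ⟨k, hk⟩ := OO_isPGroup p B ⟨v, hvO⟩
      have hk' : v ^ p ^ k = 1 := by simpa using congrArg Subtype.val hk
      have h2 : (r * s * r⁻¹) ^ p ^ k ∈ T := by
        have e : r * s * r⁻¹ = v * s := by rw [hv]; group
        have h3 : ((⟨v, hvC⟩ * ⟨s, hTC hs1⟩ : C₂) ^ p ^ k) ∈ T.subgroupOf C₂ := by
          rw [← QuotientGroup.eq_one_iff, QuotientGroup.mk_pow, QuotientGroup.mk_mul]
          have h4 : ((⟨s, hTC hs1⟩ : C₂) : C₂ ⧸ T.subgroupOf C₂) = 1 := by
            rw [QuotientGroup.eq_one_iff]
            exact mem_subgroupOf.mpr hs1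
          rw [h4, mul_one, ← QuotientGroup.mk_pow]
          have h5 : (⟨v, hvC⟩ : C₂) ^ p ^ k = 1 := Subtype.ext (by simpa using hk')
          rw [h5, QuotientGroup.mk_one]
        rw [e]
        simpa using mem_subgroupOf.mp h3
      have h6 : (orderOf (r * s * r⁻¹)).Coprime (p ^ k) := by
        rw [orderOf_conj']; exact Nat.Coprime.pow_right k hs2
      obtain ⟨m, hm⟩ := exists_pow_eq_self_of_coprime h6.symm
      rw [← hm]
      exact pow_mem h2 m
    exact h1 ht
  intro r hr
  rw [mem_normalizer_iff]
  intro x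
  refine ⟨key r hr x, fun h => ?_⟩
  have := key r⁻¹ (inv_mem hr) _ h
  have e : r⁻¹ * (r * x * r⁻¹) * r⁻¹⁻¹ = x := by group
  rwa [e] at this

/-- A subgroup normalized by `A`: so is the subgroup generated by its `p'`-elements. -/
theorem normalizer_le_normalizer_closure (p : ℕ) (T : Subgroup G) :
    normalizer (T : Set G) ≤
      normalizer (closure {t | t ∈ T ∧ (orderOf t).Coprime p} : Set G) := by
  have key : ∀ r ∈ normalizer (T : Set G), ∀ t ∈ closure {t | t ∈ T ∧ (orderOf t).Coprime p},
      r * t * r⁻¹ ∈ closure {t | t ∈ T ∧ (orderOf t).Coprime p} := by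
    intro r hr t ht
    have h1 : closure {t | t ∈ T ∧ (orderOf t).Coprime p} ≤
        (closure {t | t ∈ T ∧ (orderOf t).Coprime p}).comap (MulAut.conj r).toMonoidHom := by
      rw [closure_le]
      rintro s ⟨hs1, hs2⟩
      change r * s * r⁻¹ ∈ closure {t | t ∈ T ∧ (orderOf t).Coprime p}
      refine subset_closure ⟨(mem_normalizer_iff.mp hr s).mp hs1, ?_⟩
      rwa [orderOf_conj']
    exact h1 ht
  intro r hr
  rw [mem_normalizer_iff]
  intro x
  refine ⟨key r hr x, fun h => ?_⟩
  have := key r⁻¹ (inv_mem hr) _ h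
  have e : r⁻¹ * (r * x * r⁻¹) * r⁻¹⁻¹ = x := by group
  rwa [e] at this

/-- Data: `1 ≠ T ⊴ A`, `T ≤ C₂ ⊴ B`, `C₂ ≤ A`. -/
structure Core (A B T : Subgroup G) : Prop where
  ne : T ≠ ⊥
  n : A ≤ normalizer (T : Set G)
  ex : ∃ C₂ : Subgroup G, T ≤ C₂ ∧ C₂ ≤ A ∧ C₂ ≤ B ∧ B ≤ normalizer (C₂ : Set G)

theorem Core.le_left {A B T : Subgroup G} (c : Core A B T) : T ≤ A := by
  obtain ⟨C₂, h1, h2, h3, h4⟩ := c.ex
  exact h1.trans h2

theorem Core.le_right {A B T : Subgroup G} (c : Core A B T) : T ≤ B := by
  obtain ⟨C₂, h1, h2, h3, h4⟩ := c.ex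
  exact h1.trans h3

theorem Core.normalizer_le {A B T : Subgroup G} (c : Core A B T) (h : Hyp A B) :
    normalizer (T : Set G) ≤ A := h.hA T c.le_left c.ne c.n

theorem Core.isSubnormal {A B T : Subgroup G} (c : Core A B T) : (T.subgroupOf B).IsSubnormal := by
  obtain ⟨C₂, h1, h2, h3, h4⟩ := c.ex
  refine IsSubnormal.step _ (C₂.subgroupOf B) ?_ (Normal.isSubnormal ?_) ?_
  · intro x hx
    exact mem_subgroupOf.mpr (h1 (mem_subgroupOf.mp hx))
  · rw [normal_subgroupOf_iff_le_normalizer h3]; exact h4
  · have hle : T.subgroupOf B ≤ C₂.subgroupOf B := fun x hx =>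
      mem_subgroupOf.mpr (h1 (mem_subgroupOf.mp hx))
    rw [normal_subgroupOf_iff_le_normalizer hle]
    intro x hx
    rw [mem_normalizer_iff]
    intro y
    exact mem_normalizer_iff.mp (c.n (h2 (mem_subgroupOf.mp hx))) y

/-- If `T` is not of prime power order then `F*(B) ≤ A`. -/
theorem Core.FF_le {A B T : Subgroup G} (c : Core A B T) (h : Hyp A B)
    (hT : ¬ ∃ q : ℕ, q.Prime ∧ IsPGroup q T) : FF B ≤ A := by
  have hsub := c.isSubnormal
  have hle := c.normalizer_le h
  have h1 : generalizedFittingSubgroup B ≤ A.subgroupOf B := by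
    refine sup_le ?_ ?_
    · rw [layer_le_iff]
      intro K hK x hx
      rw [mem_subgroupOf]
      apply hle
      rw [mem_normalizer_iff]
      intro y
      rcases component_le_or_commutator_eq_bot hK hsub with h2 | h2
      · have hxT : (x : G) ∈ T := mem_subgroupOf.mp (h2 hx)
        constructor
        · intro hy; exact mul_mem (mul_mem hxT hy) (inv_mem hxT)
        · intro hy
          have e : y = (x : G)⁻¹ * (x * y * (x : G)⁻¹) * x := by group
          rw [e]; exact mul_mem (mul_mem (inv_mem hxT) hy) hxT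
      · have h3 : ∀ t : G, t ∈ T → (x : G) * t * (x : G)⁻¹ = t := by
          intro t ht
          have h4 : ⁅x, (⟨t, c.le_right ht⟩ : B)⁆ = 1 := by
            have := commutator_mem_commutator hx (mem_subgroupOf.mpr ht : (⟨t, c.le_right ht⟩ : B) ∈ _)
            rwa [h2, mem_bot] at this
          rw [commutatorElement_eq_one_iff_mul_comm] at h4
          have h5 : (x : G) * t = t * x := congrArg Subtype.val h4
          rw [h5]; group
        constructor
        · intro hy; rw [h3 y hy]; exact hy
        · intro hy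
          have h6 := h3 _ hy
          have e : (x : G) * y * (x : G)⁻¹ = y := by
            have := congrArg (fun z => (x : G)⁻¹ * z * x) h6
            simpa [mul_assoc] using this
          rwa [e] at hy
    · rw [Cfsg.Agent.Lib.Cores.fittingSubgroup_eq_iSup_pCore]
      refine iSup_le fun p => ?_
      have hp : Fact (p : ℕ).Prime := ⟨p.2⟩
      obtain ⟨C₂, k1, k2, k3, k4⟩ := c.ex
      have h2 := OO_le_normalizer_closure (p : ℕ) k1 k3 k4 (k2.trans c.n)
      have h3 : ¬ IsPGroup (p : ℕ) T := fun h4 => hT ⟨p, p.2, h4⟩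
      obtain ⟨t, ht, ht1, htc⟩ := exists_coprime_of_not_isPGroup h3
      have h4 : closure {t | t ∈ T ∧ (orderOf t).Coprime (p : ℕ)} ≤ A := by
        rw [closure_le]
        exact fun s hs => c.le_left hs.1
      have h5 : closure {t | t ∈ T ∧ (orderOf t).Coprime (p : ℕ)} ≠ ⊥ := by
        intro h6
        have h7 : t ∈ closure {t | t ∈ T ∧ (orderOf t).Coprime (p : ℕ)} := subset_closure ⟨ht, htc⟩
        rw [h6, mem_bot] at h7
        exact ht1 h7
      have h6 := h.hA _ h4 h5 (c.n.trans (normalizer_le_normalizer_closure (p : ℕ) T))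
      intro x hx
      exact mem_subgroupOf.mpr (h6 (h2 ⟨x, hx, rfl⟩))
  rintro _ ⟨x, hx, rfl⟩
  exact h1 hx

theorem Core.le_OO {A B T : Subgroup G} (c : Core A B T) {q : ℕ} (hT : IsPGroup q T) :
    T ≤ OO q A := TW.le_OO q hT c.le_left c.n

theorem Core.OO_ne_bot {A B T : Subgroup G} (c : Core A B T) {q : ℕ} (hT : IsPGroup q T) :
    OO q A ≠ ⊥ := by
  intro h
  have := c.le_OO hT
  rw [h, le_bot_iff] at this
  exact c.ne this

/-- If `T` is a `q`-group then `O_{q'}(F*(B)) ≤ A`. -/
theorem Core.YY_le {A B T : Subgroup G} (c : Core A B T) (h : Hyp A B) {q : ℕ} [Fact q.Prime]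
    (hT : IsPGroup q T) : YY q B ≤ A := by
  have h1 : T.subgroupOf B ≤ pCore q B :=
    Cfsg.Agent.PLocal.SubnormalCore.le_pCore_of_isSubnormal c.isSubnormal
      (hT.comap_of_injective B.subtype B.subtype_injective)
  have h2 : T ≤ OO q B := fun t ht =>
    ⟨⟨t, c.le_right ht⟩, h1 (mem_subgroupOf.mpr ht), rfl⟩
  have h3 : YY q B ≤ centralizer (T : Set G) := by
    rw [le_centralizer_iff]
    exact h2.trans (OO_le_centralizer_YY q B)
  exact h3.trans ((centralizer_le_normalizer _).trans (c.normalizer_le h))

/-- A `q`-subgroup `T'` normal in `B`, with `O_{q'}(F*(B)) ≤ A`. -/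
theorem Hyp.false_of_core {A B T' : Subgroup G} (h : Hyp A B) (c' : Core B A T') {q : ℕ}
    [hq : Fact q.Prime] (hT' : IsPGroup q T') (hYA : YY q B ≤ A) : False := by
  have h1 : YY q B ≤ centralizer (OO q A : Set G) :=
    OO_le_of_normal q hYA hT' c'.le_right c'.le_left c'.n
      ((centralizer_le_normalizer _).trans (c'.normalizer_le h.symm))
  have h2 : OO q A ≤ centralizer (YY q B : Set G) := le_centralizer_iff.mp h1
  have h3 : OO q A ≤ B := h2.trans ((centralizer_le_normalizer _).trans
    (h.hB _ (YY_le q B) (YY_ne_bot q (h.nFB q hq.out)) (le_normalizer_YY q B)))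
  have h4 : OO q A ≠ ⊥ := by
    obtain ⟨g, hg⟩ := h.conj
    intro h5
    apply c'.OO_ne_bot hT'
    rw [← hg, ← map_conj_OO, h5, Subgroup.map_bot]
  exact h.false_of_centralizes q h4 h3 h2

/-- **The Thompson–Wielandt theorem.** -/
theorem Hyp.false_of_cores {A B T T' : Subgroup G} (h : Hyp A B) (c : Core A B T)
    (c' : Core B A T') : False := by
  by_cases hT' : ∃ q : ℕ, q.Prime ∧ IsPGroup q T'
  · obtain ⟨q, hq, hT'q⟩ := hT'
    have hqf : Fact q.Prime := ⟨hq⟩
    by_cases hT : ∃ p : ℕ, p.Prime ∧ IsPGroup p T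
    · obtain ⟨p, hp, hTp⟩ := hT
      have hpf : Fact p.Prime := ⟨hp⟩
      have hYp : YY p B ≤ A := c.YY_le h hTp
      have hYq : YY q A ≤ B := c'.YY_le h.symm hT'q
      by_cases hpq : p = q
      · subst hpq
        exact h.false_of_core c' hT'q hYp
      · refine h.false_of_le p (c.OO_ne_bot hTp) ?_ hYp
        refine le_trans (map_mono ?_) hYq
        refine le_trans (le_inf (Cfsg.Agent.Lib.Cores.pCore_le_fittingSubgroup p) ?_) le_sup_right
        refine Cfsg.Agent.Lib.Cores.le_pPrimeCore (Cfsg.Agent.Lib.Cores.pCore_normal p) ?_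
        obtain ⟨n, hn⟩ := (Cfsg.Agent.Lib.Cores.pCore_isPGroup (G := A) p).exists_card_eq
        rw [hn]
        exact Nat.Coprime.pow_left n ((Nat.coprime_primes hp hq).mpr hpq)
    · exact h.false_of_core c' hT'q ((YY_le_FF q B).trans (c.FF_le h hT))
  · have hFA : FF A ≤ B := c'.FF_le h.symm hT'
    by_cases hT : ∃ p : ℕ, p.Prime ∧ IsPGroup p T
    · obtain ⟨p, hp, hTp⟩ := hT
      have hpf : Fact p.Prime := ⟨hp⟩
      exact h.false_of_le p (c.OO_ne_bot hTp) ((OO_le_FF p A).trans hFA) (c.YY_le h hTp)
    · have hFB : FF B ≤ A := c.FF_le h hT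
      by_cases hO : ∃ p : ℕ, p.Prime ∧ OO p A ≠ ⊥
      · obtain ⟨p, hp, hO⟩ := hO
        have hpf : Fact p.Prime := ⟨hp⟩
        exact h.false_of_le p hO ((OO_le_FF p A).trans hFA) ((YY_le_FF p B).trans hFB)
      · push Not at hO
        have hfit : ∀ {X : Subgroup G}, (∀ p : ℕ, p.Prime → OO p X = ⊥) →
            generalizedFittingSubgroup X = layer X := by
          intro X hX
          have h1 : fittingSubgroup X = ⊥ := by
            rw [Cfsg.Agent.Lib.Cores.fittingSubgroup_eq_iSup_pCore, eq_bot_iff]
            refine iSup_le fun p => ?_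
            rw [(map_eq_bot_iff_of_injective _ X.subtype_injective).mp (hX p p.2)]
          rw [Cfsg.Agent.Lib.GenFitting.genFitting_def, h1, sup_bot_eq]
        have hOB : ∀ p : ℕ, p.Prime → OO p B = ⊥ := by
          intro p hp
          obtain ⟨g, hg⟩ := h.conj
          rw [← hg, ← map_conj_OO, hO p hp, Subgroup.map_bot]
        have hle : FF A ≤ FF B := by
          rw [FF_def A, hfit hO]
          have h1 : layer A ≤ (FF B).subgroupOf A := by
            rw [layer_le_iff]
            intro K hK
            have hKn : K ≤ normalizer ((FF B).subgroupOf A : Set A) := by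
              intro x hx
              have h2 : (x : G) ∈ FF A := by
                rw [FF_def, hfit hO]
                exact ⟨x, component_le_layer hK hx, rfl⟩
              have h3 := le_normalizer_FF B (hFA h2)
              rw [mem_normalizer_iff]
              intro y
              exact mem_normalizer_iff.mp h3 y
            rcases component_le_or_commutator_eq_bot_of_le_normalizer hK hKn with h2 | h2
            · exact h2
            · exfalso
              have hKB : K.map A.subtype ≤ B := by
                refine le_trans (map_mono (component_le_layer hK)) ?_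
                rw [← hfit hO]; exact hFA
              have h3 : (K.map A.subtype).subgroupOf B ≤
                  centralizer (generalizedFittingSubgroup B : Set B) := by
                intro x hx
                obtain ⟨k, hk, hkx⟩ := mem_subgroupOf.mp hx
                rw [mem_centralizer_iff]
                intro y hy
                have hyF : (y : G) ∈ FF B := ⟨y, hy, rfl⟩
                have h4 : ⁅k, (⟨y, hFB hyF⟩ : A)⁆ = 1 := by
                  have := commutator_mem_commutator hk
                    (mem_subgroupOf.mpr hyF : (⟨y, hFB hyF⟩ : A) ∈ _)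
                  rwa [h2, mem_bot] at this
                rw [commutatorElement_eq_one_iff_mul_comm] at h4
                have h5 : (k : G) * y = y * k := congrArg Subtype.val h4
                apply Subtype.ext
                have h6 : (k : G) = x := hkx
                rw [h6] at h5
                exact h5.symm
              have h4 := h3.trans centralizer_genFitting_le_fitting
              have h5 : fittingSubgroup B = ⊥ := by
                rw [Cfsg.Agent.Lib.Cores.fittingSubgroup_eq_iSup_pCore, eq_bot_iff]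
                refine iSup_le fun p => ?_
                rw [(map_eq_bot_iff_of_injective _ B.subtype_injective).mp (hOB p p.2)]
              rw [h5, le_bot_iff] at h4
              apply component_ne_bot hK
              rw [eq_bot_iff]
              intro k hk
              have h6 : (⟨(k : G), hKB ⟨k, hk, rfl⟩⟩ : B) ∈ (K.map A.subtype).subgroupOf B :=
                mem_subgroupOf.mpr ⟨k, hk, rfl⟩
              rw [h4, mem_bot] at h6
              rw [mem_bot]
              apply Subtype.ext
              exact congrArg (fun z : B => (z : G)) h6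
          rintro _ ⟨x, hx, rfl⟩
          exact h1 hx
        have hcard : Nat.card (FF A) = Nat.card (FF B) := by
          obtain ⟨g, hg⟩ := h.conj
          let e := A.equivMapOfInjective (MulAut.conj g).toMonoidHom (MulAut.conj g).injective
          have h2 := Cfsg.Agent.Lib.GenFitting.map_genFitting e
          rw [FF_def, FF_def, ← hg, card_map_of_injective A.subtype_injective,
            card_map_of_injective (subtype_injective _), ← h2,
            card_map_of_injective (f := e.toMonoidHom) e.injective]
        have heq : FF A = FF B := eq_of_le_of_card_ge hle hcard.ge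
        refine h.false_of_normal (X := FF B) (TW.FF_le B) ?_ ?_ (le_normalizer_FF B)
        · intro h1
          have h2 := YY_le_FF 2 B
          rw [h1, le_bot_iff] at h2
          have : Fact (Nat.Prime 2) := ⟨Nat.prime_two⟩
          exact YY_ne_bot 2 (h.nFB 2 Nat.prime_two) h2
        · rw [← heq]; exact le_normalizer_FF A

end Cfsg.Agent.H429.TW
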