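import Mathlib
import Cfsg.Agent.H429.TWMain

/-!
# Primitive groups: suborbits and the Thompson–Wielandt theorem
-/

set_option autoImplicit false
set_option linter.unusedSectionVars false

namespace Cfsg.Agent.H429.Suborbit

open Subgroup Cfsg MulAction
open Cfsg.Agent.H429.TW

variable {G Ω : Type*} [Group G] [MulAction G Ω]

/-- The kernel of `G_a` on the orbit of `b`. -/
def K (a b : Ω) : Subgroup G := stabilizer G a ⊓ fixingSubgroup G (orbit (stabilizer G a) b)

theorem mem_K {a b : Ω} {x : G} :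
    x ∈ K a b ↔ x ∈ stabilizer G a ∧ ∀ c ∈ orbit (stabilizer G a) b, x • c = c := by
  rw [K, mem_inf, mem_fixingSubgroup_iff]

/-- The kernel of `G_a` on the union of the sets `orbit G_c a`, `c` in the orbit of `b` under `G_a`. -/
def T (a b : Ω) : Subgroup G := ⨅ c ∈ orbit (stabilizer G a) b, K c a

theorem mem_T {a b : Ω} {x : G} :
    x ∈ T a b ↔ ∀ c ∈ orbit (stabilizer G a) b, x ∈ K c a := by
  simp only [T, mem_iInf]

theorem K_le_left (a b : Ω) : (K a b : Subgroup G) ≤ stabilizer G a := inf_le_left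

theorem K_le_right (a b : Ω) : (K a b : Subgroup G) ≤ stabilizer G b := by
  intro x hx
  exact (mem_K.mp hx).2 b (mem_orbit_self b)

theorem T_le (a b : Ω) : (T a b : Subgroup G) ≤ K b a := fun _ hx =>
  mem_T.mp hx b (mem_orbit_self b)

theorem conj_mem_stabilizer {a : Ω} {x : G} (h : G) (hx : x ∈ stabilizer G a) :
    h * x * h⁻¹ ∈ stabilizer G (h • a) := by
  rw [mem_stabilizer_iff] at *
  rw [mul_smul, mul_smul, inv_smul_smul, hx]

theorem smul_mem_orbit {a b c : Ω} (h : G) (hc : c ∈ orbit (stabilizer G a) b) :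
    h • c ∈ orbit (stabilizer G (h • a)) (h • b) := by
  obtain ⟨⟨k, hk⟩, rfl⟩ := hc
  refine ⟨⟨h * k * h⁻¹, conj_mem_stabilizer h hk⟩, ?_⟩
  change (h * k * h⁻¹) • h • b = h • k • b
  rw [mul_smul, mul_smul, inv_smul_smul]

theorem conj_mem_K {a b : Ω} {x : G} (h : G) (hx : x ∈ K a b) :
    h * x * h⁻¹ ∈ K (h • a) (h • b) := by
  rw [mem_K] at *
  refine ⟨conj_mem_stabilizer h hx.1, ?_⟩
  intro c hc
  have h1 := smul_mem_orbit h⁻¹ hc
  rw [inv_smul_smul, inv_smul_smul] at h1
  rw [mul_smul, mul_smul, hx.2 _ h1, smul_inv_smul]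

theorem conj_mem_T {a b : Ω} {x : G} (h : G) (hx : x ∈ T a b) :
    h * x * h⁻¹ ∈ T (h • a) (h • b) := by
  rw [mem_T] at *
  intro c hc
  have h1 := smul_mem_orbit h⁻¹ hc
  rw [inv_smul_smul, inv_smul_smul] at h1
  have := conj_mem_K h (hx _ h1)
  rwa [smul_inv_smul] at this

theorem K_eq_of_mem {a b c : Ω} (hc : c ∈ orbit (stabilizer G a) b) :
    (K a c : Subgroup G) = K a b := by
  rw [K, K, orbit_eq_iff.mpr hc]

theorem T_eq_of_mem {a b c : Ω} (hc : c ∈ orbit (stabilizer G a) b) :
    (T a c : Subgroup G) = T a b := by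
  rw [T, T, orbit_eq_iff.mpr hc]

theorem le_normalizer_of_conj {A X : Subgroup G} (h : ∀ g ∈ A, ∀ x ∈ X, g * x * g⁻¹ ∈ X) :
    A ≤ normalizer (X : Set G) := by
  intro g hg
  rw [mem_normalizer_iff]
  intro x
  refine ⟨h g hg x, fun hx => ?_⟩
  have := h g⁻¹ (inv_mem hg) _ hx
  have e : g⁻¹ * (g * x * g⁻¹) * g⁻¹⁻¹ = x := by group
  rwa [e] at this

theorem le_normalizer_K (a b : Ω) : stabilizer G a ≤ normalizer ((K a b : Subgroup G) : Set G) := by
  refine le_normalizer_of_conj fun g hg x hx => ?_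
  have h1 := conj_mem_K g hx
  rw [mem_stabilizer_iff.mp hg] at h1
  rwa [K_eq_of_mem (show g • b ∈ orbit (stabilizer G a) b from ⟨⟨g, hg⟩, rfl⟩)] at h1

theorem le_normalizer_T (a b : Ω) : stabilizer G a ≤ normalizer ((T a b : Subgroup G) : Set G) := by
  refine le_normalizer_of_conj fun g hg x hx => ?_
  have h1 := conj_mem_T g hx
  rw [mem_stabilizer_iff.mp hg] at h1
  rwa [T_eq_of_mem (show g • b ∈ orbit (stabilizer G a) b from ⟨⟨g, hg⟩, rfl⟩)] at h1

theorem core {a b : Ω} (h : (T a b : Subgroup G) ≠ ⊥) :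
    Core (stabilizer G a) (stabilizer G b) (T a b) :=
  ⟨h, le_normalizer_T a b, K b a, T_le a b, K_le_right b a, K_le_left b a, le_normalizer_K b a⟩

/-! ### Counting -/

section count

variable [Finite G] [Finite Ω]

theorem card_stabilizer_eq [IsPretransitive G Ω] (a b : Ω) :
    Nat.card (stabilizer G a) = Nat.card (stabilizer G b) := by
  obtain ⟨g, rfl⟩ := exists_smul_eq G a b
  rw [stabilizer_smul_eq_stabilizer_map_conj, card_map_of_injective (MulAut.conj g).injective]

theorem card_orbit_mul (a b : Ω) :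
    Nat.card (orbit (stabilizer G a) b) * Nat.card (stabilizer G a ⊓ stabilizer G b : Subgroup G) =
      Nat.card (stabilizer G a) := by
  have h1 : stabilizer (stabilizer G a) b = (stabilizer G b).subgroupOf (stabilizer G a) := by
    ext x
    rw [mem_subgroupOf, mem_stabilizer_iff, mem_stabilizer_iff]
    rfl
  have h2 : Nat.card (stabilizer (stabilizer G a) b) =
      Nat.card (stabilizer G a ⊓ stabilizer G b : Subgroup G) := by
    rw [h1, inf_comm, ← subgroupOf_map_subtype, card_map_of_injective (subtype_injective _)]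
  rw [← h2]
  have h3 := Nat.card_congr (orbitEquivQuotientStabilizer (stabilizer G a) b)
  rw [h3, mul_comm]
  have h4 := (stabilizer (stabilizer G a) b).card_mul_index
  rwa [Subgroup.index] at h4

theorem card_orbit_eq [IsPretransitive G Ω] (a b : Ω) :
    Nat.card (orbit (stabilizer G b) a) = Nat.card (orbit (stabilizer G a) b) := by
  have h1 := card_orbit_mul (G := G) a b
  have h2 := card_orbit_mul (G := G) b a
  rw [card_stabilizer_eq (G := G) b a, inf_comm] at h2
  exact Nat.eq_of_mul_eq_mul_right Nat.card_pos (h2.trans h1.symm)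

theorem card_orbit_eq_of_mem [IsPretransitive G Ω] {a b c : Ω}
    (hc : c ∈ orbit (stabilizer G a) b) :
    Nat.card (orbit (stabilizer G c) a) = Nat.card (orbit (stabilizer G a) b) := by
  rw [card_orbit_eq, orbit_eq_iff.mpr hc]

/-- The set `orbit G_c a \ {a}` as a set with an action of the kernel of `G_a` on the orbit of `b`. -/
def S (a b : Ω) (c : orbit (stabilizer G a) b) : SubMulAction (K a b : Subgroup G) Ω where
  carrier := {e | e ∈ orbit (stabilizer G (c : Ω)) a ∧ e ≠ a}
  smul_mem' := by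
    rintro ⟨x, hx⟩ e ⟨he, hne⟩
    have hxc : x • (c : Ω) = c := (mem_K.mp hx).2 c c.2
    have hxa : x • a = a := (mem_K.mp hx).1
    refine ⟨?_, ?_⟩
    · have := smul_mem_orbit x he
      rwa [hxc, hxa] at this
    · intro h
      apply hne
      change x • e = a at h
      rw [← hxa] at h
      exact smul_left_cancel x h

theorem mem_S {a b : Ω} {c : orbit (stabilizer G a) b} {e : Ω} :
    e ∈ S a b c ↔ e ∈ orbit (stabilizer G (c : Ω)) a ∧ e ≠ a := Iff.rfl

theorem card_S [IsPretransitive G Ω] (a b : Ω) (c : orbit (stabilizer G a) b) :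
    Nat.card (S a b c) = Nat.card (orbit (stabilizer G a) b) - 1 := by
  have h1 := card_orbit_eq_of_mem (G := G) c.2
  rw [← h1]
  have h2 : ((S a b c : SubMulAction (K a b : Subgroup G) Ω) : Set Ω) =
      orbit (stabilizer G (c : Ω)) a \ {a} := by
    ext e
    exact mem_S
  have h3 : Nat.card (S a b c) =
      (((S a b c : SubMulAction (K a b : Subgroup G) Ω) : Set Ω)).ncard := rfl
  rw [h3, h2, Set.ncard_sdiff_singleton_of_mem (mem_orbit_self a)]
  rfl

/-- The homomorphism of the kernel to the product of symmetric groups. -/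
noncomputable def psi (a b : Ω) :
    (K a b : Subgroup G) →* (∀ c : orbit (stabilizer G a) b, Equiv.Perm (S a b c)) :=
  MonoidHom.pi fun c => toPermHom (K a b : Subgroup G) (S a b c)

theorem psi_injective {a b : Ω} (h : (T a b : Subgroup G) = ⊥) :
    Function.Injective (psi (G := G) a b) := by
  rw [injective_iff_map_eq_one]
  rintro ⟨x, hx⟩ h1
  have h2 : x ∈ (T a b : Subgroup G) := by
    rw [mem_T]
    intro c hc
    rw [mem_K]
    refine ⟨(mem_K.mp hx).2 c hc, ?_⟩
    intro e he
    by_cases hea : e = a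
    · rw [hea]; exact (mem_K.mp hx).1
    · have h3 := congrFun h1 ⟨c, hc⟩
      have h4 := congrArg (fun f : Equiv.Perm (S a b ⟨c, hc⟩) => ((f ⟨e, he, hea⟩ : S a b ⟨c, hc⟩) : Ω)) h3
      exact h4
  rw [h, mem_bot] at h2
  exact Subtype.ext h2

theorem card_K_dvd [IsPretransitive G Ω] {a b : Ω} (h : (T a b : Subgroup G) = ⊥) :
    Nat.card (K a b : Subgroup G) ∣
      (Nat.factorial (Nat.card (orbit (stabilizer G a) b) - 1)) ^
        (Nat.card (orbit (stabilizer G a) b)) := by
  have h1 := card_dvd_of_injective (psi (G := G) a b) (psi_injective h)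
  refine h1.trans (dvd_of_eq ?_)
  cases nonempty_fintype (orbit (stabilizer G a) b)
  rw [Nat.card_pi]
  have h2 : ∀ c : orbit (stabilizer G a) b, Nat.card (Equiv.Perm (S a b c)) =
      Nat.factorial (Nat.card (orbit (stabilizer G a) b) - 1) := by
    intro c
    rw [Nat.card_perm, card_S]
  rw [Finset.prod_congr rfl fun c _ => h2 c, Finset.prod_const, Finset.card_univ,
    Nat.card_eq_fintype_card]

theorem ker_toPermHom (a b : Ω) :
    (toPermHom (stabilizer G a) (orbit (stabilizer G a) b)).ker.map (stabilizer G a).subtype =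
      K a b := by
  ext x
  constructor
  · rintro ⟨y, hy, rfl⟩
    rw [mem_K]
    refine ⟨y.2, fun c hc => ?_⟩
    have h1 := congrArg (fun f : Equiv.Perm (orbit (stabilizer G a) b) =>
      ((f ⟨c, hc⟩ : orbit (stabilizer G a) b) : Ω)) hy
    exact h1
  · intro hx
    refine ⟨⟨x, (mem_K.mp hx).1⟩, ?_, rfl⟩
    change toPermHom (stabilizer G a) (orbit (stabilizer G a) b) _ = 1
    ext c
    exact (mem_K.mp hx).2 c c.2

theorem card_dvd_factorial_mul (a b : Ω) :
    Nat.card (stabilizer G a) ∣
      Nat.factorial (Nat.card (orbit (stabilizer G a) b)) * Nat.card (K a b : Subgroup G) := by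
  set φ := toPermHom (stabilizer G a) (orbit (stabilizer G a) b) with hφ
  have h1 : Nat.card φ.ker * Nat.card φ.range = Nat.card (stabilizer G a) := by
    have := φ.ker.card_mul_index
    rwa [index_ker] at this
  have h2 : Nat.card φ.ker = Nat.card (K a b : Subgroup G) := by
    rw [← ker_toPermHom, card_map_of_injective (subtype_injective _)]
  have h3 : Nat.card φ.range ∣ Nat.factorial (Nat.card (orbit (stabilizer G a) b)) := by
    rw [← Nat.card_perm]
    exact card_subgroup_dvd_card _
  rw [← h1, h2, mul_comm]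
  exact Nat.mul_dvd_mul_right h3 _

theorem card_dvd_of_T_eq_bot [IsPretransitive G Ω] {a b : Ω} (h : (T a b : Subgroup G) = ⊥) :
    Nat.card (stabilizer G a) ∣ Nat.factorial (Nat.card (orbit (stabilizer G a) b)) *
      (Nat.factorial (Nat.card (orbit (stabilizer G a) b) - 1)) ^
        (Nat.card (orbit (stabilizer G a) b)) :=
  (card_dvd_factorial_mul a b).trans (Nat.mul_dvd_mul_left _ (card_K_dvd h))

end count

/-! ### Primitive groups -/

section prim

variable [Finite G] [FaithfulSMul G Ω] [Finite Ω]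

theorem ne_of_two_le {a b : Ω} (h2 : 2 ≤ Nat.card (orbit (stabilizer G a) b)) : a ≠ b := by
  rintro rfl
  have h1 : orbit (stabilizer G a) a = {a} := by
    ext c
    constructor
    · rintro ⟨g, rfl⟩; exact g.2
    · rintro rfl; exact mem_orbit_self _
  rw [h1] at h2
  simp at h2

theorem stabilizer_ne_of_two_le {a b : Ω} (h2 : 2 ≤ Nat.card (orbit (stabilizer G a) b)) :
    stabilizer G a ≠ stabilizer G b := by
  intro h
  have h1 : orbit (stabilizer G a) b = {b} := by
    ext c
    constructor
    · rintro ⟨⟨g, hg⟩, rfl⟩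
      rw [h] at hg
      exact hg
    · rintro rfl; exact mem_orbit_self _
  rw [h1] at h2
  simp at h2

/-- The normalizer of a nontrivial normal subgroup of a point stabiliser. -/
theorem normalizer_le (hprim : IsPreprimitive G Ω) [Nontrivial Ω] (a : Ω) (X : Subgroup G)
    (hX : X ≤ stabilizer G a) (h1 : X ≠ ⊥) (hn : stabilizer G a ≤ normalizer (X : Set G)) :
    normalizer (X : Set G) ≤ stabilizer G a := by
  have hmax : IsCoatom (stabilizer G a) :=
    IsPreprimitive.isCoatom_stabilizer_of_isPreprimitive G a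
  rcases hmax.le_iff.mp hn with h | h
  · exfalso
    apply h1
    have hXn : X.Normal := normalizer_eq_top_iff.mp h
    rw [eq_bot_iff]
    intro x hx
    rw [mem_bot]
    apply FaithfulSMul.eq_of_smul_eq_smul (α := Ω)
    intro c
    obtain ⟨g, rfl⟩ := exists_smul_eq G a c
    have h2 : (g⁻¹ * x * g) • a = a := hX (by simpa using hXn.conj_mem x hx g⁻¹)
    rw [one_smul]
    have h3 : x • g • a = g • (g⁻¹ * x * g) • a := by
      rw [smul_smul, smul_smul]; congr 1; group
    rw [h3, h2]
  · exact h.le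

theorem hyp (hprim : IsPreprimitive G Ω) {a b : Ω}
    (h2 : 2 ≤ Nat.card (orbit (stabilizer G a) b))
    (hnF : ∀ q : ℕ, q.Prime → generalizedFittingSubgroup (stabilizer G a) ≠
      pCore q (stabilizer G a)) : Hyp (stabilizer G a) (stabilizer G b) := by
  have hnt : Nontrivial Ω := ⟨a, b, ne_of_two_le h2⟩
  refine ⟨normalizer_le hprim a, normalizer_le hprim b, ?_, stabilizer_ne_of_two_le h2, hnF⟩
  obtain ⟨g, hg⟩ := exists_smul_eq G a b
  exact ⟨g, by rw [← hg, stabilizer_smul_eq_stabilizer_map_conj]⟩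

/-- **Thompson–Wielandt**: if `F*(G_a)` is not of prime power order, one of `T a b`, `T b a` is trivial. -/
theorem T_eq_bot_or (hprim : IsPreprimitive G Ω) {a b : Ω}
    (h2 : 2 ≤ Nat.card (orbit (stabilizer G a) b))
    (hnF : ∀ q : ℕ, q.Prime → generalizedFittingSubgroup (stabilizer G a) ≠
      pCore q (stabilizer G a)) : (T a b : Subgroup G) = ⊥ ∨ (T b a : Subgroup G) = ⊥ := by
  by_contra hcon
  push Not at hcon
  exact (hyp hprim h2 hnF).false_of_cores (core hcon.1) (core hcon.2)

/-- The order of a point stabiliser. -/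
theorem card_dvd (hprim : IsPreprimitive G Ω) {a b : Ω}
    (h2 : 2 ≤ Nat.card (orbit (stabilizer G a) b))
    (hnF : ∀ q : ℕ, q.Prime → generalizedFittingSubgroup (stabilizer G a) ≠
      pCore q (stabilizer G a)) :
    Nat.card (stabilizer G a) ∣ Nat.factorial (Nat.card (orbit (stabilizer G a) b)) *
      (Nat.factorial (Nat.card (orbit (stabilizer G a) b) - 1)) ^
        (Nat.card (orbit (stabilizer G a) b)) := by
  rcases T_eq_bot_or hprim h2 hnF with h | h
  · exact card_dvd_of_T_eq_bot h
  · have := card_dvd_of_T_eq_bot h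
    rwa [card_orbit_eq, card_stabilizer_eq b a] at this

end prim

end Cfsg.Agent.H429.Suborbit
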