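import Mathlib
import Cfsg.Agent.H429.FrobQuot

/-!
# Frobenius quotients and element orders: main theorem
-/

set_option autoImplicit false
set_option linter.unusedSectionVars false

namespace Cfsg.Agent.H429.FrobQuot

open Subgroup
open Cfsg.Agent.Solvable.FrobeniusKernel
open scoped Pointwise

section
variable {G : Type*} [Group G] [Finite G] (N : Subgroup G) [N.Normal] (Fb : Subgroup (G ⧸ N))

/-- Element orders: if the image of `x` has order `n` and `x ^ n ≠ 1`, there is an element of order `p n`. -/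
theorem exists_orderOf_eq {x : G} {n : ℕ} (hx : orderOf (QuotientGroup.mk' N x) = n)
    (h : x ^ n ≠ 1) : ∃ p : ℕ, p.Prime ∧ p ∣ Nat.card N ∧ ∃ g : G, orderOf g = p * n := by
  have hxN : x ^ n ∈ N := by
    rw [← QuotientGroup.eq_one_iff (N := N)]
    have : ((QuotientGroup.mk' N x)) ^ n = 1 := by rw [← hx]; exact pow_orderOf_eq_one _
    exact this
  have hn0 : n ≠ 0 := by rw [← hx]; exact (orderOf_pos _).ne'
  have hdvd : n ∣ orderOf x := by rw [← hx]; exact orderOf_map_dvd _ _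
  obtain ⟨m, hm⟩ := hdvd
  have hm1 : orderOf (x ^ n) = m := by
    rw [orderOf_pow_of_dvd hn0 ⟨m, hm⟩, hm, Nat.mul_div_cancel_left _ (Nat.pos_of_ne_zero hn0)]
  have hm2 : m ≠ 1 := by
    intro h1
    rw [h1, orderOf_eq_one_iff] at hm1
    exact h hm1
  have hm0 : m ≠ 0 := by
    rintro rfl
    rw [mul_zero] at hm
    exact (orderOf_pos x).ne' hm
  obtain ⟨s, hs, hsm⟩ := Nat.exists_prime_and_dvd hm2
  obtain ⟨t, ht⟩ := hsm
  have ht0 : t ≠ 0 := by
    rintro rfl
    exact hm0 (by rw [ht, mul_zero])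
  refine ⟨s, hs, ?_, x ^ t, ?_⟩
  · have h1 : m ∣ Nat.card N := by
      rw [← hm1]
      exact Subgroup.orderOf_dvd_natCard N hxN
    exact (Dvd.intro _ ht.symm).trans h1
  · rw [orderOf_pow_of_dvd ht0 ⟨s * n, by rw [hm, ht]; ring⟩, hm, ht]
    rw [show n * (s * t) = (s * n) * t by ring, Nat.mul_div_cancel _ (Nat.pos_of_ne_zero ht0)]

variable {N Fb}

theorem map_comap_inf_eq {M : Subgroup G} (hM : M ⊔ N = ⊤) :
    (Fb.comap (QuotientGroup.mk' N) ⊓ M).map (QuotientGroup.mk' N) = Fb := by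
  apply le_antisymm
  · rintro _ ⟨x, hx, rfl⟩
    exact hx.1
  · intro q hq
    obtain ⟨x, rfl⟩ := QuotientGroup.mk'_surjective N q
    have hx : x ∈ ((M ⊔ N : Subgroup G) : Set G) := by rw [hM]; trivial
    rw [mul_normal] at hx
    obtain ⟨m, hm, n, hn, rfl⟩ := hx
    have h1 : QuotientGroup.mk' N (m * n) = QuotientGroup.mk' N m := by
      rw [map_mul]
      have : QuotientGroup.mk' N n = 1 := (QuotientGroup.eq_one_iff n).mpr hn
      rw [this, mul_one]
    rw [h1] at hq
    exact ⟨m, ⟨hq, hm⟩, h1.symm⟩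

theorem relIndex_eq {M : Subgroup G} (hM : M ⊔ N = ⊤) :
    N.relIndex (Fb.comap (QuotientGroup.mk' N) ⊓ M) = Nat.card Fb := by
  have h1 := relIndex_ker (Fb.comap (QuotientGroup.mk' N) ⊓ M) (QuotientGroup.mk' N)
  rw [QuotientGroup.ker_mk', map_comap_inf_eq hM] at h1
  exact h1

/-- A complement of `N` in the preimage of `Fb`, inside a supplement `M`. -/
theorem exists_complement {M : Subgroup G} (hM : M ⊔ N = ⊤)
    (hcop : (Nat.card Fb).Coprime (Nat.card N)) :
    ∃ F₁ : Subgroup G, F₁ ≤ Fb.comap (QuotientGroup.mk' N) ⊓ M ∧ Nat.card F₁ = Nat.card Fb := by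
  set X := Fb.comap (QuotientGroup.mk' N) ⊓ M with hX
  have h1 : (N.subgroupOf X).index = Nat.card Fb := relIndex_eq hM
  have h2 : Nat.card (N.subgroupOf X) ∣ Nat.card N :=
    Subgroup.card_comap_dvd_of_injective N X.subtype X.subtype_injective
  obtain ⟨H, hH⟩ := exists_right_complement'_of_coprime (N := N.subgroupOf X) (by
    rw [h1]
    exact Nat.Coprime.coprime_dvd_left h2 hcop.symm)
  refine ⟨H.map X.subtype, map_subtype_le _, ?_⟩
  rw [card_map_of_injective X.subtype_injective, ← h1, hH.symm.index_eq_card]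

/-- The image of such a complement. -/
theorem map_complement {F₁ : Subgroup G} (h1 : F₁ ≤ Fb.comap (QuotientGroup.mk' N))
    (h2 : Nat.card F₁ = Nat.card Fb) (hcop : (Nat.card Fb).Coprime (Nat.card N)) :
    F₁ ⊓ N = ⊥ ∧ F₁.map (QuotientGroup.mk' N) = Fb := by
  have h3 : F₁ ⊓ N = ⊥ := by
    exact (disjoint_of_coprime_natCard (by rwa [h2])).eq_bot
  refine ⟨h3, ?_⟩
  refine eq_of_le_of_card_ge (map_le_iff_le_comap.mpr h1) ?_
  have h4 := relIndex_ker F₁ (QuotientGroup.mk' N)
  rw [QuotientGroup.ker_mk'] at h4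
  rw [← h4, ← h2, ← inf_relIndex_right, inf_comm, h3, relIndex_bot_left]

/-- Conjugacy of the complements. -/
theorem conj_complement {M : Subgroup G} (hM : M ⊔ N = ⊤) (hsol : Group.IsSolvable Fb)
    (hcop : (Nat.card Fb).Coprime (Nat.card N)) {F₁ F₂ : Subgroup G}
    (h1 : F₁ ≤ Fb.comap (QuotientGroup.mk' N) ⊓ M) (h2 : F₂ ≤ Fb.comap (QuotientGroup.mk' N) ⊓ M)
    (hc1 : Nat.card F₁ = Nat.card Fb) (hc2 : Nat.card F₂ = Nat.card Fb) :
    ∃ g ∈ Fb.comap (QuotientGroup.mk' N) ⊓ M, MulAut.conj g • F₁ = F₂ := by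
  set X := Fb.comap (QuotientGroup.mk' N) ⊓ M with hX
  have h3 : (N.subgroupOf X).index = Nat.card Fb := relIndex_eq hM
  have h4 : Nat.card (N.subgroupOf X) ∣ Nat.card N :=
    Subgroup.card_comap_dvd_of_injective N X.subtype X.subtype_injective
  have hF1 : Group.IsSolvable (F₁.subgroupOf X) := by
    obtain ⟨h5, h6⟩ := map_complement (h1.trans inf_le_left) hc1 hcop
    let f : (F₁.subgroupOf X) →* Fb :=
      ((QuotientGroup.mk' N).comp (X.subtype.comp (F₁.subgroupOf X).subtype)).codRestrict Fb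
        (fun x => (h1 x.2).1)
    refine Group.isSolvable_of_isSolvable_injective (f := f) ?_
    rw [injective_iff_map_eq_one]
    intro x hx
    have h7 : ((x : X) : G) ∈ N := by
      have := congrArg Subtype.val hx
      exact (QuotientGroup.eq_one_iff _).mp this
    have h8 : ((x : X) : G) ∈ F₁ ⊓ N := ⟨x.2, h7⟩
    rw [h5, mem_bot] at h8
    exact Subtype.ext (Subtype.ext h8)
  have h9 := Cfsg.Agent.Solvable.SZ.main (Nat.card X) X rfl (N.subgroupOf X)
    (by rw [h3]; exact Nat.Coprime.coprime_dvd_left h4 hcop.symm) (F₁.subgroupOf X)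
    (F₂.subgroupOf X) (Or.inr hF1)
    (by rw [h3, ← hc1]; exact Cfsg.Agent.Solvable.SZ.card_subgroupOf F₁ X h1)
    (by rw [h3, ← hc2]; exact Cfsg.Agent.Solvable.SZ.card_subgroupOf F₂ X h2)
  exact Cfsg.Agent.Solvable.SZ.conj_of_subgroupOf X F₁ F₂ h1 h2 h9

/-- Lifts normalizing the complement. -/
theorem exists_lift {M : Subgroup G} (hM : M ⊔ N = ⊤) [hFb : Fb.Normal] (hsol : Group.IsSolvable Fb)
    (hcop : (Nat.card Fb).Coprime (Nat.card N)) {F₁ : Subgroup G}
    (h1 : F₁ ≤ Fb.comap (QuotientGroup.mk' N) ⊓ M)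
    (hc1 : Nat.card F₁ = Nat.card Fb) (q : G ⧸ N) :
    ∃ g ∈ M, g ∈ normalizer (F₁ : Set G) ∧ QuotientGroup.mk' N g = q := by
  obtain ⟨x, rfl⟩ := QuotientGroup.mk'_surjective N q
  have hx : x ∈ ((M ⊔ N : Subgroup G) : Set G) := by rw [hM]; trivial
  rw [mul_normal] at hx
  obtain ⟨m, hm, n, hn, rfl⟩ := hx
  have h2 : QuotientGroup.mk' N (m * n) = QuotientGroup.mk' N m := by
    rw [map_mul]
    have : QuotientGroup.mk' N n = 1 := (QuotientGroup.eq_one_iff n).mpr hn
    rw [this, mul_one]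
  change ∃ g ∈ M, g ∈ normalizer (F₁ : Set G) ∧ QuotientGroup.mk' N g = QuotientGroup.mk' N (m * n)
  rw [h2]
  have h3 : MulAut.conj m • F₁ ≤ Fb.comap (QuotientGroup.mk' N) ⊓ M := by
    rintro _ ⟨y, hy, rfl⟩
    have hy' := h1 hy
    refine ⟨?_, ?_⟩
    · exact (inferInstance : (Fb.comap (QuotientGroup.mk' N)).Normal).conj_mem _ hy'.1 m
    · exact M.mul_mem (M.mul_mem hm hy'.2) (M.inv_mem hm)
  have h4 : Nat.card (MulAut.conj m • F₁ : Subgroup G) = Nat.card Fb := by
    rw [Cfsg.Agent.Solvable.SZ.card_conj_smul, hc1]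
  obtain ⟨y, hy, hy1⟩ := conj_complement hM hsol hcop h1 h3 hc1 h4
  -- `y = x z` with `x` in `F₁`
  obtain ⟨h5, h6⟩ := map_complement (h1.trans inf_le_left) hc1 hcop
  have h7 : QuotientGroup.mk' N y ∈ F₁.map (QuotientGroup.mk' N) := by rw [h6]; exact hy.1
  obtain ⟨z, hz, hzy⟩ := h7
  have h8 : y⁻¹ * m ∈ normalizer (F₁ : Set G) := by
    have h9 : MulAut.conj (y⁻¹ * m) • F₁ = F₁ := by
      rw [map_mul, mul_smul, ← hy1, smul_smul, ← map_mul, inv_mul_cancel, map_one, one_smul]
    rw [mem_normalizer_iff]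
    intro w
    constructor
    · intro hw
      have := Subgroup.smul_mem_pointwise_smul w (MulAut.conj (y⁻¹ * m)) F₁ hw
      rw [h9] at this
      exact this
    · intro hw
      rw [← h9] at hw
      exact (Subgroup.smul_mem_pointwise_smul_iff (a := MulAut.conj (y⁻¹ * m)) (S := F₁) (x := w)).mp hw
  refine ⟨z * (y⁻¹ * m), ?_, ?_, ?_⟩
  · exact M.mul_mem (h1 hz).2 (M.mul_mem (M.inv_mem hy.2) hm)
  · exact (normalizer (F₁ : Set G)).mul_mem (le_normalizer hz) h8
  · rw [map_mul, map_mul, map_inv, hzy]; group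

/-- The main part. -/
theorem le_map_centralizer (Hb : Subgroup (G ⧸ N)) [hFb : Fb.Normal] (hHb : Cfsg.IsFrobeniusComplement Hb)
    (hker : Cfsg.frobeniusKernel Hb = (Fb : Set (G ⧸ N))) (hcyc : IsCyclic Hb)
    (hcop : (Nat.card Fb).Coprime (Nat.card N))
    (hno : ∀ x : G, orderOf (QuotientGroup.mk' N x) = Nat.card Hb → x ^ Nat.card Hb = 1) :
    Fb ≤ (centralizer (N : Set G)).map (QuotientGroup.mk' N) := by
  obtain ⟨η, hη⟩ : ∃ η : G ⧸ N, zpowers η = Hb := by
    obtain ⟨g, hg⟩ := hcyc.exists_zpow_surjective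
    refine ⟨g, ?_⟩
    apply le_antisymm
    · exact zpowers_le.mpr g.2
    · intro x hx
      obtain ⟨k, hk⟩ := hg ⟨x, hx⟩
      exact ⟨k, congrArg Subtype.val hk⟩
  subst hη
  rw [Nat.card_zpowers] at hno
  have hsol : Group.IsSolvable Fb := by
    obtain ⟨K, hK, -, hKn⟩ := Cfsg.Agent.S0042.result _ hHb
    have : K = Fb := SetLike.coe_injective (hK.trans hker)
    subst this
    infer_instance
  have hcompl : IsComplement' Fb (zpowers η) := by
    obtain ⟨K, hK, -, hKc⟩ := Cfsg.Agent.S0035.result _ hHb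
    have : K = Fb := SetLike.coe_injective (hK.trans hker)
    subst this
    exact hKc
  have htop : (⊤ : Subgroup G) ⊔ N = ⊤ := top_sup_eq _
  obtain ⟨F₀, hF₀, hcF₀⟩ := exists_complement (N := N) (Fb := Fb) htop hcop
  have key : ∀ p k : ℕ, p.Prime → p ^ k ∣ Nat.card N →
      p ^ k ∣ Nat.card (N ⊓ centralizer (F₀ : Set G) : Subgroup G) := by
    intro p k hp hpk
    rcases Nat.eq_zero_or_pos k with rfl | hk
    · simp
    have hpf := Fact.mk hp
    have hpN : p ∣ Nat.card N := (dvd_pow_self p hk.ne').trans hpk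
    obtain ⟨P⟩ : Nonempty (Sylow p N) := inferInstance
    set P' : Subgroup G := (P : Subgroup N).map N.subtype with hP'
    have hP'p : IsPGroup p P' := P.2.map _
    have hM : normalizer (P' : Set G) ⊔ N = ⊤ := Sylow.normalizer_sup_eq_top P
    obtain ⟨F₁, hF₁, hcF₁⟩ := exists_complement (N := N) (Fb := Fb) hM hcop
    obtain ⟨h, hhM, hhF, hh⟩ := exists_lift hM hsol hcop hF₁ hcF₁ η
    obtain ⟨hF₁N, hF₁m⟩ := map_complement (hF₁.trans inf_le_left) hcF₁ hcop
    set L : Subgroup G := zpowers h ⊔ F₁ with hL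
    have hLM : L ≤ normalizer (P' : Set G) := sup_le (zpowers_le.mpr hhM) (hF₁.trans inf_le_right)
    have hhn : h ^ orderOf η = 1 := hno h (by rw [hh])
    have hcL : Nat.card L ≤ Nat.card (G ⧸ N) := by
      have h1 : ((L : Subgroup G) : Set G) = (zpowers h : Set G) * F₁ :=
        coe_mul_of_left_le_normalizer_right _ _ (zpowers_le.mpr hhF)
      have h2 : Nat.card L ≤ Nat.card (zpowers h) * Nat.card F₁ := by
        have h3 : Nat.card L = Nat.card ((zpowers h : Set G) * (F₁ : Set G) : Set G) := by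
          rw [← h1]; rfl
        rw [h3]
        exact Set.natCard_mul_le
      refine h2.trans ?_
      rw [← hcompl.card_mul_card, hcF₁, mul_comm, Nat.card_zpowers, Nat.card_zpowers]
      exact Nat.mul_le_mul_left _ (Nat.le_of_dvd (orderOf_pos η) (orderOf_dvd_of_pow_eq_one hhn))
    let fL : L →* G ⧸ N := (QuotientGroup.mk' N).comp L.subtype
    have hsurj : Function.Surjective fL := by
      rw [← MonoidHom.range_eq_top, MonoidHom.range_comp, range_subtype, hL, Subgroup.map_sup, hF₁m,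
        MonoidHom.map_zpowers, hh, sup_comm]
      exact hcompl.sup_eq_top
    have hbij : Function.Bijective fL := by
      refine hsurj.bijective_of_nat_card_le ?_
      exact hcL
    let e : L ≃* G ⧸ N := MulEquiv.ofBijective fL hbij
    let σ : G ⧸ N →* G := L.subtype.comp e.symm.toMonoidHom
    have hσ : ∀ x : G, x ∈ L → σ (QuotientGroup.mk' N x) = x := by
      intro x hx
      have : e.symm (e ⟨x, hx⟩) = ⟨x, hx⟩ := e.symm_apply_apply _
      exact congrArg Subtype.val this
    have hσL : ∀ q, σ q ∈ L := fun q => (e.symm q).2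
    have hση : σ η = h := by rw [← hh]; exact hσ h (mem_sup_left (mem_zpowers h))
    have hcopp : (Nat.card Fb).Coprime p := Nat.Coprime.coprime_dvd_right hpN hcop
    have hcent : F₁ ≤ centralizer (P' : Set G) := by
      intro x hx
      have h1 : QuotientGroup.mk' N x ∈ Fb := (hF₁ hx).1
      have h2 := mem_centralizer_of_pow_eq_one σ η hHb Fb hker.symm p P' hP'p
        (fun q => hLM (hσL q)) hcopp ?_ h1
      · rwa [hσ x (mem_sup_right hx)] at h2
      · intro v hv
        rw [hση]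
        apply hno
        rw [map_mul, hh]
        have : QuotientGroup.mk' N v = 1 := (QuotientGroup.eq_one_iff v).mpr (map_subtype_le _ hv)
        rw [this, one_mul]
    -- comparison with `F₀`
    obtain ⟨g, -, hg⟩ := conj_complement htop hsol hcop (hF₁.trans (inf_le_inf_left _ le_top)) hF₀
      hcF₁ hcF₀
    have h3 : MulAut.conj g • P' ≤ N ⊓ centralizer (F₀ : Set G) := by
      rintro _ ⟨x, hx, rfl⟩
      refine ⟨?_, ?_⟩
      · exact (inferInstance : N.Normal).conj_mem _ (map_subtype_le _ hx) g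
      · rw [← hg]
        change _ ∈ centralizer _
        rw [mem_centralizer_iff]
        rintro _ ⟨y, hy, rfl⟩
        have h4 := mem_centralizer_iff.mp (hcent hy) x hx
        change g * y * g⁻¹ * (g * x * g⁻¹) = g * x * g⁻¹ * (g * y * g⁻¹)
        calc g * y * g⁻¹ * (g * x * g⁻¹) = g * (y * x) * g⁻¹ := by group
          _ = g * (x * y) * g⁻¹ := by rw [h4]
          _ = _ := by group
    have h4 : Nat.card P' ∣ Nat.card (N ⊓ centralizer (F₀ : Set G) : Subgroup G) := by
      rw [← Cfsg.Agent.Solvable.SZ.card_conj_smul g P']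
      exact card_dvd_of_le h3
    refine dvd_trans ?_ h4
    rw [hP', card_map_of_injective N.subtype_injective]
    exact P.pow_dvd_card_of_pow_dvd_card hpk
  have h1 : Nat.card N ∣ Nat.card (N ⊓ centralizer (F₀ : Set G) : Subgroup G) :=
    (Nat.dvd_iff_prime_pow_dvd_dvd _ _).mpr key
  have h2 : N ⊓ centralizer (F₀ : Set G) = N :=
    eq_of_le_of_card_ge inf_le_left (Nat.le_of_dvd Nat.card_pos h1)
  have h3 : F₀ ≤ centralizer (N : Set G) := by
    rw [le_centralizer_iff, ← h2]
    exact inf_le_right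
  rw [← (map_complement (hF₀.trans inf_le_left) hcF₀ hcop).2]
  exact map_mono h3

end

end Cfsg.Agent.H429.FrobQuot
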