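import Mathlib
import Cfsg.Agent.OrdDiv.Main
import Cfsg.Agent.OrdDiv.Table
import Cfsg.Agent.S0000

/-!
# No simple group of order `72 m`, `m ≡ 1, 19 mod 27`, of order dividing `2^13 3^2 5 7 11^2 13^2` (helper429, for S5227)
-/

set_option autoImplicit false

namespace Cfsg.Agent.H429.NoSimple

open Cfsg Cfsg.Agent.OrdDiv

universe u

/-- the check -/
def chk : Bool :=
  (cands [(2, 13), (3, 2), (5, 1), (7, 1), (11, 2), (13, 2)] (2 ^ 13 * 3 ^ 2 * 5 * 7 * 11 ^ 2 * 13 ^ 2)).all fun g =>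
    (ordN g % 72 != 0) || ((ordN g / 72 % 27 != 1) && (ordN g / 72 % 27 != 19))

/-- **Task E2 of S5227.** -/
theorem no_simple {K : Type u} [Group K] [Finite K] [IsSimpleGroup K] (hc : ¬ IsMulCommutative K) {m : ℕ}
    (hm : Nat.card K = 72 * m) (h27 : m % 27 = 1 ∨ m % 27 = 19)
    (hd : Nat.card K ∣ 2 ^ 13 * 3 ^ 2 * 5 * 7 * 11 ^ 2 * 13 ^ 2) : False := by
  have hna : ¬ ∀ a b : K, a * b = b * a := fun h => hc ⟨⟨h⟩⟩
  obtain ⟨g, hg, -, ho⟩ := exists_good table (Cfsg.Agent.S0000.result (G := K)) hna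
    (l := [(2, 13), (3, 2), (5, 1), (7, 1), (11, 2), (13, 2)])
    (N := 2 ^ 13 * 3 ^ 2 * 5 * 7 * 11 ^ 2 * 13 ^ 2) (by decide +kernel) hd
  have hchk : chk = true := by decide +kernel
  rw [chk, List.all_eq_true] at hchk
  have h1 := hchk g hg
  rw [← ho, hm] at h1
  have h2 : 72 * m % 72 = 0 := Nat.mul_mod_right _ _
  have h3 : 72 * m / 72 = m := Nat.mul_div_cancel_left _ (by norm_num)
  rw [h2, h3] at h1
  rcases h27 with h | h <;> simp [h] at h1

end Cfsg.Agent.H429.NoSimple
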