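import Mathlib

/-!
# Primitive groups with an almost simple regular subgroup: tools (helper429, S3692)

* `RT K` : the two facts about a simple group `K` which are needed (a prime with cyclic Sylow subgroups not dividing
  `|Out K|`, and no faithful action on `|Out K|` points);
* `eq_of_pow` : if `|T| ^ c = |S| e`, `S` embeds in `T` and `e` divides `|Out S|`, then `c = 1`, `e = 1`, `S = T`.
-/

set_option autoImplicit false

namespace Cfsg.Agent.H429.Reg

open Subgroup

/-- The order of the outer automorphism group. -/
noncomputable def outI (K : Type*) [Group K] : ℕ := (MulAut.conj : K →* MulAut K).range.index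

/-- The facts about the simple group `K`. -/
structure RT (K : Type*) [Group K] : Prop where
  cyc : ∃ r : ℕ, r.Prime ∧ r ∣ Nat.card K ∧ ¬ r ∣ outI K ∧ ∀ P : Sylow r K, IsCyclic P
  perm : ∀ e ≤ outI K, ∀ φ : K →* Equiv.Perm (Fin e), ¬ Function.Injective φ

/-- The index of a normal subgroup with trivial centralizer divides `|Out|`. -/
theorem index_dvd {B : Type*} [Group B] [Finite B] (S : Subgroup B) [S.Normal]
    (hSc : centralizer (S : Set B) = ⊥) : S.index ∣ outI S := by
  let φ : B →* MulAut S := MulAut.conjNormal
  have hφ : Function.Injective φ := by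
    rw [← MonoidHom.ker_eq_bot_iff, eq_bot_iff]
    intro x hx
    rw [← hSc, mem_centralizer_iff]
    intro s hs
    have h1 := DFunLike.congr_fun (MonoidHom.mem_ker.mp hx) ⟨s, hs⟩
    have h2 := congrArg Subtype.val h1
    have h3 : x * s * x⁻¹ = s := h2
    rw [mul_inv_eq_iff_eq_mul] at h3
    exact h3.symm
  have hle : (MulAut.conj : S →* MulAut S).range ≤ φ.range := by
    rintro _ ⟨s, rfl⟩
    refine ⟨(s : B), ?_⟩
    ext t
    rfl
  have h1 : (MulAut.conj : S →* MulAut S).range = S.map φ := by
    ext α
    constructor
    · rintro ⟨s, rfl⟩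
      exact ⟨s, s.2, by ext t; rfl⟩
    · rintro ⟨s, hs, rfl⟩
      exact ⟨⟨s, hs⟩, by ext t; rfl⟩
  have h2 : (MulAut.conj : S →* MulAut S).range.relIndex φ.range = S.index := by
    rw [h1, MonoidHom.range_eq_map, ← relIndex_top_right]
    exact relIndex_map_map_of_injective S ⊤ hφ
  have h3 := relIndex_mul_index hle
  unfold outI
  rw [← h3, h2]
  exact dvd_mul_right _ _

theorem outI_pos (K : Type*) [Group K] [Finite K] : 0 < outI K := Nat.pos_of_ne_zero index_ne_zero_of_finite

theorem RT.lt {K : Type*} [Group K] [Finite K] (h : RT K) : outI K < Nat.card K := by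
  by_contra hcon
  push Not at hcon
  let f : K ≃ Fin (Nat.card K) := Finite.equivFin K
  refine h.perm _ hcon (f.permCongrHom.toMonoidHom.comp (MulAction.toPermHom K K)) ?_
  exact (f.permCongrHom.injective).comp MulAction.toPerm_injective

/-- A subgroup of small index. -/
theorem surjective_of_card {S T : Type*} [Group S] [Group T] [Finite T] [IsSimpleGroup T] (h : RT S)
    (f : S →* T) (hf : Function.Injective f) {e : ℕ} (he : Nat.card T = Nat.card S * e) (hle : e ≤ outI S) :
    Function.Surjective f := by
  by_contra hcon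
  have hne : f.range ≠ ⊤ := fun h1 => hcon (MonoidHom.range_eq_top.mp h1)
  have hfin : Finite S := Finite.of_injective f hf
  have hc : Nat.card f.range = Nat.card S := Nat.card_congr (MonoidHom.ofInjective hf).toEquiv.symm
  have hi : f.range.index = e := by
    have h1 := f.range.card_mul_index
    rw [hc, he] at h1
    exact Nat.eq_of_mul_eq_mul_left Nat.card_pos h1
  let g : T ⧸ f.range ≃ Fin e := Finite.equivFinOfCardEq (by rw [← index_eq_card]; exact hi)
  have hker : (MulAction.toPermHom T (T ⧸ f.range)).ker = ⊥ := by
    rw [← normalCore_eq_ker]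
    refine ((inferInstance : f.range.normalCore.Normal).eq_bot_or_eq_top).resolve_right ?_
    intro h1
    apply hne
    rw [eq_top_iff, ← h1]
    exact normalCore_le _
  refine h.perm e hle (g.permCongrHom.toMonoidHom.comp ((MulAction.toPermHom T (T ⧸ f.range)).comp f)) ?_
  exact (g.permCongrHom.injective).comp (((MonoidHom.ker_eq_bot_iff _).mp hker).comp hf)

/-- **The final count.** -/
theorem eq_of_pow {S T : Type*} [Group S] [Group T] [Finite T] [IsSimpleGroup T] [Nontrivial S] (h : RT S)
    (f : S →* T) (hf : Function.Injective f) {e c : ℕ} (he : Nat.card T ^ c = Nat.card S * e) (hd : e ∣ outI S) :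
    c = 1 ∧ e = 1 ∧ Function.Surjective f := by
  have hfin : Finite S := Finite.of_injective f hf
  have hle : e ≤ outI S := Nat.le_of_dvd (outI_pos S) hd
  have hlt := h.lt
  have hST : Nat.card S ≤ Nat.card T := Nat.card_le_card_of_injective f hf
  have h1 : 1 < Nat.card S := Finite.one_lt_card
  have he0 : 0 < e := Nat.pos_of_dvd_of_pos hd (outI_pos S)
  have hc : c = 1 := by
    by_contra hc
    rcases Nat.lt_or_ge c 1 with hc0 | hc1
    · obtain rfl : c = 0 := by omega
      rw [pow_zero] at he
      have := Nat.eq_one_of_mul_eq_one_right he.symm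
      omega
    · have h2 : Nat.card T ^ 2 ≤ Nat.card T ^ c := Nat.pow_le_pow_right (by omega) (by omega)
      rw [he] at h2
      nlinarith
  subst hc
  rw [pow_one] at he
  have hs := surjective_of_card h f hf he hle
  refine ⟨rfl, ?_, hs⟩
  have h2 : Nat.card T = Nat.card S := Nat.card_congr (Equiv.ofBijective f ⟨hf, hs⟩).symm
  rw [h2] at he
  have h3 : Nat.card S * e = Nat.card S * 1 := by omega
  exact Nat.eq_of_mul_eq_mul_left (by omega) h3

end Cfsg.Agent.H429.Reg
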