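import Mathlib
import Cfsg.Agent.H429.RegBase
import Cfsg.Agent.H484.CritNum
import Cfsg.Agent.H469.NBr
import Cfsg.Agent.H501.RealGen
import Cfsg.Agent.H934.OutB
import Cfsg.Agent.LieExceptional.CyclicSylow

/-!
# The facts `RT` about the simple groups: tools (helper429, S3692)
-/

set_option autoImplicit false

namespace Cfsg.Agent.H429.Reg

open Subgroup Cfsg.Agent.H484.SylNorm Cfsg.Agent.H934.OutB

universe u v

/-- All `r`-subgroups are cyclic. -/
def Cyc (r : ℕ) (K : Type*) [Group K] : Prop := ∀ P : Subgroup K, IsPGroup r P → IsCyclic P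

theorem Cyc.of_injective {r : ℕ} {K L : Type*} [Group K] [Group L] (f : K →* L) (hf : Function.Injective f)
    (h : Cyc r L) : Cyc r K := by
  intro P hP
  have h1 := h (P.map f) (hP.map f)
  exact isCyclic_of_injective (P.equivMapOfInjective f hf).toMonoidHom (MulEquiv.injective _)

theorem Cyc.of_surjective {r : ℕ} [Fact r.Prime] {K L : Type*} [Group K] [Finite K] [Group L] (f : K →* L)
    (hf : Function.Surjective f) (h : Cyc r K) : Cyc r L := fun P hP =>
  Cfsg.Agent.H469.isCyclic_of_surj f hf h P hP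

theorem Cyc.of_sylow {r : ℕ} [Fact r.Prime] {K : Type*} [Group K] (h : ∀ P : Sylow r K, IsCyclic P) : Cyc r K := by
  intro P hP
  obtain ⟨Q, hQ⟩ := hP.exists_le_sylow
  have := h Q
  exact isCyclic_of_injective (Subgroup.inclusion hQ) (Subgroup.inclusion_injective hQ)

/-- `r ^ 2` does not divide the order -/
theorem Cyc.of_sq {r : ℕ} (hr : r.Prime) {K : Type*} [Group K] [Finite K] (h : ¬ r ^ 2 ∣ Nat.card K) : Cyc r K := by
  intro P hP
  have := Fact.mk hr
  obtain ⟨n, hn⟩ := hP.exists_card_eq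
  have h1 : n < 2 := by
    by_contra hcon
    push Not at hcon
    exact h (((pow_dvd_pow r hcon).trans (hn ▸ dvd_rfl)).trans (Subgroup.card_subgroup_dvd_card P))
  interval_cases n
  · rw [pow_zero] at hn
    have : Subsingleton P := (Nat.card_eq_one_iff_unique.mp hn).1
    infer_instance
  · rw [pow_one] at hn
    exact isCyclic_of_prime_card hn

/-- a linear group of small dimension -/
theorem Cyc.of_rep {F V : Type*} [Field F] [Finite F] [AddCommGroup V] [Module F V] [FiniteDimensional F V]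
    {X : Type*} [Group X] [Finite X] (ρ : X →* Module.End F V) (hρ : Function.Injective ρ) {r : ℕ} [Fact r.Prime]
    (hr2 : r ≠ 2) (hrF : ¬ r ∣ Nat.card F) (h : Module.finrank F V < 2 * orderOf (Nat.card F : ZMod r)) : Cyc r X := by
  intro P hP
  by_contra hnc
  have := Cfsg.Agent.H501.RealGen.two_le_finrank ρ hρ hr2 hrF hP hnc
  omega

/-! ### The permutation part -/

theorem not_pow_dvd_factorial' {p v e : ℕ} (hp : p.Prime) (hv : 1 ≤ v) (he : e ≤ v * (p - 1)) :
    ¬ p ^ v ∣ e.factorial := by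
  intro h
  have := Fact.mk hp
  rcases Nat.eq_zero_or_pos e with rfl | he0
  · rw [Nat.factorial_zero, Nat.dvd_one] at h
    have h1 : 2 ^ 1 ≤ p ^ v := (Nat.pow_le_pow_left hp.two_le 1).trans (Nat.pow_le_pow_right hp.pos hv)
    omega
  · have h1 : v ≤ padicValNat p e.factorial := by
      rwa [padicValNat_dvd_iff_le (Nat.factorial_ne_zero e)] at h
    have h2 := sub_one_mul_padicValNat_factorial_lt_of_ne_zero p he0.ne'
    have h3 : (p - 1) * v ≤ (p - 1) * padicValNat p e.factorial := Nat.mul_le_mul_left _ h1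
    rw [mul_comm v] at he
    omega

/-- no faithful action, by the order -/
theorem perm_of_pow {K : Type*} [Group K] [Finite K] {p v : ℕ} (hp : p.Prime) (hv : 1 ≤ v)
    (h : p ^ v ∣ Nat.card K) (ho : outI K ≤ v * (p - 1)) :
    ∀ e ≤ outI K, ∀ φ : K →* Equiv.Perm (Fin e), ¬ Function.Injective φ := by
  intro e he φ hφ
  apply not_pow_dvd_factorial' hp hv (he.trans ho)
  have h1 := Subgroup.card_dvd_of_injective φ hφ
  rw [Nat.card_perm, Nat.card_fin] at h1
  exact h.trans h1

theorem two_pow_gt {o : ℕ} (h : 10 ≤ o) : o ^ 3 < 2 ^ o := by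
  induction o, h using Nat.le_induction with
  | base => norm_num
  | succ n hn ih =>
    rw [pow_succ 2 n]
    have h1 : (n + 1) ^ 3 ≤ n ^ 3 * 2 := by nlinarith [mul_le_mul' hn (le_refl (n ^ 2)), mul_le_mul' hn (le_refl n)]
    omega

/-- no faithful action, by the indices of the subgroups -/
theorem perm_of_bd {K : Type u} [Group K] [Finite K] [IsSimpleGroup K] (hB : Bd K) (h10 : 10 ≤ outI K) :
    ∀ e ≤ outI K, ∀ φ : K →* Equiv.Perm (Fin e), ¬ Function.Injective φ := by
  intro e he φ hφ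
  obtain ⟨x, hx⟩ := exists_ne (1 : K)
  have h1 : φ x ≠ 1 := fun h1 => hx (hφ (by rw [h1, map_one]))
  obtain ⟨i, hi⟩ : ∃ i, φ x i ≠ i := by
    by_contra hcon
    push Not at hcon
    exact h1 (Equiv.ext hcon)
  let _ : MulAction K (Fin e) := MulAction.compHom _ φ
  have hsm : ∀ (k : K) (j : Fin e), k • j = φ k j := fun _ _ => rfl
  have h2 : MulAction.stabilizer K i ≠ ⊤ := by
    intro h2
    have h3 : x ∈ MulAction.stabilizer K i := by rw [h2]; trivial
    exact hi h3
  have h3 := hB _ h2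
  have h4 : (MulAction.stabilizer K i).index ≤ e := by
    rw [MulAction.index_stabilizer]
    exact (Set.ncard_le_card _).trans (by rw [Nat.card_fin])
  have h5 : 2 ^ outI K ≤ outI K ^ 3 := h3.trans (Nat.pow_le_pow_left (h4.trans he) 3)
  have h6 := two_pow_gt h10
  omega

/-! ### Assembling -/

theorem RT.congr {K : Type u} [Group K] {X : Type v} [Group X] (e : K ≃* X) (h : RT X) : RT K := by
  have ho : outI K = outI X := Cfsg.Agent.H55.OutGen.index_range_conj_congr e
  obtain ⟨r, hr, hrX, hro, hcyc⟩ := h.cyc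
  have := Fact.mk hr
  refine ⟨⟨r, hr, ?_, ?_, ?_⟩, ?_⟩
  · rwa [Nat.card_congr e.toEquiv]
  · rwa [ho]
  · exact fun P => (Cyc.of_sylow hcyc).of_injective e.toMonoidHom e.injective P P.2
  · intro n hn φ hφ
    rw [ho] at hn
    exact h.perm n hn (φ.comp e.symm.toMonoidHom) (hφ.comp e.symm.injective)

/-- from a model -/
theorem rt_of_model {K : Type u} [Group K] [Finite K] (hK : IsSimpleGroup K) (hna : ¬ IsMulCommutative K)
    {X : Type v} [Group X] (e : K ≃* X) (h : Finite X → IsSimpleGroup X → center X = ⊥ → RT X) : RT K := by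
  have hX : IsSimpleGroup X := e.symm.isSimpleGroup
  refine RT.congr e (h (Finite.of_equiv K e.toEquiv) hX ?_)
  rcases (inferInstance : (center X).Normal).eq_bot_or_eq_top with h1 | h1
  · exact h1
  · exfalso
    apply hna
    refine ⟨⟨fun a b => ?_⟩⟩
    apply e.injective
    rw [map_mul, map_mul]
    have h2 : e b ∈ center X := by rw [h1]; trivial
    exact mem_center_iff.mp h2 (e a)

/-- the standard case -/
theorem rt_of {X : Type*} [Group X] [Finite X] {r p v n : ℕ} (hr : r.Prime) (hrX : r ∣ Nat.card X) (hc : Cyc r X)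
    (ho : outI X = n) (hrn : ¬ r ∣ n) (hp : p.Prime) (hv : 1 ≤ v) (hpv : p ^ v ∣ Nat.card X) (hn : n ≤ v * (p - 1)) :
    RT X where
  cyc := ⟨r, hr, hrX, by rwa [ho], fun P => hc P P.2⟩
  perm := perm_of_pow hp hv hpv (by rwa [ho])

theorem outI_of_aut {X : Type*} [Group X] [Finite X] (hc : center X = ⊥) {n : ℕ}
    (h : Nat.card (MulAut X) = n * Nat.card X) : outI X = n := index_of_card hc h

/-! ### Zsigmondy primes -/

section Zs

variable {q f e p : ℕ}

theorem orderOf_eq (h : Zs q f e p) (hq : q ≠ 0) : orderOf (q : ZMod p) = e := by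
  have h1 := fun k => Cfsg.Agent.H501.RealGen.dvd_pow_sub_one_iff (p := p) hq k
  exact Nat.dvd_antisymm ((h1 e).mp ((h.iff e).mpr dvd_rfl)) ((h.iff _).mp ((h1 _).mpr dvd_rfl))

theorem not_dvd (h : Zs q f e p) (he : e ≠ 0) (hq : q ≠ 0) : ¬ p ∣ q := by
  intro hd
  have h1 : p ∣ q ^ e - 1 := (h.iff e).mpr dvd_rfl
  have h2 : p ∣ q ^ e := dvd_pow hd he
  have h4 := Nat.dvd_sub h2 h1
  rw [Nat.sub_sub_self (Nat.pos_of_ne_zero (pow_ne_zero e hq))] at h4
  exact h.prime.one_lt.ne' (Nat.dvd_one.mp h4)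

/-- `p > e` -/
theorem lt_of (h : Zs q f e p) (he : e ≠ 0) (hq : q ≠ 0) : e < p := by
  have := Fact.mk h.prime
  have h1 : (q : ZMod p) ≠ 0 := by
    rw [Ne, ZMod.natCast_eq_zero_iff]
    exact not_dvd h he hq
  have h2 := ZMod.orderOf_dvd_card_sub_one h1
  rw [orderOf_eq h hq] at h2
  have h3 := Nat.le_of_dvd (by have := h.prime.two_le; omega) h2
  have := h.prime.two_le
  omega

theorem orderOf_pow_eq (h : Zs q f e p) (hq : q ≠ 0) {k : ℕ} (hk : k ≠ 0) (he : e ≠ 0) :
    orderOf ((q ^ k : ℕ) : ZMod p) = e / Nat.gcd e k := by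
  rw [Nat.cast_pow, orderOf_pow' _ hk, orderOf_eq h hq]

end Zs

end Cfsg.Agent.H429.Reg
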