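import Mathlib
import Cfsg.Agent.H429.RegTab
import Cfsg.Agent.H484.CritClassical
import Cfsg.Agent.H934.OutCl

/-!
# The facts `RT` for the classical groups (helper429, S3692)
-/

set_option autoImplicit false

namespace Cfsg.Agent.H429.Reg

open Subgroup Cfsg Cfsg.Agent.H484.SylNorm Cfsg.Agent.H934.OutB

/-- a matrix group of small dimension -/
theorem Cyc.of_mat {F : Type*} [Field F] [Finite F] {ι : Type*} [Fintype ι] [DecidableEq ι] {X : Type*} [Group X]
    [Finite X] (f : X →* Matrix ι ι F) (hf : Function.Injective f) {r : ℕ} [Fact r.Prime] (hr2 : r ≠ 2)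
    (hrF : ¬ r ∣ Nat.card F) (h : Fintype.card ι < 2 * orderOf (Nat.card F : ZMod r)) : Cyc r X := by
  refine Cyc.of_rep ((Matrix.toLinAlgEquiv' (R := F) (n := ι)).toMulEquiv.toMonoidHom.comp f) ?_ hr2 hrF ?_
  · intro a b hab
    exact hf ((Matrix.toLinAlgEquiv' (R := F) (n := ι)).injective hab)
  · rwa [Module.finrank_fintype_fun_eq_card]

/-- removing a coprime factor -/
theorem pow_dvd_right {r a g N : ℕ} (hr : r.Prime) (hg : ¬ r ∣ g) (h : r ^ a ∣ g * N) : r ^ a ∣ N :=
  Nat.Coprime.dvd_of_dvd_mul_left (Nat.Coprime.pow_left _ ((Nat.Prime.coprime_iff_not_dvd hr).mpr hg)) h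

theorem ndvd_sub {r f : ℕ} (hr : r.Prime) (hf : 1 ≤ f) : ¬ r ∣ r ^ f - 1 := by
  intro h1
  have h2 : r ∣ r ^ f := dvd_pow_self r (by omega)
  have h3 := Nat.dvd_sub h2 h1
  rw [Nat.sub_sub_self (Nat.one_le_pow _ _ hr.pos)] at h3
  exact hr.one_lt.ne' (Nat.dvd_one.mp h3)

theorem ndvd_add {r f : ℕ} (hr : r.Prime) (hf : 1 ≤ f) : ¬ r ∣ r ^ f + 1 := by
  intro h1
  have h2 : r ∣ r ^ f := dvd_pow_self r (by omega)
  have h3 := (Nat.dvd_add_right h2).mp h1
  exact hr.one_lt.ne' (Nat.dvd_one.mp h3)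

theorem ndvd_gcd {r n m : ℕ} (h : ¬ r ∣ m) : ¬ r ∣ Nat.gcd n m := fun h1 => h (h1.trans (Nat.gcd_dvd_right _ _))

theorem zs_ne_two {q f e p : ℕ} (h : Zs q f e p) : p ≠ 2 := by
  have := h.five
  omega

/-- the permutation part when `n = 3` -/
theorem perm_three {K : Type*} [Group K] [Finite K] [IsSimpleGroup K] (hB : Bd K) {f g : ℕ} (hf : 1 ≤ f)
    (ho : outI K = 2 * f * g) (hg : g ∣ 3) (hg1 : g = 3 → 2 ≤ f) (h : 2 ^ (f * 3) ∣ Nat.card K) :
    ∀ e ≤ outI K, ∀ φ : K →* Equiv.Perm (Fin e), ¬ Function.Injective φ := by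
  rcases (Nat.dvd_prime Nat.prime_three).mp hg with rfl | rfl
  · exact perm_of_pow Nat.prime_two (v := f * 3) (by omega) h (by rw [ho]; omega)
  · have := hg1 rfl
    exact perm_of_bd hB (by rw [ho]; omega)

/-- the arithmetic for linear and unitary groups -/
theorem perm_lin {K : Type*} [Group K] [Finite K] [IsSimpleGroup K] (hB : Bd K) {r f n g M : ℕ} (hr : r.Prime)
    (hf : 1 ≤ f) (hn : 3 ≤ n) (ho : outI K = 2 * f * g) (hg : g ∣ n) (hgr : ¬ r ∣ g) (hg1 : r = 2 → n = 3 → g = 3 → 2 ≤ f)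
    (hM : 2 * M = n * (n - 1)) (h : r ^ (f * M) ∣ Nat.card K) :
    ∀ e ≤ outI K, ∀ φ : K →* Equiv.Perm (Fin e), ¬ Function.Injective φ := by
  have hgn : g ≤ n := Nat.le_of_dvd (by omega) hg
  have hM3 : 3 ≤ M := by
    have : 3 * 2 ≤ n * (n - 1) := Nat.mul_le_mul hn (by omega)
    omega
  have hfM : 1 ≤ f * M := Nat.mul_pos hf (by omega)
  rcases Nat.lt_or_ge r 3 with hr3 | hr3
  · obtain rfl : r = 2 := by have := hr.two_le; omega
    rcases Nat.lt_or_ge n 5 with h5 | h5
    · rcases Nat.lt_or_ge n 4 with h4 | h4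
      · obtain rfl : n = 3 := by omega
        obtain rfl : M = 3 := by omega
        exact perm_three hB hf ho hg (hg1 rfl rfl) h
      · obtain rfl : n = 4 := by omega
        obtain rfl : M = 6 := by omega
        have hg1 : g = 1 := by
          by_contra hne
          obtain ⟨s, hs, hsg⟩ := Nat.exists_prime_and_dvd hne
          have h1 : s ∣ 2 ^ 2 := hsg.trans (by simpa using hg)
          have h2 := (Nat.prime_dvd_prime_iff_eq hs Nat.prime_two).mp (hs.dvd_of_dvd_pow h1)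
          subst h2
          exact hgr hsg
        exact perm_of_pow Nat.prime_two hfM h (by rw [ho, hg1]; omega)
    · refine perm_of_pow Nat.prime_two hfM h ?_
      rw [ho]
      have h1 : 2 * (2 * n) ≤ 2 * M := by
        rw [hM]
        calc 2 * (2 * n) = n * 4 := by ring
          _ ≤ n * (n - 1) := Nat.mul_le_mul_left _ (by omega)
      calc 2 * f * g ≤ 2 * f * n := Nat.mul_le_mul_left _ hgn
        _ = f * (2 * n) := by ring
        _ ≤ f * M := Nat.mul_le_mul_left _ (by omega)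
        _ = f * M * (2 - 1) := by ring
  · refine perm_of_pow hr hfM h ?_
    rw [ho]
    have h1 : 2 * n ≤ 2 * M := by
      rw [hM]
      calc 2 * n = n * 2 := by ring
        _ ≤ n * (n - 1) := Nat.mul_le_mul_left _ (by omega)
    calc 2 * f * g ≤ 2 * f * n := Nat.mul_le_mul_left _ hgn
      _ = f * n * 2 := by ring
      _ ≤ f * M * 2 := Nat.mul_le_mul_right _ (Nat.mul_le_mul_left _ (by omega))
      _ ≤ f * M * (r - 1) := Nat.mul_le_mul_left _ (by omega)

section

variable {F : Type*} [Field F] [Fintype F]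

/-! ### `PSL_n(q)` -/

theorem pow_dvd_psl {n r f : ℕ} (hr : r.Prime) (hf : 1 ≤ f) (hF : Fintype.card F = r ^ f) (hn : 2 ≤ n) :
    r ^ (f * (n * (n - 1) / 2)) ∣ Nat.card (Matrix.ProjectiveSpecialLinearGroup (Fin n) F) := by
  have h1 := S0243.result (F := F) rfl n hn
  have h2 : (r ^ f) ^ (n * (n - 1) / 2) ∣ ∏ i : Fin n, ((r ^ f) ^ n - (r ^ f) ^ (i : ℕ)) := by
    have h3 : (r ^ f) ^ (n * (n - 1) / 2) = ∏ i : Fin n, (r ^ f) ^ (i : ℕ) := by
      rw [Finset.prod_pow_eq_pow_sum, Fin.sum_univ_eq_sum_range (fun i => i), Finset.sum_range_id]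
    rw [h3]
    refine Finset.prod_dvd_prod_of_dvd _ _ fun i _ => ?_
    exact Nat.dvd_sub (pow_dvd_pow _ i.2.le) dvd_rfl
  rw [pow_mul]
  rw [hF] at h1
  rw [← h1, ← pow_mul] at h2
  rw [← pow_mul]
  exact pow_dvd_right hr (ndvd_sub hr hf) (pow_dvd_right hr (ndvd_gcd (ndvd_sub hr hf)) h2)

theorem cyc_psl {n p : ℕ} [Fact p.Prime] (hp2 : p ≠ 2) (hpF : ¬ p ∣ Nat.card F)
    (h : n < 2 * orderOf (Nat.card F : ZMod p)) (_ : Finite (Matrix.ProjectiveSpecialLinearGroup (Fin n) F)) :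
    Cyc p (Matrix.ProjectiveSpecialLinearGroup (Fin n) F) := by
  refine Cyc.of_surjective (QuotientGroup.mk' _) (QuotientGroup.mk'_surjective _)
    (Cyc.of_mat (slToMat n F) (fun a b hab => Subtype.ext hab) hp2 hpF ?_)
  rwa [Fintype.card_fin]

theorem rt_psl {n : ℕ} (hn : 2 ≤ n) (hn2 : n = 2 → 4 ≤ Fintype.card F)
    (hfin : Finite (Matrix.ProjectiveSpecialLinearGroup (Fin n) F))
    (hs : IsSimpleGroup (Matrix.ProjectiveSpecialLinearGroup (Fin n) F))
    (hna : ¬ IsMulCommutative (Matrix.ProjectiveSpecialLinearGroup (Fin n) F))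
    (hc : center (Matrix.ProjectiveSpecialLinearGroup (Fin n) F) = ⊥) :
    RT (Matrix.ProjectiveSpecialLinearGroup (Fin n) F) := by
  obtain ⟨r, f, hr, hf, hF⟩ := exists_card F
  have := Fact.mk hr
  have haut := S0813.result r f hf hF n hn (by rwa [← hF])
  rw [card_pgl hn, ← mul_assoc] at haut
  have hout := outI_of_aut hc haut
  have hcard := S0243.result (F := F) rfl n hn
  have hB := Cfsg.Agent.H934.OutCl.psl hn hn2 hs hna
  have hpow := pow_dvd_psl hr hf hF hn
  have hq0 : r ^ f ≠ 0 := pow_ne_zero _ hr.ne_zero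
  rw [hF] at hout hcard hn2
  -- the permutation part
  have hperm : ∀ e ≤ outI (Matrix.ProjectiveSpecialLinearGroup (Fin n) F),
      ∀ φ : Matrix.ProjectiveSpecialLinearGroup (Fin n) F →* Equiv.Perm (Fin e), ¬ Function.Injective φ := by
    rcases Nat.lt_or_ge n 3 with h3 | h3
    · obtain rfl : n = 2 := by omega
      rw [if_pos rfl, one_mul] at hout
      refine perm_of_pow hr (v := f * (2 * (2 - 1) / 2)) (by omega) hpow ?_
      rw [hout]
      rcases Nat.lt_or_ge r 3 with hr3 | hr3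
      · obtain rfl : r = 2 := by have := hr.two_le; omega
        have h1 : Nat.gcd 2 (2 ^ f - 1) = 1 :=
          (Nat.Prime.coprime_iff_not_dvd Nat.prime_two).mpr (ndvd_sub Nat.prime_two hf)
        rw [h1]
        omega
      · have h1 : Nat.gcd 2 (r ^ f - 1) ≤ 2 := Nat.le_of_dvd two_pos (Nat.gcd_dvd_left _ _)
        calc f * Nat.gcd 2 (r ^ f - 1) ≤ f * 2 := Nat.mul_le_mul_left _ h1
          _ ≤ f * (r - 1) := Nat.mul_le_mul_left _ (by omega)
          _ = f * (2 * (2 - 1) / 2) * (r - 1) := by norm_num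
    · rw [if_neg (by omega)] at hout
      refine perm_lin hB hr hf h3 hout (Nat.gcd_dvd_left _ _) (ndvd_gcd (ndvd_sub hr hf)) ?_
        (M := n * (n - 1) / 2) ?_ hpow
      · rintro rfl rfl h1
        by_contra h2
        obtain rfl : f = 1 := by omega
        norm_num at h1
      · exact Nat.mul_div_cancel' (Nat.even_mul_pred_self n).two_dvd
  -- the cyclic part
  suffices hsuf : ∃ p : ℕ, p.Prime ∧ p ∣ Nat.card (Matrix.ProjectiveSpecialLinearGroup (Fin n) F) ∧
      ¬ p ∣ outI (Matrix.ProjectiveSpecialLinearGroup (Fin n) F) ∧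
      Cyc p (Matrix.ProjectiveSpecialLinearGroup (Fin n) F) by
    obtain ⟨p, hp, h1, h2, h3⟩ := hsuf
    exact ⟨⟨p, hp, h1, h2, fun P => h3 P P.2⟩, hperm⟩
  have key : ∀ e, 2 ≤ e → e ≤ n → n < 2 * e → 3 ≤ f * e → ¬ (r = 2 ∧ f * e = 6) →
      ∃ p : ℕ, p.Prime ∧ p ∣ Nat.card (Matrix.ProjectiveSpecialLinearGroup (Fin n) F) ∧
      ¬ p ∣ outI (Matrix.ProjectiveSpecialLinearGroup (Fin n) F) ∧
      Cyc p (Matrix.ProjectiveSpecialLinearGroup (Fin n) F) := by
    intro e he hen h2e h3 h6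
    obtain ⟨p, h⟩ := exists_zs hr hf h3 h6
    have := Fact.mk h.prime
    refine ⟨p, h.prime, dvd_psl hn hen he (hF ▸ h), ?_, cyc_psl (zs_ne_two h) ?_ ?_ hfin⟩
    · rw [hout]
      refine h.ndvd_mul (h.ndvd_mul ?_ h.ndvd) (h.not_dvd_gcd he n)
      split_ifs
      · exact h.not_dvd_of_le one_pos (by norm_num)
      · exact h.not_dvd_of_le two_pos (by norm_num)
    · rw [Nat.card_eq_fintype_card, hF]
      exact not_dvd h (by omega) hq0
    · rw [Nat.card_eq_fintype_card, hF, orderOf_eq h hq0]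
      exact h2e
  rcases Nat.lt_or_ge n 3 with h3 | h3
  · -- `n = 2`
    obtain rfl : n = 2 := by omega
    have hq4 := hn2 rfl
    rw [Fin.prod_univ_two] at hcard
    by_cases hf1 : f = 1
    · subst hf1
      rw [pow_one] at hcard hq4 hout
      have h5 : 5 ≤ r := by
        have : r ≠ 4 := by rintro rfl; norm_num at hr
        omega
      have hr1 : ¬ r ∣ r - 1 := fun h => by
        have := Nat.le_of_dvd (by omega) h
        omega
      have hr2 : ¬ r ∣ r + 1 := fun h => by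
        have h1 := (Nat.dvd_add_right (dvd_refl r)).mp h
        have := Nat.le_of_dvd one_pos h1
        omega
      have hg : ¬ r ∣ Nat.gcd 2 (r - 1) := fun h => hr1 (h.trans (Nat.gcd_dvd_right _ _))
      have hcard' : Nat.gcd 2 (r - 1) * ((r - 1) * Nat.card (Matrix.ProjectiveSpecialLinearGroup (Fin 2) F)) =
          r * ((r - 1) * (r + 1) * (r - 1)) := by
        rw [hcard]
        change (r ^ 2 - r ^ 0) * (r ^ 2 - r ^ 1) = _
        obtain ⟨k, rfl⟩ : ∃ k, r = k + 1 := ⟨r - 1, by omega⟩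
        have h1 : (k + 1) ^ 2 - (k + 1) ^ 0 = k * (k + 2) := by
          rw [pow_zero]
          have : (k + 1) ^ 2 = k * (k + 2) + 1 := by ring
          omega
        have h2 : (k + 1) ^ 2 - (k + 1) ^ 1 = (k + 1) * k := by
          rw [pow_one]
          have : (k + 1) ^ 2 = (k + 1) * k + (k + 1) := by ring
          omega
        rw [h1, h2, Nat.add_sub_cancel]
        ring
      refine ⟨r, hr, ?_, ?_, Cyc.of_sq hr ?_⟩
      · have h6 : r ∣ Nat.gcd 2 (r - 1) * ((r - 1) *
            Nat.card (Matrix.ProjectiveSpecialLinearGroup (Fin 2) F)) := by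
          rw [hcard']
          exact dvd_mul_right _ _
        rw [hr.dvd_mul, hr.dvd_mul] at h6
        tauto
      · rw [hout, if_pos rfl, one_mul, one_mul]
        exact hg
      · intro h7
        have h8 : r * r ∣ r * ((r - 1) * (r + 1) * (r - 1)) := by
          rw [← hcard', ← pow_two]
          exact Dvd.dvd.mul_left (Dvd.dvd.mul_left h7 _) _
        have h9 := Nat.dvd_of_mul_dvd_mul_left hr.pos h8
        rw [hr.dvd_mul, hr.dvd_mul] at h9
        tauto
    · by_cases h6 : r = 2 ∧ f * 2 = 6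
      · obtain ⟨rfl, h6⟩ := h6
        obtain rfl : f = 3 := by omega
        norm_num at hcard
        have h504 : Nat.card (Matrix.ProjectiveSpecialLinearGroup (Fin 2) F) = 504 := by omega
        refine ⟨7, by norm_num, ?_, ?_, Cyc.of_sq (by norm_num) ?_⟩
        · rw [h504]; norm_num
        · rw [hout]; norm_num
        · rw [h504]; norm_num
      · exact key 2 le_rfl le_rfl (by norm_num) (by omega) h6
  · by_cases h6 : r = 2 ∧ f * n = 6
    · have h7 : n = 3 ∧ f = 2 ∨ n = 6 ∧ f = 1 := by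
        obtain ⟨-, h6⟩ := h6
        have h8 : n ≤ 6 := by nlinarith
        interval_cases n <;> omega
      refine key (n - 1) (by omega) (by omega) (by omega) ?_ ?_
      · rcases h7 with ⟨rfl, rfl⟩ | ⟨rfl, rfl⟩ <;> norm_num
      · rcases h7 with ⟨rfl, rfl⟩ | ⟨rfl, rfl⟩ <;> norm_num
    · exact key n (by omega) le_rfl (by omega) (by nlinarith) h6

end

end Cfsg.Agent.H429.Reg
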