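import Mathlib
import Cfsg.Agent.H429.RegCl

/-!
# The facts `RT` for the symplectic, unitary and orthogonal groups (helper429, S3692)
-/

set_option autoImplicit false

namespace Cfsg.Agent.H429.Reg

open Subgroup Cfsg Cfsg.Agent.H484.SylNorm Cfsg.Agent.H934.OutB

section

variable {F : Type*} [Field F] [Fintype F]

/-! ### `PSp_2m(q)` -/

theorem cyc_psp {m p : ℕ} [Fact p.Prime] (hp2 : p ≠ 2) (hpF : ¬ p ∣ Nat.card F)
    (h : 2 * m < 2 * orderOf (Nat.card F : ZMod p)) : Cyc p (Cfsg.PSp m F) := by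
  have hfin : Finite (Matrix.symplecticGroup (Fin m) F) := Subtype.finite
  refine Cyc.of_surjective (QuotientGroup.mk' _) (QuotientGroup.mk'_surjective _)
    (Cyc.of_mat (Matrix.symplecticGroup (Fin m) F).subtype (fun a b hab => Subtype.ext hab) hp2 hpF ?_)
  rw [Fintype.card_sum, Fintype.card_fin]
  omega

theorem rt_psp {m : ℕ} (hm : 2 ≤ m) (hm2 : m = 2 → 3 ≤ Fintype.card F) (_ : Finite (Cfsg.PSp m F))
    (hc : center (Cfsg.PSp m F) = ⊥) : RT (Cfsg.PSp m F) := by
  obtain ⟨r, f, hr, hf, hF⟩ := exists_card F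
  have := Fact.mk hr
  have haut := S0814.result r f hf hF m hm (by rwa [← hF])
  have hout := outI_of_aut hc haut
  have h1 := S0245.result (F := F) hF m
  have h2 := S0246.result (F := F) hF m (by omega)
  have h3 := Subgroup.card_eq_card_quotient_mul_card_subgroup (center (Matrix.symplecticGroup (Fin m) F))
  rw [h1, h2] at h3
  have hq0 : r ^ f ≠ 0 := pow_ne_zero _ hr.ne_zero
  have hcard : Nat.gcd 2 (r ^ f - 1) * Nat.card (Cfsg.PSp m F) =
      (r ^ f) ^ (m ^ 2) * ∏ i ∈ Finset.range m, ((r ^ f) ^ (2 * (i + 1)) - 1) := by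
    rw [mul_comm]
    exact h3.symm
  -- the prime
  obtain ⟨e, he4, hem, heven, h2e, h6⟩ : ∃ e, 4 ≤ e ∧ e ≤ 2 * m ∧ 2 ∣ e ∧ 2 * m < 2 * e ∧ ¬ (r = 2 ∧ f * e = 6) := by
    by_cases h6 : r = 2 ∧ f * (2 * m) = 6
    · obtain ⟨-, h6⟩ := h6
      have h7 : m ≤ 3 := by nlinarith
      have h8 : m = 3 ∧ f = 1 := by interval_cases m <;> omega
      obtain ⟨rfl, rfl⟩ := h8
      exact ⟨4, le_rfl, by norm_num, by norm_num, by norm_num, by norm_num⟩
    · exact ⟨2 * m, by omega, le_rfl, dvd_mul_right _ _, by omega, h6⟩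
  obtain ⟨p, h⟩ := exists_zs hr hf (e := e) (by nlinarith) h6
  have := Fact.mk h.prime
  have hd : p ∣ Nat.card (Cfsg.PSp m F) := by
    refine h.dvd_of_mul (h.not_dvd_gcd (by omega) 2) ?_
    rw [hcard]
    apply Dvd.dvd.mul_left
    obtain ⟨k, rfl⟩ := heven
    have h5 := Finset.dvd_prod_of_mem (fun i => (r ^ f) ^ (2 * (i + 1)) - 1) (Finset.mem_range.mpr (by omega : k - 1 < m))
    refine Dvd.dvd.trans ?_ h5
    exact (h.iff _).mpr (by rw [show k - 1 + 1 = k by omega])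
  have hg : Nat.gcd 2 (r ^ f - 1) ≤ 2 := Nat.le_of_dvd two_pos (Nat.gcd_dvd_left _ _)
  refine rt_of h.prime hd (cyc_psp (zs_ne_two h) ?_ ?_) hout ?_ hr (v := f * m ^ 2) (Nat.mul_pos hf (by positivity)) ?_ ?_
  · rw [Nat.card_eq_fintype_card, hF]
    exact not_dvd h (by omega) hq0
  · rw [Nat.card_eq_fintype_card, hF, orderOf_eq h hq0]
    exact h2e
  · refine h.ndvd_mul (h.ndvd_mul ?_ (h.not_dvd_gcd (by omega) 2)) h.ndvd
    split_ifs
    · exact h.not_dvd_of_le two_pos (by norm_num)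
    · exact h.not_dvd_of_le one_pos (by norm_num)
  · refine pow_dvd_right hr (ndvd_gcd (n := 2) (ndvd_sub hr hf)) ?_
    rw [hcard, pow_mul]
    exact dvd_mul_right _ _
  · have h4 : (if m = 2 ∧ r = 2 then 2 else 1) ≤ 2 := by split_ifs <;> norm_num
    have h5 : 4 ≤ m ^ 2 := by nlinarith
    have := hr.two_le
    calc (if m = 2 ∧ r = 2 then 2 else 1) * Nat.gcd 2 (r ^ f - 1) * f ≤ 2 * 2 * f :=
          Nat.mul_le_mul_right _ (Nat.mul_le_mul h4 hg)
      _ = f * 4 * 1 := by ring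
      _ ≤ f * m ^ 2 * (r - 1) := Nat.mul_le_mul (Nat.mul_le_mul_left _ h5) (by omega)

/-! ### `PSU_n(q)` -/

theorem cyc_psu {n q p : ℕ} [Fact p.Prime] (hp2 : p ≠ 2) (hpF : ¬ p ∣ Nat.card F)
    (h : n < 2 * orderOf (Nat.card F : ZMod p)) : Cyc p (Cfsg.PSU n F q) := by
  have hfin : Finite (Cfsg.SU n F q) := Subtype.finite
  refine Cyc.of_surjective (QuotientGroup.mk' _) (QuotientGroup.mk'_surjective _)
    (Cyc.of_mat ((slToMat n F).comp (Cfsg.SU n F q).subtype)
      (fun a b hab => Subtype.ext (Subtype.ext hab)) hp2 hpF ?_)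
  rwa [Fintype.card_fin]

theorem rt_psu {n q : ℕ} (hF : Fintype.card F = q ^ 2) (hn : 3 ≤ n) (hn2 : ¬ (n = 3 ∧ q = 2))
    (_ : Finite (Cfsg.PSU n F q)) (hs : IsSimpleGroup (Cfsg.PSU n F q)) (hna : ¬ IsMulCommutative (Cfsg.PSU n F q))
    (hc : center (Cfsg.PSU n F q) = ⊥) : RT (Cfsg.PSU n F q) := by
  have hq2 : IsPrimePow (q ^ 2) := hF ▸ Fintype.isPrimePow_card_of_field
  have hqp : IsPrimePow q := (isPrimePow_pow_iff (by norm_num)).1 hq2
  obtain ⟨r, f, hr, hf, hq⟩ := (isPrimePow_nat_iff _).mp hqp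
  have := Fact.mk hr
  have haut := S0815.result (F := F) r f hf hq.symm hF n hn hn2
  have hout := outI_of_aut hc haut
  have hcard := S0280.result hF n (by omega)
  have hB := Cfsg.Agent.H934.OutCl.psu hF hn hn2 hs hna
  have hq0 : q ≠ 0 := by rw [← hq]; exact pow_ne_zero _ hr.ne_zero
  have hrq1 : ¬ r ∣ q + 1 := by rw [← hq]; exact ndvd_add hr hf
  have hpow : r ^ (f * (n * (n - 1) / 2)) ∣ Nat.card (Cfsg.PSU n F q) := by
    refine pow_dvd_right hr hrq1 (pow_dvd_right hr (ndvd_gcd (n := n) hrq1) ?_)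
    rw [hcard, pow_mul, hq]
    exact dvd_mul_right _ _
  have hperm : ∀ e ≤ outI (Cfsg.PSU n F q), ∀ φ : Cfsg.PSU n F q →* Equiv.Perm (Fin e), ¬ Function.Injective φ := by
    refine perm_lin hB hr hf hn (g := Nat.gcd n (q + 1)) (by rw [hout]; ring) (Nat.gcd_dvd_left _ _) (ndvd_gcd hrq1) ?_
      (M := n * (n - 1) / 2) ?_ hpow
    · rintro rfl rfl h1
      by_contra h2
      obtain rfl : f = 1 := by omega
      exact hn2 ⟨rfl, by rw [← hq, pow_one]⟩
    · exact Nat.mul_div_cancel' (Nat.even_mul_pred_self n).two_dvd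
  suffices hsuf : ∃ p : ℕ, p.Prime ∧ p ∣ Nat.card (Cfsg.PSU n F q) ∧
      ¬ p ∣ outI (Cfsg.PSU n F q) ∧ Cyc p (Cfsg.PSU n F q) by
    obtain ⟨p, hp, h1, h2, h3⟩ := hsuf
    exact ⟨⟨p, hp, h1, h2, fun P => h3 P P.2⟩, hperm⟩
  have key : ∀ k, 3 ≤ k → k ≤ n → n < 2 * k → Odd k → ¬ (r = 2 ∧ f * (2 * k) = 6) →
      ∃ p : ℕ, p.Prime ∧ p ∣ Nat.card (Cfsg.PSU n F q) ∧ ¬ p ∣ outI (Cfsg.PSU n F q) ∧ Cyc p (Cfsg.PSU n F q) := by
    intro k hk hkn h2k hko h6
    obtain ⟨p, h⟩ := exists_zs hr hf (e := 2 * k) (by nlinarith) h6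
    have := Fact.mk h.prime
    rw [hq] at h
    refine ⟨p, h.prime, ?_, ?_, cyc_psu (zs_ne_two h) ?_ ?_⟩
    · refine h.dvd_of_mul (h.not_dvd_succ (by omega)) (h.dvd_of_mul (h.not_dvd_gcd' (by omega) n) ?_)
      rw [hcard]
      apply Dvd.dvd.mul_left
      have h5 := Finset.dvd_prod_of_mem (fun i => if Even i then q ^ (i + 1) + 1 else q ^ (i + 1) - 1)
        (Finset.mem_range.mpr (by omega : k - 1 < n))
      refine Dvd.dvd.trans ?_ h5
      have h7 : Even (k - 1) := by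
        obtain ⟨j, rfl⟩ := hko
        exact ⟨j, by omega⟩
      simp only [h7, if_true]
      rw [show k - 1 + 1 = k by omega]
      refine h.dvd_add ?_ dvd_rfl
      intro h8
      have := Nat.le_of_dvd (by omega) h8
      omega
    · rw [hout]
      exact h.ndvd_mul (h.not_dvd_gcd' (by omega) n) (h.ndvd_mul (h.not_dvd_of_le two_pos (by norm_num)) h.ndvd)
    · rw [Nat.card_eq_fintype_card, hF]
      intro h8
      exact not_dvd h (by omega) hq0 (h.prime.dvd_of_dvd_pow h8)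
    · rw [Nat.card_eq_fintype_card, hF, orderOf_pow_eq h hq0 two_ne_zero (by omega), Nat.gcd_eq_right (dvd_mul_right 2 k),
        Nat.mul_div_cancel_left _ two_pos]
      exact h2k
  rcases Nat.even_or_odd n with hne | hno
  · -- `n` even
    by_cases h6 : r = 2 ∧ f * (2 * (n - 1)) = 6
    · -- `PSU_4(2)`
      obtain ⟨rfl, h6⟩ := h6
      have h7 : n = 4 := by
        have h8 : n ≤ 4 := by
          have : 1 * (2 * (n - 1)) ≤ f * (2 * (n - 1)) := Nat.mul_le_mul_right _ hf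
          omega
        obtain ⟨j, rfl⟩ := hne
        omega
      subst h7
      obtain rfl : f = 1 := by omega
      rw [pow_one] at hq
      subst hq
      have h9 : Nat.card (Cfsg.PSU 4 F 2) = 25920 := by
        have h10 : Nat.gcd 4 (2 + 1) * ((2 + 1) * Nat.card (Cfsg.PSU 4 F 2)) = 77760 := by
          rw [hcard]
          decide
        norm_num at h10
        omega
      refine ⟨5, by norm_num, by rw [h9]; norm_num, ?_, Cyc.of_sq (by norm_num) (by rw [h9]; norm_num)⟩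
      rw [hout]
      norm_num
    · obtain ⟨j, hj⟩ := hne
      exact key (n - 1) (by omega) (by omega) (by omega) ⟨j - 1, by omega⟩ h6
  · refine key n hn le_rfl (by omega) hno ?_
    rintro ⟨rfl, h6⟩
    have h7 : n = 3 := by nlinarith
    subst h7
    obtain rfl : f = 1 := by omega
    exact hn2 ⟨rfl, by rw [← hq, pow_one]⟩

/-! ### Orthogonal groups -/

theorem cyc_pomega {ι : Type} [Fintype ι] [DecidableEq ι] {Q : (ι → F) → F} {p : ℕ} [Fact p.Prime] (hp2 : p ≠ 2)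
    (hpF : ¬ p ∣ Nat.card F) (h : Fintype.card ι < 2 * orderOf (Nat.card F : ZMod p)) : Cyc p (Cfsg.POmega F Q) := by
  have hfin : Finite (Cfsg.isometryGroup F Q) := Subtype.finite
  have hfin' : Finite (Cfsg.Omega F Q) := Subtype.finite
  refine Cyc.of_surjective (QuotientGroup.mk' _) (QuotientGroup.mk'_surjective _)
    (Cyc.of_mat ((Units.coeHom (Matrix ι ι F)).comp ((Cfsg.isometryGroup F Q).subtype.comp (Cfsg.Omega F Q).subtype))
      (fun a b hab => Subtype.ext (Subtype.ext (Units.ext hab))) hp2 hpF h)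

theorem rt_oodd {m : ℕ} (hm : 3 ≤ m) (ho : Odd (Fintype.card F))
    (_ : Finite (Cfsg.POmega F (Cfsg.quadFormOdd m F))) (hc : center (Cfsg.POmega F (Cfsg.quadFormOdd m F)) = ⊥) :
    RT (Cfsg.POmega F (Cfsg.quadFormOdd m F)) := by
  obtain ⟨r, f, hr, hf, hF⟩ := exists_card F
  have := Fact.mk hr
  have hro : Odd r := by
    rw [hF] at ho
    exact (Nat.odd_pow_iff (by omega)).mp ho
  have hr3 : 3 ≤ r := by
    have := hr.two_le
    obtain ⟨k, hk⟩ := hro
    omega
  have hout := outI_of_aut hc (S0816.result (F := F) r f hf hF hro m hm)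
  have hcard := S0292.result (F := F) rfl ho m hm
  rw [hF] at hcard
  have hq0 : r ^ f ≠ 0 := pow_ne_zero _ hr.ne_zero
  obtain ⟨p, h⟩ := exists_zs hr hf (e := 2 * m) (by nlinarith) (by omega)
  have := Fact.mk h.prime
  have hd : p ∣ Nat.card (Cfsg.POmega F (Cfsg.quadFormOdd m F)) := by
    refine h.dvd_of_mul (h.not_dvd_of_le two_pos (by norm_num)) ?_
    rw [hcard]
    apply Dvd.dvd.mul_left
    have h5 := Finset.dvd_prod_of_mem (fun i => (r ^ f) ^ (2 * (i + 1)) - 1) (Finset.mem_range.mpr (by omega : m - 1 < m))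
    refine Dvd.dvd.trans ?_ h5
    exact (h.iff _).mpr (by rw [show m - 1 + 1 = m by omega])
  refine rt_of h.prime hd (cyc_pomega (zs_ne_two h) ?_ ?_) hout
    (h.ndvd_mul (h.not_dvd_of_le two_pos (by norm_num)) h.ndvd) hr (v := f * m ^ 2) (Nat.mul_pos hf (by positivity)) ?_ ?_
  · rw [Nat.card_eq_fintype_card, hF]
    exact not_dvd h (by omega) hq0
  · rw [Nat.card_eq_fintype_card, hF, orderOf_eq h hq0]
    simp only [Fintype.card_sum, Fintype.card_fin, Fintype.card_unit]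
    omega
  · refine pow_dvd_right hr (g := 2) ?_ ?_
    · intro h1
      have := Nat.le_of_dvd two_pos h1
      omega
    · rw [hcard, pow_mul]
      exact dvd_mul_right _ _
  · have h5 : 1 ≤ m ^ 2 := by nlinarith
    calc 2 * f = f * 1 * 2 := by ring
      _ ≤ f * m ^ 2 * (r - 1) := Nat.mul_le_mul (Nat.mul_le_mul_left _ h5) (by omega)

theorem rt_oplus {m : ℕ} (hm : 4 ≤ m)
    (_ : Finite (Cfsg.POmega F (Cfsg.quadFormPlus m F))) (hc : center (Cfsg.POmega F (Cfsg.quadFormPlus m F)) = ⊥) :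
    RT (Cfsg.POmega F (Cfsg.quadFormPlus m F)) := by
  obtain ⟨r, f, hr, hf, hF⟩ := exists_card F
  have := Fact.mk hr
  have hout := outI_of_aut hc (S0817.result (F := F) r f hf hF m hm)
  have hcard := S0293.result (F := F) rfl m hm
  rw [hF] at hcard
  have hq0 : r ^ f ≠ 0 := pow_ne_zero _ hr.ne_zero
  have hr2 := hr.two_le
  have hpow : r ^ (f * (m * (m - 1))) ∣ Nat.card (Cfsg.POmega F (Cfsg.quadFormPlus m F)) := by
    refine pow_dvd_right hr (ndvd_gcd (n := 4) (m := (r ^ f) ^ m - 1) (by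
      rw [← pow_mul]; exact ndvd_sub hr (Nat.mul_pos hf (by omega)))) ?_
    rw [hcard, pow_mul, mul_assoc]
    exact dvd_mul_right _ _
  have hmm : 12 ≤ m * (m - 1) := Nat.mul_le_mul hm (by omega : 3 ≤ m - 1)
  have hle : (if m = 4 then 3 else 1) * (if r = 2 then 2 else (if Even (m * (r ^ f - 1) / 2) then 8 else 4)) * f ≤
      f * (m * (m - 1)) * (r - 1) := by
    have h1 : (if m = 4 then 3 else 1) ≤ 3 := by split_ifs <;> norm_num
    rcases eq_or_ne r 2 with rfl | hr2'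
    · rw [if_pos rfl]
      calc (if m = 4 then 3 else 1) * 2 * f ≤ 3 * 2 * f := Nat.mul_le_mul_right _ (Nat.mul_le_mul_right _ h1)
        _ = f * 6 * 1 := by ring
        _ ≤ f * (m * (m - 1)) * (2 - 1) := Nat.mul_le_mul (Nat.mul_le_mul_left _ (by omega)) (by omega)
    · rw [if_neg hr2']
      have h2 : (if Even (m * (r ^ f - 1) / 2) then 8 else 4) ≤ 8 := by split_ifs <;> norm_num
      calc (if m = 4 then 3 else 1) * (if Even (m * (r ^ f - 1) / 2) then 8 else 4) * f ≤ 3 * 8 * f :=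
            Nat.mul_le_mul_right _ (Nat.mul_le_mul h1 h2)
        _ = f * 12 * 2 := by ring
        _ ≤ f * (m * (m - 1)) * (r - 1) := Nat.mul_le_mul (Nat.mul_le_mul_left _ (by omega)) (by omega)
  by_cases h6 : r = 2 ∧ f * (2 * (m - 1)) = 6
  · -- `Ω₈⁺(2)`
    obtain ⟨rfl, h6⟩ := h6
    obtain ⟨k, rfl⟩ : ∃ k, m = k + 4 := ⟨m - 4, by omega⟩
    have hk : k = 0 := by
      rw [show k + 4 - 1 = k + 3 by omega] at h6
      nlinarith
    subst hk
    obtain rfl : f = 1 := by omega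
    norm_num at hcard
    have h9 : Nat.card (Cfsg.POmega F (Cfsg.quadFormPlus (0 + 4) F)) = 174182400 := by
      rw [hcard]
    refine rt_of (r := 7) (by norm_num) (by rw [h9]; norm_num) (Cyc.of_sq (by norm_num) (by rw [h9]; norm_num)) hout
      (by norm_num) hr (Nat.mul_pos hf (by norm_num)) hpow hle
  · obtain ⟨p, h⟩ := exists_zs hr hf (e := 2 * (m - 1)) (by
      have : 1 * (2 * (m - 1)) ≤ f * (2 * (m - 1)) := Nat.mul_le_mul_right _ hf
      omega) h6
    have := Fact.mk h.prime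
    have hd : p ∣ Nat.card (Cfsg.POmega F (Cfsg.quadFormPlus m F)) := by
      have h2 : ¬ p ∣ Nat.gcd 4 ((r ^ f) ^ m - 1) := fun h2 =>
        h.not_dvd_of_le (by norm_num : 0 < 4) le_rfl (h2.trans (Nat.gcd_dvd_left _ _))
      refine h.dvd_of_mul h2 ?_
      rw [hcard]
      apply Dvd.dvd.mul_left
      have h5 := Finset.dvd_prod_of_mem (fun i => (r ^ f) ^ (2 * (i + 1)) - 1)
        (Finset.mem_range.mpr (by omega : m - 2 < m - 1))
      refine Dvd.dvd.trans ?_ h5
      exact (h.iff _).mpr (by rw [show m - 2 + 1 = m - 1 by omega])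
    refine rt_of h.prime hd (cyc_pomega (zs_ne_two h) ?_ ?_) hout ?_ hr (Nat.mul_pos hf (by omega)) hpow hle
    · rw [Nat.card_eq_fintype_card, hF]
      exact not_dvd h (by omega) hq0
    · rw [Nat.card_eq_fintype_card, hF, orderOf_eq h hq0]
      simp only [Fintype.card_sum, Fintype.card_fin]
      omega
    · refine h.ndvd_mul (h.ndvd_mul ?_ ?_) h.ndvd
      · split_ifs
        · exact h.not_dvd_of_le (by norm_num) (by norm_num)
        · exact h.not_dvd_of_le (by norm_num) (by norm_num)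
      · split_ifs
        · exact h.not_dvd_of_le (by norm_num) (by norm_num)
        · exact h.not_dvd_eight
        · exact h.not_dvd_of_le (by norm_num) (by norm_num)

theorem rt_ominus {m : ℕ} (hm : 4 ≤ m) {a b : F}
    (hab : ∀ z₁ z₂ : F, z₁ ^ 2 + a * z₁ * z₂ + b * z₂ ^ 2 = 0 → z₁ = 0 ∧ z₂ = 0)
    (_ : Finite (Cfsg.POmega F (Cfsg.quadFormMinus (m - 1) F a b)))
    (hc : center (Cfsg.POmega F (Cfsg.quadFormMinus (m - 1) F a b)) = ⊥) :
    RT (Cfsg.POmega F (Cfsg.quadFormMinus (m - 1) F a b)) := by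
  obtain ⟨r, f, hr, hf, hF⟩ := exists_card F
  have := Fact.mk hr
  have hout := outI_of_aut hc (S0818.result (F := F) r f hf hF m hm a b hab)
  have hcard := S0294.result (F := F) rfl m hm a b hab
  rw [hF] at hcard
  have hq0 : r ^ f ≠ 0 := pow_ne_zero _ hr.ne_zero
  have hr2 := hr.two_le
  have hpow : r ^ (f * (m * (m - 1))) ∣ Nat.card (Cfsg.POmega F (Cfsg.quadFormMinus (m - 1) F a b)) := by
    refine pow_dvd_right hr (ndvd_gcd (n := 4) (m := (r ^ f) ^ m + 1) (by
      rw [← pow_mul]; exact ndvd_add hr (Nat.mul_pos hf (by omega)))) ?_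
    rw [hcard, pow_mul, mul_assoc]
    exact dvd_mul_right _ _
  have hmm : 12 ≤ m * (m - 1) := Nat.mul_le_mul hm (by omega : 3 ≤ m - 1)
  have hle : (if r = 2 then 2 else (if Even (m * (r ^ f - 1) / 2) then 4 else 8)) * f ≤
      f * (m * (m - 1)) * (r - 1) := by
    have h1 : (if r = 2 then 2 else (if Even (m * (r ^ f - 1) / 2) then 4 else 8)) ≤ 8 := by split_ifs <;> norm_num
    calc (if r = 2 then 2 else (if Even (m * (r ^ f - 1) / 2) then 4 else 8)) * f ≤ 8 * f := Nat.mul_le_mul_right _ h1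
        _ = f * 8 * 1 := by ring
        _ ≤ f * (m * (m - 1)) * (r - 1) := Nat.mul_le_mul (Nat.mul_le_mul_left _ (by omega)) (by omega)
  obtain ⟨p, h⟩ := exists_zs hr hf (e := 2 * m) (by nlinarith) (by
    rintro ⟨-, h6⟩
    have : 1 * (2 * m) ≤ f * (2 * m) := Nat.mul_le_mul_right _ hf
    omega)
  have := Fact.mk h.prime
  have hd : p ∣ Nat.card (Cfsg.POmega F (Cfsg.quadFormMinus (m - 1) F a b)) := by
    have h2 : ¬ p ∣ Nat.gcd 4 ((r ^ f) ^ m + 1) := fun h2 =>
      h.not_dvd_of_le (by norm_num : 0 < 4) le_rfl (h2.trans (Nat.gcd_dvd_left _ _))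
    refine h.dvd_of_mul h2 ?_
    rw [hcard]
    refine Dvd.dvd.mul_right (Dvd.dvd.mul_left (h.dvd_add ?_ dvd_rfl) _) _
    intro h8
    have := Nat.le_of_dvd (by omega) h8
    omega
  refine rt_of h.prime hd (cyc_pomega (zs_ne_two h) ?_ ?_) hout ?_ hr (Nat.mul_pos hf (by omega)) hpow hle
  · rw [Nat.card_eq_fintype_card, hF]
    exact not_dvd h (by omega) hq0
  · rw [Nat.card_eq_fintype_card, hF, orderOf_eq h hq0]
    simp only [Fintype.card_sum, Fintype.card_fin]
    omega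
  · refine h.ndvd_mul ?_ h.ndvd
    split_ifs
    · exact h.not_dvd_of_le (by norm_num) (by norm_num)
    · exact h.not_dvd_of_le (by norm_num) (by norm_num)
    · exact h.not_dvd_eight

end

end Cfsg.Agent.H429.Reg
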