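import Mathlib
import Cfsg.Agent.H429.RegTab
import Cfsg.Agent.OrdDiv.Main
import Cfsg.Agent.H484.CritTable
import Cfsg.Agent.S2378
import Cfsg.Agent.H129.TwD4Cyc

/-!
# The facts `RT` for the exceptional groups of Lie type (helper429, S3692)
-/

set_option autoImplicit false

namespace Cfsg.Agent.H429.Reg

open Subgroup Cfsg Cfsg.Lie Cfsg.Agent.H484.SylNorm Cfsg.Agent.OrdDiv
open Cfsg.Agent.ChevalleyStructure.Elts

universe u v

theorem gen_le {D : ChevalleyDatum} (hD : InList D) {K : Type*} [Field K] (S : Set (List (ℕ × K))) :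
    D.genSubgroup K S ≤ D.group K := by
  unfold ChevalleyDatum.genSubgroup
  rw [Subgroup.closure_le]
  rintro g ⟨w, -, hg⟩
  rw [(eq_wordG_iff hD g w).2 hg]
  exact wordG_mem_group hD w

theorem not_dvd_prod {l : List ℕ} {p : ℕ} (hp : p.Prime) (h : ∀ x ∈ l, 0 < x ∧ x < p) : ¬ p ∣ l.prod := by
  intro hd
  obtain ⟨x, hx, hpx⟩ := (Prime.dvd_prod_iff hp.prime).mp hd
  have := h x hx
  have := Nat.le_of_dvd this.1 hpx
  omega

theorem cyc_of_homocyclic {P : Type*} [Group P] {k n : ℕ} (hk : k = 1)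
    (h : Nonempty (P ≃* (Fin k → Multiplicative (ZMod n)))) : IsCyclic P := by
  subst hk
  obtain ⟨e⟩ := h
  exact isCyclic_of_injective (e.trans (MulEquiv.funUnique (Fin 1) (Multiplicative (ZMod n)))).toMonoidHom
    (MulEquiv.injective _)

/-- Sylow subgroups of the Chevalley groups for primitive prime divisors. -/
theorem cyc_chev {F : Type*} [Field F] [Fintype F] {q : ℕ} (hq : Fintype.card F = q)
    {c : ChevalleyDatum × List ℕ}
    (hc : c ∈ [(Cfsg.Lie.chevG2, [2, 6]), (Cfsg.Lie.chevB2, [2, 4]), (Cfsg.Lie.chevD4, [2, 4, 4, 6]), (Cfsg.Lie.chevF4, [2, 6, 8, 12]),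
      (Cfsg.Lie.chevE6, [2, 5, 6, 8, 9, 12]), (Cfsg.Lie.chevE7, [2, 6, 8, 10, 12, 14, 18]), (Cfsg.Lie.chevE8, [2, 8, 12, 14, 18, 20, 24, 30])])
    {p e : ℕ} [Fact p.Prime] (hpq : ¬ p ∣ q) (ho : orderOf (q : ZMod p) = e)
    (hl : ∀ x ∈ c.2, 0 < x ∧ x < p) (hf : (c.2.filter (fun x => e ∣ x)).length = 1)
    (hd : p ∣ Nat.card ↥(c.1.group F)) : Cyc p ↥(c.1.group F) := by
  refine Cyc.of_sylow fun P => ?_
  have h1 := Cfsg.Agent.S2378.result hq c hc p hpq (not_dvd_prod Fact.out hl) hd P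
  refine cyc_of_homocyclic ?_ h1
  rw [ho]
  exact hf

/-- removing a coprime factor -/
theorem pow_dvd_of_mul {r a g N : ℕ} (hr : r.Prime) (hg : ¬ r ∣ g) (h : r ^ a ∣ g * N) : r ^ a ∣ N :=
  Nat.Coprime.dvd_of_dvd_mul_left (Nat.Coprime.pow_left _ ((Nat.Prime.coprime_iff_not_dvd hr).mpr hg)) h

theorem not_dvd_gcd_sub {r f : ℕ} (hr : r.Prime) (hf : 1 ≤ f) (n : ℕ) : ¬ r ∣ Nat.gcd n (r ^ f - 1) := by
  intro h
  have h1 := h.trans (Nat.gcd_dvd_right _ _)
  have h2 : r ∣ r ^ f := dvd_pow_self r (by omega)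
  have h3 := Nat.dvd_sub h2 h1
  rw [Nat.sub_sub_self (Nat.one_le_pow _ _ hr.pos)] at h3
  exact hr.one_lt.ne' (Nat.dvd_one.mp h3)

theorem not_dvd_gcd_add {r f : ℕ} (hr : r.Prime) (hf : 1 ≤ f) (n : ℕ) : ¬ r ∣ Nat.gcd n (r ^ f + 1) := by
  intro h
  have h1 := h.trans (Nat.gcd_dvd_right _ _)
  have h2 : r ∣ r ^ f := dvd_pow_self r (by omega)
  have h3 := (Nat.dvd_add_right h2).mp h1
  exact hr.one_lt.ne' (Nat.dvd_one.mp h3)

section

variable (T : OrderTable.{u}) (O : OutTable)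

include T O

theorem rt_g2 (F : Type) [Field F] [Fintype F] (h3 : 3 ≤ Fintype.card F) : RT ↥(Lie.chevG2.group F) := by
  obtain ⟨r, f, hr, hc, hf, hF⟩ := exists_char F
  have ho := O.g2 F r f hF (hF ▸ h3)
  have hcard := T.g2 F
  rw [hF] at hcard h3
  have hq0 : r ^ f ≠ 0 := by omega
  obtain ⟨p, h⟩ := exists_zs hr.out hf (e := 6) (by omega) (by
    rintro ⟨rfl, h6⟩
    obtain rfl : f = 1 := by omega
    norm_num at h3)
  have := Fact.mk h.prime
  have hp6 := lt_of h (by norm_num) hq0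
  have hd : p ∣ Nat.card ↥(Lie.chevG2.group F) := by
    rw [hcard]
    exact Dvd.dvd.mul_left ((h.iff 6).mpr dvd_rfl) _
  refine rt_of h.prime hd (cyc_chev hF (c := (chevG2, [2, 6])) (by simp) (not_dvd h (by norm_num) hq0)
    (orderOf_eq h hq0) (by simp; omega) (by decide) hd) ho ?_ hr.out (v := f * 6) (by omega) ?_ ?_
  · split_ifs
    · exact h.ndvd_mul (h.not_dvd_of_le two_pos (by norm_num)) h.ndvd
    · exact h.ndvd
  · rw [hcard, pow_mul]
    exact Dvd.dvd.mul_right (Dvd.dvd.mul_right dvd_rfl _) _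
  · have := hr.out.two_le
    have h1 : f * 6 * 1 ≤ f * 6 * (r - 1) := Nat.mul_le_mul_left _ (by omega)
    split_ifs <;> omega

theorem rt_f4 (F : Type) [Field F] [Fintype F] : RT ↥(Lie.chevF4.group F) := by
  obtain ⟨r, f, hr, hc, hf, hF⟩ := exists_char F
  have ho := O.f4 F r f hF
  have hcard := T.f4 F _ hF
  have hq0 : r ^ f ≠ 0 := pow_ne_zero _ hr.out.ne_zero
  obtain ⟨p, h⟩ := exists_zs hr.out hf (e := 12) (by omega) (by omega)
  have := Fact.mk h.prime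
  have hp6 := lt_of h (by norm_num) hq0
  have hd : p ∣ Nat.card ↥(Lie.chevF4.group F) := by
    rw [hcard]
    exact Dvd.dvd.mul_left ((h.iff 12).mpr dvd_rfl) _
  have hg : Nat.gcd 2 r ≤ 2 := Nat.le_of_dvd two_pos (Nat.gcd_dvd_left _ _)
  refine rt_of h.prime hd (cyc_chev hF (c := (chevF4, [2, 6, 8, 12])) (by simp) (not_dvd h (by norm_num) hq0)
    (orderOf_eq h hq0) (by simp; omega) (by decide) hd) ho ?_ hr.out (v := f * 24) (by omega) ?_ ?_
  · exact h.ndvd_mul (fun h1 => h.not_dvd_of_le two_pos (by norm_num) (h1.trans (Nat.gcd_dvd_left _ _))) h.ndvd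
  · rw [hcard, pow_mul]
    exact Dvd.dvd.mul_right (Dvd.dvd.mul_right (Dvd.dvd.mul_right (Dvd.dvd.mul_right dvd_rfl _) _) _) _
  · have := hr.out.two_le
    have h1 : f * 24 * 1 ≤ f * 24 * (r - 1) := Nat.mul_le_mul_left _ (by omega)
    nlinarith

theorem rt_e6 (F : Type) [Field F] [Fintype F] : RT ↥(Lie.chevE6.group F) := by
  obtain ⟨r, f, hr, hc, hf, hF⟩ := exists_char F
  have ho := O.e6 F r f hF
  have hcard := T.e6 F _ hF
  have hq0 : r ^ f ≠ 0 := pow_ne_zero _ hr.out.ne_zero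
  obtain ⟨p, h⟩ := exists_zs hr.out hf (e := 12) (by omega) (by omega)
  have := Fact.mk h.prime
  have hp6 := lt_of h (by norm_num) hq0
  have hd : p ∣ Nat.card ↥(Lie.chevE6.group F) := by
    refine h.dvd_of_mul (h.not_dvd_gcd (by norm_num) 3) ?_
    rw [hcard]
    exact Dvd.dvd.mul_left ((h.iff 12).mpr dvd_rfl) _
  have hg : Nat.gcd 3 (r ^ f - 1) ≤ 3 := Nat.le_of_dvd (by norm_num) (Nat.gcd_dvd_left _ _)
  refine rt_of h.prime hd (cyc_chev hF (c := (chevE6, [2, 5, 6, 8, 9, 12])) (by simp) (not_dvd h (by norm_num) hq0)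
    (orderOf_eq h hq0) (by simp; omega) (by decide) hd) ho ?_ hr.out (v := f * 36) (by omega) ?_ ?_
  · exact h.ndvd_mul (h.ndvd_mul (h.not_dvd_of_le two_pos (by norm_num)) (h.not_dvd_gcd (by norm_num) 3)) h.ndvd
  · refine pow_dvd_of_mul hr.out (not_dvd_gcd_sub hr.out hf 3) ?_
    rw [hcard, pow_mul]
    exact Dvd.dvd.mul_right (Dvd.dvd.mul_right (Dvd.dvd.mul_right (Dvd.dvd.mul_right (Dvd.dvd.mul_right
      (Dvd.dvd.mul_right dvd_rfl _) _) _) _) _) _
  · have := hr.out.two_le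
    have h1 : f * 36 * 1 ≤ f * 36 * (r - 1) := Nat.mul_le_mul_left _ (by omega)
    nlinarith

theorem rt_e7 (F : Type) [Field F] [Fintype F] : RT ↥(Lie.chevE7.group F) := by
  obtain ⟨r, f, hr, hc, hf, hF⟩ := exists_char F
  have ho := O.e7 F r f hF
  have hcard := T.e7 F _ hF
  have hq0 : r ^ f ≠ 0 := pow_ne_zero _ hr.out.ne_zero
  obtain ⟨p, h⟩ := exists_zs hr.out hf (e := 18) (by omega) (by omega)
  have := Fact.mk h.prime
  have hp6 := lt_of h (by norm_num) hq0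
  have hd : p ∣ Nat.card ↥(Lie.chevE7.group F) := by
    refine h.dvd_of_mul (h.not_dvd_gcd (by norm_num) 2) ?_
    rw [hcard]
    exact Dvd.dvd.mul_left ((h.iff 18).mpr dvd_rfl) _
  have hg : Nat.gcd 2 (r ^ f - 1) ≤ 2 := Nat.le_of_dvd (by norm_num) (Nat.gcd_dvd_left _ _)
  refine rt_of h.prime hd (cyc_chev hF (c := (chevE7, [2, 6, 8, 10, 12, 14, 18])) (by simp) (not_dvd h (by norm_num) hq0)
    (orderOf_eq h hq0) (by simp; omega) (by decide) hd) ho ?_ hr.out (v := f * 63) (by omega) ?_ ?_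
  · exact h.ndvd_mul (h.not_dvd_gcd (by norm_num) 2) h.ndvd
  · refine pow_dvd_of_mul hr.out (not_dvd_gcd_sub hr.out hf 2) ?_
    rw [hcard, pow_mul]
    exact Dvd.dvd.mul_right (Dvd.dvd.mul_right (Dvd.dvd.mul_right (Dvd.dvd.mul_right (Dvd.dvd.mul_right
      (Dvd.dvd.mul_right (Dvd.dvd.mul_right dvd_rfl _) _) _) _) _) _) _
  · have := hr.out.two_le
    have h1 : f * 63 * 1 ≤ f * 63 * (r - 1) := Nat.mul_le_mul_left _ (by omega)
    nlinarith

theorem rt_e8 (F : Type) [Field F] [Fintype F] : RT ↥(Lie.chevE8.group F) := by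
  obtain ⟨r, f, hr, hc, hf, hF⟩ := exists_char F
  have ho := O.e8 F r f hF
  have hcard := T.e8 F _ hF
  have hq0 : r ^ f ≠ 0 := pow_ne_zero _ hr.out.ne_zero
  obtain ⟨p, h⟩ := exists_zs hr.out hf (e := 30) (by omega) (by omega)
  have := Fact.mk h.prime
  have hp6 := lt_of h (by norm_num) hq0
  have hd : p ∣ Nat.card ↥(Lie.chevE8.group F) := by
    rw [hcard]
    exact Dvd.dvd.mul_left ((h.iff 30).mpr dvd_rfl) _
  refine rt_of h.prime hd (cyc_chev hF (c := (chevE8, [2, 8, 12, 14, 18, 20, 24, 30])) (by simp)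
    (not_dvd h (by norm_num) hq0)
    (orderOf_eq h hq0) (by simp; omega) (by decide) hd) ho h.ndvd hr.out (v := f * 120) (by omega) ?_ ?_
  · rw [hcard, pow_mul]
    exact Dvd.dvd.mul_right (Dvd.dvd.mul_right (Dvd.dvd.mul_right (Dvd.dvd.mul_right (Dvd.dvd.mul_right
      (Dvd.dvd.mul_right (Dvd.dvd.mul_right (Dvd.dvd.mul_right dvd_rfl _) _) _) _) _) _) _) _
  · have := hr.out.two_le
    have h1 : f * 120 * 1 ≤ f * 120 * (r - 1) := Nat.mul_le_mul_left _ (by omega)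
    omega

theorem rt_te6 (K : Type) [Field K] [Fintype K] (q : ℕ) (hq : IsPrimePow q) (hK : Fintype.card K = q ^ 2) :
    RT ↥(Lie.twistedE6 K q) := by
  obtain ⟨r, f, hr, hc, hf, hF⟩ := exists_char K
  obtain ⟨r', f', hr', hf', rfl⟩ := (isPrimePow_nat_iff _).mp hq
  have hrr : r' = r := by
    have h1 : r' ∣ r ^ f := by
      rw [← hF, hK, ← pow_mul]
      exact dvd_pow_self _ (by omega)
    exact (Nat.prime_dvd_prime_iff_eq hr' hr.out).mp (hr'.dvd_of_dvd_pow h1)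
  subst hrr
  have ho := O.te6 K r' f' (by rw [hK, ← pow_mul, mul_comm]) hf'
  have hcard := T.te6 K (r' ^ f') hq hK
  have hq0 : r' ^ f' ≠ 0 := pow_ne_zero _ hr'.ne_zero
  obtain ⟨p, h⟩ := exists_zs hr' hf' (e := 18) (by omega) (by omega)
  have := Fact.mk h.prime
  have hp6 := lt_of h (by norm_num) hq0
  have hd : p ∣ Nat.card ↥(Lie.twistedE6 K (r' ^ f')) := by
    refine h.dvd_of_mul (h.not_dvd_gcd' (by norm_num) 3) ?_
    rw [hcard]
    exact Dvd.dvd.mul_right (Dvd.dvd.mul_left (h.dvd_add (j := 9) (by norm_num) (by norm_num)) _) _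
  have hle : Lie.twistedE6 K (r' ^ f') ≤ chevE6.group K := gen_le (by simp) _
  have hd' : p ∣ Nat.card ↥(chevE6.group K) := hd.trans (Subgroup.card_dvd_of_le hle)
  have hcyc : Cyc p ↥(chevE6.group K) := by
    refine cyc_chev hK (c := (chevE6, [2, 5, 6, 8, 9, 12])) (by simp) (e := 9) ?_ ?_ (by simp; omega) (by decide) hd'
    · intro h1
      exact not_dvd h (by norm_num) hq0 (h.prime.dvd_of_dvd_pow h1)
    · rw [orderOf_pow_eq h hq0 two_ne_zero (by norm_num)]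
      norm_num
  have hg : Nat.gcd 3 (r' ^ f' + 1) ≤ 3 := Nat.le_of_dvd (by norm_num) (Nat.gcd_dvd_left _ _)
  refine rt_of h.prime hd (hcyc.of_injective (Subgroup.inclusion hle) (Subgroup.inclusion_injective hle)) ho ?_ hr'
    (v := f' * 36) (by omega) ?_ ?_
  · exact h.ndvd_mul (h.ndvd_mul (h.not_dvd_of_le two_pos (by norm_num)) (h.not_dvd_gcd' (by norm_num) 3)) h.ndvd
  · refine pow_dvd_of_mul hr' (not_dvd_gcd_add hr' hf' 3) ?_
    rw [hcard, pow_mul]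
    exact Dvd.dvd.mul_right (Dvd.dvd.mul_right (Dvd.dvd.mul_right (Dvd.dvd.mul_right (Dvd.dvd.mul_right
      (Dvd.dvd.mul_right dvd_rfl _) _) _) _) _) _
  · have := hr'.two_le
    have h1 : f' * 36 * 1 ≤ f' * 36 * (r' - 1) := Nat.mul_le_mul_left _ (by omega)
    nlinarith

theorem rt_td4 (K : Type) [Field K] [Fintype K] (q : ℕ) (hq : IsPrimePow q) (hK : Fintype.card K = q ^ 3) :
    RT ↥(Lie.twistedD4 K q) := by
  obtain ⟨r, f, hr, hc, hf, hF⟩ := exists_char K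
  obtain ⟨r', f', hr', hf', rfl⟩ := (isPrimePow_nat_iff _).mp hq
  have hrr : r' = r := by
    have h1 : r' ∣ r ^ f := by
      rw [← hF, hK, ← pow_mul]
      exact dvd_pow_self _ (by omega)
    exact (Nat.prime_dvd_prime_iff_eq hr' hr.out).mp (hr'.dvd_of_dvd_pow h1)
  subst hrr
  have ho := O.td4 K r' f' (by rw [hK, ← pow_mul, mul_comm]) hf'
  have hcard := T.td4 K (r' ^ f') hq hK
  have hq0 : r' ^ f' ≠ 0 := pow_ne_zero _ hr'.ne_zero
  obtain ⟨p, h⟩ := exists_zs hr' hf' (e := 12) (by omega) (by omega)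
  have hp := Fact.mk h.prime
  have hpq := not_dvd h (by norm_num) hq0
  set q := r' ^ f' with hqdef
  obtain ⟨H, hHc, hHcard, -⟩ := Cfsg.Agent.H129.TwD4Cyc.coxeter_torus hq hK
  have hfac : q ^ 8 + q ^ 4 + 1 = (q ^ 4 + q ^ 2 + 1) * (q ^ 4 - q ^ 2 + 1) := by
    have h1 : q ^ 2 ≤ q ^ 4 := Nat.pow_le_pow_right (Nat.pos_of_ne_zero hq0) (by norm_num)
    zify [h1]
    ring
  have hq1 : 1 ≤ q := Nat.one_le_iff_ne_zero.mpr hq0
  have h6 : q ^ 6 - 1 = (q ^ 2 - 1) * (q ^ 4 + q ^ 2 + 1) := by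
    have h1 : 1 ≤ q ^ 6 := Nat.one_le_pow _ _ hq1
    have h2 : 1 ≤ q ^ 2 := Nat.one_le_pow _ _ hq1
    zify [h1, h2]
    ring
  have hn2 : ¬ p ∣ q ^ 2 - 1 := fun h1 => absurd ((h.iff 2).mp h1) (by norm_num)
  have hn6 : ¬ p ∣ q ^ 6 - 1 := fun h1 => absurd ((h.iff 6).mp h1) (by norm_num)
  have hn4 : ¬ p ∣ q ^ 4 + q ^ 2 + 1 := fun h1 => hn6 (by rw [h6]; exact Dvd.dvd.mul_left h1 _)
  have hA : ¬ p ∣ q ^ 12 * (q ^ 2 - 1) * (q ^ 6 - 1) * (q ^ 4 + q ^ 2 + 1) := by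
    rw [h.prime.dvd_mul, h.prime.dvd_mul, h.prime.dvd_mul]
    rintro (((h1 | h1) | h1) | h1)
    · exact hpq (h.prime.dvd_of_dvd_pow h1)
    · exact hn2 h1
    · exact hn6 h1
    · exact hn4 h1
  have hcard' : Nat.card ↥(Lie.twistedD4 K q) =
      (q ^ 12 * (q ^ 2 - 1) * (q ^ 6 - 1) * (q ^ 4 + q ^ 2 + 1)) * (q ^ 4 - q ^ 2 + 1) := by
    rw [hcard, hfac]
    ring
  have hd : p ∣ Nat.card ↥(Lie.twistedD4 K q) := by
    have h1 : p ∣ q ^ 12 - 1 := (h.iff 12).mpr dvd_rfl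
    have h2 : q ^ 12 - 1 = (q ^ 4 - 1) * (q ^ 8 + q ^ 4 + 1) := by
      have h3 : 1 ≤ q ^ 4 := Nat.one_le_pow _ _ hq1
      have h4 : 1 ≤ q ^ 12 := Nat.one_le_pow _ _ hq1
      zify [h3, h4]
      ring
    rw [h2, h.prime.dvd_mul] at h1
    rw [hcard]
    refine Dvd.dvd.mul_left (h1.resolve_left fun h3 => absurd ((h.iff 4).mp h3) (by norm_num)) _
  have hfin : Finite ↥(Lie.twistedD4 K q) := inferInstance
  have hcyc : Cyc p ↥(Lie.twistedD4 K q) := by
    have hHc' : IsCyclic ↥H := hHc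
    refine Cyc.of_sylow fun P =>
      Cfsg.Agent.LieExceptional.CyclicSylow.isCyclic_sylow_of_hom H.subtype H.subtype_injective ?_ P
    have hA0 : q ^ 12 * (q ^ 2 - 1) * (q ^ 6 - 1) * (q ^ 4 + q ^ 2 + 1) ≠ 0 := fun h0 => hA (h0 ▸ dvd_zero _)
    have hH0 : q ^ 4 - q ^ 2 + 1 ≠ 0 := by omega
    rw [hHcard, hcard', Nat.factorization_mul hA0 hH0, Finsupp.add_apply,
      Nat.factorization_eq_zero_of_not_dvd hA, zero_add]
  refine rt_of h.prime hd hcyc ho ?_ hr' (v := f' * 12) (by omega) ?_ ?_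
  · exact h.ndvd_mul (h.not_dvd_of_le (by norm_num) (by norm_num)) h.ndvd
  · rw [hcard, hqdef, pow_mul]
    exact Dvd.dvd.mul_right (Dvd.dvd.mul_right (Dvd.dvd.mul_right dvd_rfl _) _) _
  · have := hr'.two_le
    have h1 : f' * 12 * 1 ≤ f' * 12 * (r' - 1) := Nat.mul_le_mul_left _ (by omega)
    omega

theorem rt_sz (F : Type) [Field F] [Fintype F] (m : ℕ) (hm : 1 ≤ m) (hF : Fintype.card F = 2 ^ (2 * m + 1)) :
    RT ↥(Lie.Sz F (2 ^ (m + 1))) := by
  have ho := O.sz F m hm hF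
  have hcard := T.sz F m hm hF
  have hq0 : 2 ^ (2 * m + 1) ≠ 0 := by positivity
  obtain ⟨p, h⟩ := exists_zs Nat.prime_two (f := 2 * m + 1) (by omega) (e := 4) (by omega) (by omega)
  have hp := Fact.mk h.prime
  have hd : p ∣ Nat.card ↥(Lie.Sz F (2 ^ (m + 1))) := by
    rw [hcard]
    exact Dvd.dvd.mul_left (h.dvd_add (by norm_num) (by norm_num)) _
  have hcyc : Cyc p ↥(Lie.Sz F (2 ^ (m + 1))) := by
    intro P hP
    refine Cfsg.Agent.LieExceptional.CyclicSylow.isCyclic_of_isPGroup_of_hom_GL (F := F) (n := 4) (p := p) ?_ ?_ hP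
      ((Lie.Sz F (2 ^ (m + 1))).subtype.comp P.subtype)
      ((Lie.Sz F (2 ^ (m + 1))).subtype_injective.comp P.subtype_injective)
    · rw [Nat.card_eq_fintype_card, hF]
      exact not_dvd h (by norm_num) hq0
    · intro i hi hi4 hd
      rw [Nat.card_eq_fintype_card, hF] at hd
      have h1 := Nat.le_of_dvd hi ((h.iff i).mp hd)
      omega
  refine rt_of h.prime hd hcyc ho h.ndvd Nat.prime_two (v := (2 * m + 1) * 2) (by omega) ?_ (by omega)
  rw [hcard, pow_mul]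
  exact Dvd.dvd.mul_right (Dvd.dvd.mul_right dvd_rfl _) _

theorem rt_ree (F : Type) [Field F] [Fintype F] (m : ℕ) (hm : 1 ≤ m) (hF : Fintype.card F = 3 ^ (2 * m + 1)) :
    RT ↥(Lie.twistedG2 F (3 ^ m)) := by
  have ho := O.ree F m hm hF
  have hcard := T.ree F m hm hF
  have hq0 : 3 ^ (2 * m + 1) ≠ 0 := by positivity
  obtain ⟨p, h⟩ := exists_zs Nat.prime_three (f := 2 * m + 1) (by omega) (e := 6) (by omega) (by omega)
  have hp := Fact.mk h.prime
  have hp6 := lt_of h (by norm_num) hq0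
  have hd : p ∣ Nat.card ↥(Lie.twistedG2 F (3 ^ m)) := by
    rw [hcard]
    exact Dvd.dvd.mul_left (h.dvd_add (by norm_num) (by norm_num)) _
  have hle : Lie.twistedG2 F (3 ^ m) ≤ chevG2.group F := gen_le (by simp) _
  have hd' : p ∣ Nat.card ↥(chevG2.group F) := hd.trans (Subgroup.card_dvd_of_le hle)
  have hcyc : Cyc p ↥(chevG2.group F) :=
    cyc_chev hF (c := (chevG2, [2, 6])) (by simp) (not_dvd h (by norm_num) hq0)
      (orderOf_eq h hq0) (by simp; omega) (by decide) hd'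
  refine rt_of h.prime hd (hcyc.of_injective (Subgroup.inclusion hle) (Subgroup.inclusion_injective hle)) ho
    h.ndvd Nat.prime_three (v := (2 * m + 1) * 3) (by omega) ?_ (by omega)
  rw [hcard, pow_mul]
  exact Dvd.dvd.mul_right (Dvd.dvd.mul_right dvd_rfl _) _

theorem rt_tf4 (F : Type) [Field F] [Fintype F] (m : ℕ) (hm : 1 ≤ m) (hF : Fintype.card F = 2 ^ (2 * m + 1)) :
    RT ↥(Lie.twistedF4 F (2 ^ m)) := by
  have ho := O.tf4 F m hm hF
  have hcard := T.tf4 F m hm hF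
  have hq0 : 2 ^ (2 * m + 1) ≠ 0 := by positivity
  obtain ⟨p, h⟩ := exists_zs Nat.prime_two (f := 2 * m + 1) (by omega) (e := 12) (by omega) (by omega)
  have hp := Fact.mk h.prime
  have hp6 := lt_of h (by norm_num) hq0
  have hd : p ∣ Nat.card ↥(Lie.twistedF4 F (2 ^ m)) := by
    rw [hcard]
    exact Dvd.dvd.mul_left (h.dvd_add (by norm_num) (by norm_num)) _
  have hle : Lie.twistedF4 F (2 ^ m) ≤ chevF4.group F := gen_le (by simp) _
  have hd' : p ∣ Nat.card ↥(chevF4.group F) := hd.trans (Subgroup.card_dvd_of_le hle)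
  have hcyc : Cyc p ↥(chevF4.group F) :=
    cyc_chev hF (c := (chevF4, [2, 6, 8, 12])) (by simp) (not_dvd h (by norm_num) hq0)
      (orderOf_eq h hq0) (by simp; omega) (by decide) hd'
  refine rt_of h.prime hd (hcyc.of_injective (Subgroup.inclusion hle) (Subgroup.inclusion_injective hle)) ho
    h.ndvd Nat.prime_two (v := (2 * m + 1) * 12) (by omega) ?_ (by omega)
  rw [hcard, pow_mul]
  exact Dvd.dvd.mul_right (Dvd.dvd.mul_right (Dvd.dvd.mul_right (Dvd.dvd.mul_right dvd_rfl _) _) _) _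

end

end Cfsg.Agent.H429.Reg
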