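import Mathlib
import Cfsg.Agent.H429.RegBase
import Cfsg.Agent.H429.RegPerm

/-!
# Primitive groups with an almost simple regular subgroup: the regular subgroup and the socle (helper429, S3692)
-/

set_option autoImplicit false
set_option linter.unusedSectionVars false

open scoped commutatorElement

namespace Cfsg.Agent.H429.Reg

open Subgroup Cfsg.Agent.H936 MulAction

section Almost

variable {B : Type*} [Group B] (S : Subgroup B) [hSn : S.Normal] [IsSimpleGroup S]

/-- A nontrivial normal subgroup contains `S`. -/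
theorem le_of_normal (hSc : centralizer (S : Set B) = ⊥) {X : Subgroup B} [hX : X.Normal] (hne : X ≠ ⊥) : S ≤ X := by
  have h1 : (X.subgroupOf S).Normal := inferInstance
  rcases h1.eq_bot_or_eq_top with h | h
  · exfalso
    apply hne
    rw [eq_bot_iff, ← hSc]
    have h2 : S ⊓ X = ⊥ := by rw [inf_comm]; rwa [subgroupOf_eq_bot, disjoint_iff] at h
    intro x hx
    rw [mem_centralizer_iff]
    intro s hs
    have h3 : s * x * s⁻¹ * x⁻¹ ∈ S ⊓ X := by
      refine ⟨?_, ?_⟩
      · have h4 : s * x * s⁻¹ * x⁻¹ = s * (x * s⁻¹ * x⁻¹) := by group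
        rw [h4]
        exact S.mul_mem hs (hSn.conj_mem _ (S.inv_mem hs) x)
      · exact X.mul_mem (hX.conj_mem _ hx s) (X.inv_mem hx)
    rw [h2, mem_bot, mul_inv_eq_one, mul_inv_eq_iff_eq_mul] at h3
    exact h3
  · rwa [subgroupOf_eq_top] at h

end Almost

/-- a prime power in a factorial -/
theorem not_pow_dvd_factorial {r m : ℕ} (hr : r.Prime) (hm : 0 < m) : ¬ r ^ m ∣ m.factorial := by
  intro h
  have := Fact.mk hr
  have h1 : m ≤ padicValNat r m.factorial := by
    rwa [padicValNat_dvd_iff_le (Nat.factorial_ne_zero m)] at h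
  have h2 := sub_one_mul_padicValNat_factorial_lt_of_ne_zero r hm.ne'
  have h3 : 1 ≤ r - 1 := by have := hr.two_le; omega
  nlinarith

/-- A nonabelian simple group has order divisible by the square of a prime. -/
theorem exists_sq_dvd {T : Type*} [Group T] [Finite T] [IsSimpleGroup T] (hT : ¬ IsMulCommutative T) :
    ∃ r : ℕ, r.Prime ∧ r ^ 2 ∣ Nat.card T := by
  by_contra hcon
  push Not at hcon
  have hsq : Squarefree (Nat.card T) := by
    rw [Nat.squarefree_iff_prime_squarefree]
    intro r hr h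
    exact hcon r hr (by rwa [pow_two])
  have hZ := IsZGroup.of_squarefree hsq
  have hlt : commutator T < ⊤ := IsZGroup.commutator_lt T
  have h1 : (commutator T).Normal := inferInstance
  rcases h1.eq_bot_or_eq_top with h | h
  · apply hT
    refine ⟨⟨fun a b => ?_⟩⟩
    have h1 : ⁅a, b⁆ ∈ commutator T := Subgroup.commutator_mem_commutator (Subgroup.mem_top _) (Subgroup.mem_top _)
    rw [h, Subgroup.mem_bot, commutatorElement_eq_one_iff_mul_comm] at h1
    exact h1
  · exact hlt.ne h

theorem commutator_eq_of_simple {S : Type*} [Group S] [IsSimpleGroup S] (hS : ¬ IsMulCommutative S) :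
    ⁅(⊤ : Subgroup S), (⊤ : Subgroup S)⁆ = ⊤ := by
  have h1 : (commutator S).Normal := inferInstance
  rcases h1.eq_bot_or_eq_top with h | h
  · exfalso
    apply hS
    refine ⟨⟨fun a b => ?_⟩⟩
    have h1 : ⁅a, b⁆ ∈ commutator S := Subgroup.commutator_mem_commutator (Subgroup.mem_top _) (Subgroup.mem_top _)
    rw [h, Subgroup.mem_bot, commutatorElement_eq_one_iff_mul_comm] at h1
    exact h1
  · exact h

section

variable {G Ω : Type*} [Group G] [Finite G] [MulAction G Ω] [FaithfulSMul G Ω] [Finite Ω]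

/-- The situation: `B` is an almost simple regular subgroup, with socle `S`. -/
structure Sit (G Ω : Type*) [Group G] [MulAction G Ω] (B : Subgroup G) (S : Subgroup B) : Prop where
  prim : IsPreprimitive G Ω
  tr : IsPretransitive B Ω
  reg : ∀ ω : Ω, stabilizer B ω = ⊥
  normal : S.Normal
  simple : IsSimpleGroup S
  nab : ¬ IsMulCommutative S
  cent : centralizer (S : Set B) = ⊥

variable {B : Subgroup G} {S : Subgroup B}

omit [Finite G] [FaithfulSMul G Ω] [Finite Ω] in
theorem Sit.free (h : Sit G Ω B S) {x : G} (hx : x ∈ B) {ω : Ω} (hω : x • ω = ω) : x = 1 := by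
  have h1 : (⟨x, hx⟩ : B) ∈ stabilizer B ω := hω
  rw [h.reg, mem_bot] at h1
  exact congrArg Subtype.val h1

omit [Finite Ω] in
theorem Sit.nonempty (h : Sit G Ω B S) : Nonempty Ω := by
  by_contra hcon
  rw [not_nonempty_iff] at hcon
  have hs := h.simple
  obtain ⟨s, hs1⟩ := exists_ne (1 : S)
  apply hs1
  apply Subtype.ext
  apply Subtype.ext
  exact FaithfulSMul.eq_of_smul_eq_smul (α := Ω) fun a => (hcon.false a).elim

omit [Finite G] [FaithfulSMul G Ω] [Finite Ω] in
theorem Sit.card_eq (h : Sit G Ω B S) (ω : Ω) : Nat.card B = Nat.card Ω := by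
  have := h.tr
  refine Nat.card_congr (Equiv.ofBijective (fun b : B => b • ω) ⟨?_, ?_⟩)
  · intro a b hab
    have h1 : b⁻¹ * a ∈ stabilizer B ω := by
      rw [mem_stabilizer_iff, mul_smul, inv_smul_eq_iff]
      exact hab
    rw [h.reg, mem_bot, inv_mul_eq_one] at h1
    exact h1.symm
  · intro y
    exact exists_smul_eq B ω y

/-- normal subgroups are transitive -/
theorem tr_of_normal (hprim : IsPreprimitive G Ω) {M : Subgroup G} [M.Normal] (hM : M ≠ ⊥) : IsPretransitive M Ω := by
  have hfix : fixedPoints M Ω ≠ Set.univ := by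
    intro h
    apply hM
    rw [eq_bot_iff]
    intro x hx
    rw [mem_bot]
    refine FaithfulSMul.eq_of_smul_eq_smul (α := Ω) fun y => ?_
    have hy : y ∈ fixedPoints M Ω := by rw [h]; exact Set.mem_univ y
    rw [one_smul]
    exact hy ⟨x, hx⟩
  exact IsQuasiPreprimitive.isPretransitive_of_normal hfix

omit [Finite G] [Finite Ω] in
/-- elements commuting with a transitive subgroup are free -/
theorem free_of_commute {M : Subgroup G} (hM : IsPretransitive M Ω) {c : G} (hc : ∀ n ∈ M, n * c = c * n) {ω : Ω}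
    (hω : c • ω = ω) : c = 1 := by
  refine FaithfulSMul.eq_of_smul_eq_smul (α := Ω) fun y => ?_
  obtain ⟨n, rfl⟩ := exists_smul_eq M ω y
  change c • ((n : G) • ω) = (1 : G) • ((n : G) • ω)
  rw [smul_smul, ← hc n n.2, mul_smul, hω, one_smul]

theorem card_of_free {M : Subgroup G} (hM : IsPretransitive M Ω) (hf : ∀ x ∈ M, ∀ ω : Ω, x • ω = ω → x = 1) (ω : Ω) :
    Nat.card M = Nat.card Ω := by
  refine Nat.card_congr (Equiv.ofBijective (fun b : M => (b : G) • ω) ⟨?_, ?_⟩)
  · intro a b hab
    have h1 : (b : G)⁻¹ * a = 1 := by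
      refine hf _ (M.mul_mem (M.inv_mem b.2) a.2) ω ?_
      rw [mul_smul, inv_smul_eq_iff]
      exact hab
    rw [inv_mul_eq_one] at h1
    exact Subtype.ext h1.symm
  · intro y
    obtain ⟨n, hn⟩ := exists_smul_eq M ω y
    exact ⟨n, hn⟩

/-- The centralizer of a transitive subgroup embeds in it, if it is itself transitive. -/
theorem exists_hom_centralizer {M C : Subgroup G} (hM : IsPretransitive M Ω) (hC : IsPretransitive C Ω)
    (hMC : ∀ n ∈ M, ∀ c ∈ C, n * c = c * n) (ω : Ω) :
    ∃ f : C →* M, Function.Bijective f := by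
  have hfM : ∀ x ∈ M, ∀ ω : Ω, x • ω = ω → x = 1 := fun x hx ω hω =>
    free_of_commute hC (fun c hc => (hMC x hx c hc).symm) hω
  have hfC : ∀ x ∈ C, ∀ ω : Ω, x • ω = ω → x = 1 := fun x hx ω hω =>
    free_of_commute hM (fun n hn => hMC n hn x hx) hω
  have hex : ∀ c : C, ∃ n : M, (n : G) • ω = (c : G)⁻¹ • ω := fun c => exists_smul_eq M ω _
  choose f hf using hex
  have huniq : ∀ n n' : M, (n : G) • ω = (n' : G) • ω → n = n' := by
    intro n n' h
    have h1 : (n' : G)⁻¹ * n = 1 := by
      refine hfM _ (M.mul_mem (M.inv_mem n'.2) n.2) ω ?_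
      rw [mul_smul, inv_smul_eq_iff]
      exact h
    rw [inv_mul_eq_one] at h1
    exact Subtype.ext h1.symm
  let F : C →* M :=
    { toFun := f
      map_one' := huniq _ _ (by rw [hf]; simp)
      map_mul' := fun c d => huniq _ _ (by
        rw [hf]
        change ((c : G) * d)⁻¹ • ω = ((f c : G) * (f d : G)) • ω
        rw [mul_inv_rev, mul_smul, ← hf c, smul_smul, ← hMC _ (f c).2 _ (C.inv_mem d.2), mul_smul, ← hf d,
          mul_smul]) }
  have hinj : Function.Injective F := by
    rw [← MonoidHom.ker_eq_bot_iff, eq_bot_iff]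
    intro c hc
    have h1 : f c = 1 := hc
    have h2 := hf c
    rw [h1] at h2
    have h3 : (c : G) • ω = ω := by
      have h4 : (c : G) • ((1 : M) : G) • ω = ω := by rw [h2, smul_inv_smul]
      rwa [OneMemClass.coe_one, one_smul] at h4
    rw [mem_bot]
    exact Subtype.ext (hfC c c.2 ω h3)
  refine ⟨F, hinj, ?_⟩
  have hcard : Nat.card C = Nat.card M := by
    rw [card_of_free hC hfC ω, card_of_free hM hfM ω]
  exact ((Nat.bijective_iff_injective_and_card F).mpr ⟨hinj, hcard⟩).2

/-- **`S` acts trivially on the factors of `M`** and lies in `M C(M)`. -/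
theorem Sit.exists_mem (h : Sit G Ω B S) {M : Subgroup G} [M.Normal] {m : ℕ} (hm : 0 < m) {T : Type*} [Group T]
    [IsSimpleGroup T] (hT : ¬ IsMulCommutative T) {d : ℕ} (hd : DS d T) (e : M ≃* (Fin m → T))
    (hr : ∃ r : ℕ, r.Prime ∧ r ^ m ∣ Nat.card Ω) {s : B} (hs : s ∈ S) :
    ∃ n : M, (n : G)⁻¹ * (s : G) ∈ centralizer (M : Set G) := by
  have hSn := h.normal
  have hSs := h.simple
  let f : B →* Equiv.Perm (Fin m) := (gp hT e).comp B.subtype
  have hker : f.ker ≠ ⊥ := by
    intro hk
    obtain ⟨r, hr, hrm⟩ := hr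
    obtain ⟨ω⟩ := h.nonempty
    rw [← h.card_eq ω] at hrm
    apply not_pow_dvd_factorial hr hm
    refine hrm.trans ?_
    have h1 := Subgroup.card_dvd_of_injective f ((MonoidHom.ker_eq_bot_iff f).mp hk)
    rwa [Nat.card_perm, Nat.card_fin] at h1
  have hle : S ≤ f.ker := le_of_normal S h.cent hker
  have hp : ⁅S.map B.subtype, S.map B.subtype⁆ = S.map B.subtype := by
    rw [← Subgroup.map_commutator]
    congr 1
    have h1 := commutator_eq_of_simple h.nab
    have h2 := congrArg (Subgroup.map S.subtype) h1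
    rwa [Subgroup.map_commutator, ← MonoidHom.range_eq_map, Subgroup.range_subtype] at h2
  refine exists_of_perfect hT hd e hp ?_ (y := s) ⟨s, hs, rfl⟩
  rintro _ ⟨y, hy, rfl⟩
  exact hle hy

/-- **`S` embeds in `T`.** -/
theorem Sit.exists_embed (h : Sit G Ω B S) {M : Subgroup G} [M.Normal] (hM : M ≠ ⊥) {m : ℕ} {T : Type*} [Group T]
    [IsSimpleGroup T] (hT : ¬ IsMulCommutative T) (e : M ≃* (Fin m → T))
    (hs : ∀ s ∈ S, ∃ n : M, (n : G)⁻¹ * (s : G) ∈ centralizer (M : Set G)) :
    ∃ f : S →* T, Function.Injective f := by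
  have hSs := h.simple
  have hZ : Subgroup.center T = ⊥ := by
    rcases (inferInstance : (Subgroup.center T).Normal).eq_bot_or_eq_top with h1 | h1
    · exact h1
    · exfalso
      apply hT
      refine ⟨⟨fun a b => ?_⟩⟩
      have h2 : b ∈ Subgroup.center T := by rw [h1]; trivial
      exact Subgroup.mem_center_iff.mp h2 a
  -- it is enough to embed `S` in `T ^ m`
  suffices hsuf : ∃ g : S →* (Fin m → T), Function.Injective g by
    obtain ⟨g, hg⟩ := hsuf
    obtain ⟨s, hs1⟩ := exists_ne (1 : S)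
    have h1 : g s ≠ 1 := fun h1 => hs1 (hg (by rw [h1, map_one]))
    obtain ⟨i, hi⟩ := Function.ne_iff.mp h1
    refine ⟨(Pi.evalMonoidHom (fun _ => T) i).comp g, ?_⟩
    rw [← MonoidHom.ker_eq_bot_iff]
    refine ((MonoidHom.normal_ker _).eq_bot_or_eq_top).resolve_right ?_
    intro h2
    have h3 : s ∈ ((Pi.evalMonoidHom (fun _ => T) i).comp g).ker := by rw [h2]; trivial
    exact hi h3
  let κ : (Fin m → T) →* MulAut (Fin m → T) := MulAut.conj
  have hκ : Function.Injective κ := by
    rw [← MonoidHom.ker_eq_bot_iff, eq_bot_iff]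
    intro x hx
    rw [mem_bot]
    funext i
    have h1 : x i ∈ Subgroup.center T := by
      rw [Subgroup.mem_center_iff]
      intro t
      have h2 := DFunLike.congr_fun (MonoidHom.mem_ker.mp hx) (fun _ => t)
      have h3 := congrFun h2 i
      have h4 : x i * t * (x i)⁻¹ = t := h3
      rw [mul_inv_eq_iff_eq_mul] at h4
      exact h4.symm
    rw [hZ, mem_bot] at h1
    exact h1
  let ψ : S →* MulAut (Fin m → T) := (cja e).comp (B.subtype.comp S.subtype)
  have hψ : ∀ s, ψ s ∈ κ.range := by
    intro s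
    obtain ⟨n, hn⟩ := hs s s.2
    refine ⟨e n, ?_⟩
    change MulAut.conj (e n) = cja e ((s : B) : G)
    rw [← cja_mem]
    have h1 : cja e ((n : G)⁻¹ * ((s : B) : G)) = 1 := by
      ext x i
      obtain ⟨y, rfl⟩ := e.surjective x
      rw [cja_apply e _ y y, MulAut.one_apply]
      rw [mul_inv_eq_iff_eq_mul]
      exact (mem_centralizer_iff.mp hn y y.2).symm
    rw [map_mul, map_inv, inv_mul_eq_one] at h1
    exact h1
  rcases (MonoidHom.normal_ker ψ).eq_bot_or_eq_top with hk | hk
  · refine ⟨(MonoidHom.ofInjective hκ).symm.toMonoidHom.comp (ψ.codRestrict κ.range hψ), ?_⟩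
    have h1 : Function.Injective (ψ.codRestrict κ.range hψ) := by
      rw [MonoidHom.injective_codRestrict]
      exact (MonoidHom.ker_eq_bot_iff ψ).mp hk
    exact (MonoidHom.ofInjective hκ).symm.injective.comp h1
  · -- `S` centralizes `M`
    have hSC : ∀ s : S, ((s : B) : G) ∈ centralizer (M : Set G) := by
      intro s
      have h1 : s ∈ ψ.ker := by rw [hk]; trivial
      rw [mem_centralizer_iff]
      intro x hx
      have hMn : M.Normal := inferInstance
      have h2 := cja_apply e ((s : B) : G) ⟨x, hx⟩ ⟨_, hMn.conj_mem _ hx ((s : B) : G)⟩ rfl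
      have h3 : cja e ((s : B) : G) = 1 := h1
      rw [h3, MulAut.one_apply] at h2
      have h4 := congrArg Subtype.val (e.injective h2)
      have h5 : x = ((s : B) : G) * x * ((s : B) : G)⁻¹ := h4
      rw [eq_mul_inv_iff_mul_eq] at h5
      exact h5
    have hCne : centralizer (M : Set G) ≠ ⊥ := by
      intro hbot
      obtain ⟨s, hs1⟩ := exists_ne (1 : S)
      have h1 := hSC s
      rw [hbot, mem_bot] at h1
      exact hs1 (Subtype.ext (Subtype.ext h1))
    obtain ⟨ω⟩ := h.nonempty
    have hCn : (centralizer (M : Set G)).Normal := inferInstance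
    obtain ⟨f, hf⟩ := exists_hom_centralizer (tr_of_normal h.prim hM) (tr_of_normal h.prim hCne)
      (fun n hn c hc => mem_centralizer_iff.mp hc n hn) ω
    let ι : S →* centralizer (M : Set G) := (B.subtype.comp S.subtype).codRestrict _ hSC
    have hι : Function.Injective ι := (MonoidHom.injective_codRestrict _ _ hSC).mpr
      (B.subtype_injective.comp S.subtype_injective)
    exact ⟨e.toMonoidHom.comp (f.comp ι), e.injective.comp (hf.1.comp hι)⟩

end

end Cfsg.Agent.H429.Reg
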