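import Mathlib
import Cfsg.Agent.H429.RegMain
import Cfsg.Agent.Lib.MinNormal
import Cfsg.Agent.PermutationGroups.OnanScott
import Cfsg.Agent.S0721

/-!
# Primitive groups with an almost simple regular subgroup: the reduction (helper429, S3692)

* `reduction` : S3692 from the facts `RT S` about the simple group `S` and solvability of the outer automorphism groups.
-/

set_option autoImplicit false
set_option linter.unusedSectionVars false

namespace Cfsg.Agent.H429.Reg

open Subgroup Cfsg.Agent.H936 MulAction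

/-! ### Cyclic Sylow subgroups and fixed points -/

/-- In a cyclic group of prime power order, a nontrivial subgroup contains the elements of order `r`. -/
theorem mem_of_cyclic {P : Type*} [Group P] [Finite P] {r : ℕ} [hr : Fact r.Prime] (hP : IsPGroup r P) (hc : IsCyclic P)
    {X : Subgroup P} (hX : X ≠ ⊥) {z : P} (hz : z ^ r = 1) : z ∈ X := by
  classical
  have hne : Nontrivial X := (Subgroup.nontrivial_iff_ne_bot X).mpr hX
  have hXp : IsPGroup r X := hP.to_subgroup X
  obtain ⟨n, hn⟩ := hXp.exists_card_eq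
  have hn0 : n ≠ 0 := by
    rintro rfl
    rw [pow_zero] at hn
    have := Finite.one_lt_card (α := X)
    omega
  have hdvd : r ∣ Nat.card X := by rw [hn]; exact dvd_pow_self _ hn0
  obtain ⟨y, hy⟩ := exists_prime_orderOf_dvd_card' r hdvd
  have hyo : orderOf (y : P) = r := by rw [Subgroup.orderOf_coe, hy]
  cases nonempty_fintype P
  have h1 := IsCyclic.card_pow_eq_one_le (α := P) hr.out.pos
  have hsub : (Finset.image (fun k => (y : P) ^ k) (Finset.range r)) ⊆ Finset.univ.filter (fun a : P => a ^ r = 1) := by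
    intro a ha
    obtain ⟨k, -, rfl⟩ := Finset.mem_image.mp ha
    rw [Finset.mem_filter]
    refine ⟨Finset.mem_univ _, ?_⟩
    rw [← pow_mul, mul_comm, pow_mul, ← hyo, pow_orderOf_eq_one, one_pow]
  have hcard : (Finset.image (fun k => (y : P) ^ k) (Finset.range r)).card = r := by
    rw [Finset.card_image_of_injOn, Finset.card_range]
    intro a ha b hb hab
    have ha' : a < orderOf (y : P) := by rw [hyo]; exact Finset.mem_range.mp ha
    have hb' : b < orderOf (y : P) := by rw [hyo]; exact Finset.mem_range.mp hb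
    exact pow_injOn_Iio_orderOf ha' hb' hab
  have heq := Finset.eq_of_subset_of_card_le hsub (by rw [hcard]; exact h1)
  have hzm : z ∈ Finset.univ.filter (fun a : P => a ^ r = 1) := by
    rw [Finset.mem_filter]
    exact ⟨Finset.mem_univ _, hz⟩
  rw [← heq] at hzm
  obtain ⟨k, -, rfl⟩ := Finset.mem_image.mp hzm
  exact X.pow_mem y.2 k

theorem dvd_of_free {P X : Type*} [Group P] [MulAction P X] (h : ∀ x : X, stabilizer P x = ⊥) :
    Nat.card P ∣ Nat.card X := by
  rw [Nat.card_congr (selfEquivOrbitsQuotientProd (G := P) h), Nat.card_prod]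
  exact dvd_mul_left _ _

/-- an element of order `r` fixes a point -/
theorem exists_conj_mem {r : ℕ} [Fact r.Prime] {S T : Type*} [Group S] [Finite S] [Group T] (P : Sylow r S)
    (hP : IsCyclic P) (f : S →* T) (L : Subgroup T) (hL : ¬ Nat.card P ∣ L.index) {z : S} (hz : z ∈ (P : Subgroup S))
    (hzr : z ^ r = 1) : ∃ t : T, t⁻¹ * f z * t ∈ L := by
  let g : P →* T := f.comp (P : Subgroup S).subtype
  let _ : MulAction P (T ⧸ L) := MulAction.compHom _ g
  have hsm : ∀ (p : P) (x : T ⧸ L), p • x = f (p : S) • x := fun _ _ => rfl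
  obtain ⟨x, hx⟩ : ∃ x : T ⧸ L, stabilizer P x ≠ ⊥ := by
    by_contra hcon
    push Not at hcon
    exact hL (dvd_of_free hcon)
  have hzP : (⟨z, hz⟩ : P) ^ r = 1 := Subtype.ext hzr
  have h1 := mem_of_cyclic P.2 hP hx hzP
  obtain ⟨t, rfl⟩ := QuotientGroup.mk_surjective x
  refine ⟨t, ?_⟩
  have h2 : (⟨z, hz⟩ : P) • (t : T ⧸ L) = (t : T ⧸ L) := h1
  rw [hsm] at h2
  have h3 : ((f z * t : T) : T ⧸ L) = (t : T ⧸ L) := h2
  rw [eq_comm, QuotientGroup.eq] at h3
  rwa [mul_assoc]

section

variable {G Ω : Type*} [Group G] [Finite G] [MulAction G Ω] [FaithfulSMul G Ω] [Finite Ω]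
  {B : Subgroup G} {S : Subgroup B}

/-- the degree in coordinates -/
theorem card_eq_index {M : Subgroup G} (hM : IsPretransitive M Ω) {m : ℕ} {T : Type*} [Group T]
    (e : M ≃* (Fin m → T)) (D : Subgroup (Fin m → T)) (ω : Ω)
    (hD : ∀ n : M, (n : G) ∈ stabilizer G ω ↔ e n ∈ D) : Nat.card Ω = D.index := by
  have h1 : stabilizer M ω = D.comap e.toMonoidHom := by
    ext n
    exact hD n
  rw [← index_stabilizer_of_transitive M ω, h1]
  exact index_comap_of_surjective _ e.surjective

/-- **Product case**: impossible. -/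
theorem Sit.false_of_product (h : Sit G Ω B S) (hRT : RT S) {M : Subgroup G} [M.Normal] (hM : M ≠ ⊥)
    (hmin : ∀ X : Subgroup G, X.Normal → X ≤ M → X = ⊥ ∨ X = M) {m : ℕ} (hm : 2 ≤ m) {T : Type*} [Group T]
    [IsSimpleGroup T] (hT : ¬ IsMulCommutative T) {d : ℕ} (hd : DS d T) (e : M ≃* (Fin m → T))
    (hC : centralizer (M : Set G) = ⊥) (ω : Ω) (L : Fin m → Subgroup T) (hLne : ∀ i, L i ≠ ⊤)
    (hL : ∀ n : M, (n : G) ∈ stabilizer G ω ↔ ∀ i, e n i ∈ L i) : False := by
  have hMt := tr_of_normal h.prim hM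
  have hSn := h.normal
  have hSs := h.simple
  have hKM : ∀ g : G, ∃ n ∈ M, g * n ∈ stabilizer G ω := by
    intro g
    obtain ⟨n, hn⟩ := exists_smul_eq M ω (g⁻¹ • ω)
    refine ⟨n, n.2, ?_⟩
    rw [mem_stabilizer_iff, mul_smul]
    change g • (n • ω) = ω
    rw [hn, smul_inv_smul]
  have hindex := index_eq hT hKM hmin e L hL
  set i₀ : Fin m := ⟨0, by omega⟩ with hi₀
  have hcard : Nat.card Ω = (L i₀).index ^ m := by
    rw [card_eq_index hMt e (Subgroup.pi Set.univ L) ω (fun n => by
      rw [hL, Subgroup.mem_pi]; simp), index_pi, Finset.prod_congr rfl (fun i _ => (hindex i₀ i).symm), Finset.prod_const,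
      Finset.card_univ, Fintype.card_fin]
  -- `S ≤ M`
  obtain ⟨q, hq, hqd⟩ := Nat.exists_prime_and_dvd (n := (L i₀).index) (fun h1 => hLne i₀ (index_eq_one.mp h1))
  have hS : ∀ s ∈ S, ∃ n : M, (n : G)⁻¹ * (s : G) ∈ centralizer (M : Set G) := fun s hs =>
    h.exists_mem (by omega) hT hd e ⟨q, hq, by rw [hcard]; exact pow_dvd_pow_of_dvd hqd m⟩ hs
  have hSM : ∀ s ∈ S, (s : G) ∈ M := by
    intro s hs
    obtain ⟨n, hn⟩ := hS s hs
    rw [hC, mem_bot, inv_mul_eq_one] at hn
    rw [← hn]
    exact n.2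
  -- the prime `r`
  obtain ⟨r, hr, hrS, hro, hcyc⟩ := hRT.cyc
  have := Fact.mk hr
  obtain ⟨P⟩ : Nonempty (Sylow r S) := inferInstance
  obtain ⟨z, hz1, hz⟩ : ∃ z : S, orderOf z = r ∧ z ∈ (P : Subgroup S) := by
    have h1 : r ∣ Nat.card P := P.dvd_card_of_dvd_card hrS
    obtain ⟨z, hz⟩ := exists_prime_orderOf_dvd_card' r h1
    exact ⟨z, by rw [Subgroup.orderOf_coe, hz], z.2⟩
  -- the `r`-part of the index
  have hPi : ∀ i, ¬ Nat.card P ∣ (L i).index := by
    intro i hdvd
    rw [hindex i i₀] at hdvd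
    have h1 : Nat.card P ^ 2 ∣ Nat.card B := by
      rw [h.card_eq ω, hcard]
      exact (pow_dvd_pow_of_dvd hdvd 2).trans (pow_dvd_pow _ hm)
    rw [← S.card_mul_index] at h1
    have h2 : ¬ r ∣ S.index := fun h2 => hro (h2.trans (index_dvd S h.cent))
    obtain ⟨k, hk⟩ := P.2.exists_card_eq
    have hk' : Nat.card P = r ^ k := hk
    have h3 : (Nat.card P ^ 2).Coprime S.index := by
      rw [hk', ← pow_mul]
      exact Nat.Coprime.pow_left _ ((Nat.Prime.coprime_iff_not_dvd hr).mpr h2)
    have h4 : Nat.card P ^ 2 ∣ Nat.card S := h3.dvd_of_dvd_mul_right h1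
    rw [P.card_eq_multiplicity, ← pow_mul, hr.pow_dvd_iff_le_factorization Nat.card_pos.ne'] at h4
    have h5 : 1 ≤ (Nat.card S).factorization r := (hr.dvd_iff_one_le_factorization Nat.card_pos.ne').mp hrS
    omega
  -- conjugating `z` into the stabilizer
  let f : ∀ _ : Fin m, S →* T := fun i =>
    (Pi.evalMonoidHom (fun _ => T) i).comp (e.toMonoidHom.comp ((B.subtype.comp S.subtype).codRestrict M fun s => hSM s s.2))
  have hf : ∀ i (s : S) (hs : ((s : B) : G) ∈ M), f i s = e ⟨((s : B) : G), hs⟩ i := fun _ _ _ => rfl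
  have hex : ∀ i, ∃ t : T, t⁻¹ * f i z * t ∈ L i := fun i =>
    exists_conj_mem P (hcyc P) (f i) (L i) (hPi i) hz (by rw [← hz1, pow_orderOf_eq_one])
  choose t ht using hex
  set n : M := e.symm t with hn
  have hen : e n = t := e.apply_symm_apply _
  have hzM : ((z : B) : G) ∈ M := hSM z z.2
  have h1 : ((n⁻¹ * ⟨((z : B) : G), hzM⟩ * n : M) : G) ∈ stabilizer G ω := by
    rw [hL]
    intro i
    rw [map_mul, map_mul, map_inv, hen]
    exact ht i
  have h2 : ((z : B) : G) • ((n : G) • ω) = (n : G) • ω := by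
    rw [mem_stabilizer_iff] at h1
    have h3 : ((n : G)⁻¹ * ((z : B) : G) * (n : G)) • ω = ω := h1
    rwa [mul_smul, mul_smul, inv_smul_eq_iff] at h3
  have h3 := h.free (z : B).2 h2
  have h4 : z = 1 := Subtype.ext (Subtype.ext h3)
  rw [h4, orderOf_one] at hz1
  exact hr.one_lt.ne hz1

/-- the number of points in the diagonal case -/
theorem card_diag {m : ℕ} {T : Type*} [Group T] [Finite T] (c : Fin m → Fin m) (D : Subgroup (Fin m → T))
    (hD : ∀ x, x ∈ D ↔ ∀ i j, c i = c j → x i = x j) : Nat.card D = Nat.card T ^ Nat.card (Set.range c) := by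
  classical
  rw [← Nat.card_fun]
  have hs : ∀ j : Set.range c, ∃ i, c i = j := fun j => j.2
  choose s hs using hs
  refine Nat.card_congr
    { toFun x j := (x : Fin m → T) (s j)
      invFun y := ⟨fun i => y ⟨c i, i, rfl⟩, (hD _).mpr fun i j hij => by simp only [hij]⟩
      left_inv x := by
        apply Subtype.ext
        funext i
        exact (hD _).mp x.2 _ _ (hs ⟨c i, i, rfl⟩)
      right_inv y := by
        funext j
        change y ⟨c (s j), _⟩ = y j
        congr 1
        exact Subtype.ext (hs j) }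

/-- the blocks -/
theorem card_blocks {m k : ℕ} (c : Fin m → Fin m)
    (hc : ∀ j : Fin m, Nat.card {i : Fin m // c i = j} = k ∨ Nat.card {i : Fin m // c i = j} = 0) :
    m = Nat.card (Set.range c) * k := by
  classical
  have h1 : Fin m ≃ Σ j : Set.range c, {i : Fin m // c i = j} :=
    { toFun i := ⟨⟨c i, i, rfl⟩, ⟨i, rfl⟩⟩
      invFun x := x.2.1
      left_inv i := rfl
      right_inv := by
        rintro ⟨⟨j, hj⟩, ⟨i, hi⟩⟩
        change c i = j at hi
        subst hi
        rfl }
  have h2 := Nat.card_congr h1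
  rw [Nat.card_fin, Nat.card_sigma] at h2
  have h3 : ∀ j : Set.range c, Nat.card {i : Fin m // c i = j} = k := by
    intro j
    refine (hc j).resolve_right ?_
    obtain ⟨i, hi⟩ := j.2
    have : Nonempty {i : Fin m // c i = j} := ⟨⟨i, hi⟩⟩
    exact Nat.card_pos.ne'
  rw [Finset.sum_congr rfl (fun j _ => h3 j), Finset.sum_const, Finset.card_univ, smul_eq_mul,
    ← Nat.card_eq_fintype_card] at h2
  exact h2

/-- `B ≅ T` at the end -/
theorem Sit.equiv (_ : Sit G Ω B S) {T : Type*} [Group T] {f : S →* T} (hf : Function.Injective f)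
    (hs : Function.Surjective f) (hi : S.index = 1) : Nonempty (B ≃* T) := by
  have h1 : S = ⊤ := index_eq_one.mp hi
  exact ⟨(Subgroup.topEquiv.symm.trans (MulEquiv.subgroupCongr h1.symm)).trans (MulEquiv.ofBijective f ⟨hf, hs⟩)⟩

/-- a minimal normal subgroup is not abelian -/
theorem Sit.not_comm (h : Sit G Ω B S) {M : Subgroup G} [M.Normal] (hM : M ≠ ⊥)
    (hmin : ∀ X : Subgroup G, X.Normal → X ≤ M → X = ⊥ ∨ X = M) : ¬ ∀ x ∈ M, ∀ y ∈ M, Commute x y := by
  intro hcomm
  obtain ⟨T, _, m, hTs, hm, ⟨e⟩⟩ := Cfsg.Agent.S0721.result M hM hmin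
  obtain ⟨ω⟩ := h.nonempty
  have hTc : IsMulCommutative T := by
    refine ⟨⟨fun a b => ?_⟩⟩
    have h1 := hcomm _ (e.symm (fun _ => a)).2 _ (e.symm (fun _ => b)).2
    have h2 : e.symm (fun _ => a) * e.symm (fun _ => b) = e.symm (fun _ => b) * e.symm (fun _ => a) := Subtype.ext h1
    rw [← map_mul, ← map_mul] at h2
    exact congrFun (e.symm.injective h2) ⟨0, hm⟩
  have hTp : (Nat.card T).Prime := Group.is_simple_iff_prime_card.mp hTs
  have hMt := tr_of_normal h.prim hM
  have h1 : Nat.card M = Nat.card Ω := card_of_free hMt (fun x hx ω hω =>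
    free_of_commute hMt (fun n hn => (hcomm n hn x hx).eq) hω) ω
  have h2 : Nat.card M = Nat.card T ^ m := by
    rw [Nat.card_congr e.toEquiv, Nat.card_fun, Nat.card_fin]
  have h3 : Nat.card B = Nat.card T ^ m := by rw [h.card_eq ω, ← h1, h2]
  have := Fact.mk hTp
  have hBp : IsPGroup (Nat.card T) B := IsPGroup.of_card h3
  have hSp : IsPGroup (Nat.card T) S := hBp.to_subgroup S
  have hSs := h.simple
  have hnil : Group.IsNilpotent S := hSp.isNilpotent
  have hlt := commutator_eq_of_simple h.nab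
  have hsol : Group.IsSolvable S := inferInstance
  have h4 := Group.IsSolvable.commutator_lt_top_of_nontrivial S
  exact h4.ne hlt

/-- **The reduction.** -/
theorem reduction (h : Sit G Ω B S) (hRT : RT S)
    (hDS : ∀ (T : Type) [Group T] [Finite T], IsSimpleGroup T → ¬ IsMulCommutative T → DS 3 T) :
    (∃ (N : Subgroup G) (T : Type) (_ : Group T), N.Normal ∧ Subgroup.centralizer (N : Set G) = ⊥ ∧
        IsSimpleGroup T ∧ ¬ IsMulCommutative T ∧ Nonempty (N ≃* T × T) ∧ Nonempty (B ≃* T)) ∨
    (∃ N : Subgroup G, N.Normal ∧ IsSimpleGroup N ∧ ¬ IsMulCommutative N ∧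
        Subgroup.centralizer (N : Set G) = ⊥) := by
  have hSn := h.normal
  have hSs := h.simple
  have hprim := h.prim
  obtain ⟨ω⟩ := h.nonempty
  have hBne : (⊤ : Subgroup G) ≠ ⊥ := by
    intro htop
    obtain ⟨s, hs⟩ := exists_ne (1 : S)
    apply hs
    apply Subtype.ext
    apply Subtype.ext
    have h1 : ((s : B) : G) ∈ (⊤ : Subgroup G) := mem_top _
    rwa [htop, mem_bot] at h1
  obtain ⟨M, -, hM, hMn', hmin'⟩ := Cfsg.Agent.Lib.MinNormal.exists_minimal_normal_le (⊤ : Subgroup G) hBne
  have hMn : M.Normal := normalizer_eq_top_iff.mp (top_le_iff.mp hMn')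
  have hmin : ∀ X : Subgroup G, X.Normal → X ≤ M → X = ⊥ ∨ X = M := fun X hX hXM =>
    hmin' X hXM (by rw [normalizer_eq_top])
  have hna := h.not_comm hM hmin
  have hMt := tr_of_normal hprim hM
  have hKM : ∀ g : G, ∃ n ∈ M, g * n ∈ stabilizer G ω := by
    intro g
    obtain ⟨n, hn⟩ := exists_smul_eq M ω (g⁻¹ • ω)
    refine ⟨n, n.2, ?_⟩
    rw [mem_stabilizer_iff, mul_smul]
    change g • (n • ω) = ω
    rw [hn, smul_inv_smul]
  have hnt : Nontrivial Ω := by
    by_contra hcon
    rw [not_nontrivial_iff_subsingleton] at hcon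
    apply hM
    rw [eq_bot_iff]
    intro x _
    rw [mem_bot]
    exact FaithfulSMul.eq_of_smul_eq_smul (α := Ω) fun y => Subsingleton.elim _ _
  have hMK : ¬ M ≤ stabilizer G ω := by
    intro hle
    obtain ⟨y, hy⟩ := exists_ne ω
    obtain ⟨n, hn⟩ := exists_smul_eq M ω y
    exact hy (hn.symm.trans (hle n.2))
  have hmaxK : IsCoatom (stabilizer G ω) := IsPreprimitive.isCoatom_stabilizer_of_isPreprimitive G ω
  have hmax : ∀ X ≤ M, stabilizer G ω ⊓ M ≤ X → stabilizer G ω ≤ normalizer (X : Set G) →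
      X = stabilizer G ω ⊓ M ∨ X = M := by
    intro X hX hKX hinv
    rcases hmaxK.le_iff.mp (le_sup_left : stabilizer G ω ≤ stabilizer G ω ⊔ X) with h1 | h1
    · right
      apply le_antisymm hX
      intro n hn
      have hn' : n ∈ ((stabilizer G ω ⊔ X : Subgroup G) : Set G) := by
        rw [h1]; exact Set.mem_univ _
      rw [Subgroup.coe_mul_of_left_le_normalizer_right _ _ hinv] at hn'
      obtain ⟨k, hk, x, hx, rfl⟩ := hn'
      have hkN : k ∈ M := by
        have := M.mul_mem hn (M.inv_mem (hX hx))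
        simpa using this
      exact X.mul_mem (hKX ⟨hk, hkN⟩) hx
    · left
      apply le_antisymm _ hKX
      exact le_inf (by rw [← h1]; exact le_sup_right) hX
  obtain ⟨T, _, m, e, hTs, hT, hm, hcase⟩ :=
    Cfsg.Agent.PermutationGroups.OnanScott.onan_scott M hmin hna (stabilizer G ω) hKM hMK hmax
  have hTfin : Finite T := by
    have h1 : Function.Injective (fun t : T => e.symm (Pi.mulSingle (⟨0, hm⟩ : Fin m) t)) :=
      e.symm.injective.comp (Pi.mulSingle_injective _)
    exact Finite.of_injective _ h1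
  have hd := hDS T hTs hT
  have hMcard : Nat.card M = Nat.card T ^ m := by
    rw [Nat.card_congr e.toEquiv, Nat.card_fun, Nat.card_fin]
  have hSdvd := index_dvd S h.cent
  have hScard : Nat.card Ω = Nat.card S * S.index := by rw [S.card_mul_index, h.card_eq ω]
  by_cases hC : centralizer (M : Set G) = ⊥
  · rcases hcase with ⟨L, hLne, hL⟩ | ⟨k, c, hk, hc, hst⟩
    · -- product case
      rcases Nat.lt_or_ge m 2 with hm2 | hm2
      · right
        obtain rfl : m = 1 := by omega
        have e' : M ≃* T := e.trans (MulEquiv.funUnique (Fin 1) T)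
        refine ⟨M, hMn, (MulEquiv.isSimpleGroup_congr e').mpr hTs, ?_, hC⟩
        intro hcom
        apply hna
        intro x hx y hy
        exact congrArg Subtype.val (hcom.is_comm.comm (⟨x, hx⟩ : M) ⟨y, hy⟩)
      · exact (h.false_of_product hRT hM hmin hm2 hT hd e hC ω L hLne hL).elim
    · -- diagonal case
      left
      let D : Subgroup (Fin m → T) :=
        { carrier := {x | ∀ i j, c i = c j → x i = x j}
          one_mem' := fun _ _ _ => rfl
          mul_mem' := fun {x y} hx hy i j hij => by rw [Pi.mul_apply, Pi.mul_apply, hx i j hij, hy i j hij]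
          inv_mem' := fun {x} hx i j hij => by rw [Pi.inv_apply, Pi.inv_apply, hx i j hij] }
      have hD : ∀ x, x ∈ D ↔ ∀ i j, c i = c j → x i = x j := fun _ => Iff.rfl
      have h1 := card_eq_index hMt e D ω (fun n => hst n)
      have h2 := card_diag c D hD
      have h3 := card_blocks c hc
      set l := Nat.card (Set.range c) with hl
      have hlm : l ≤ m := by nlinarith
      have h2lm : 2 * l ≤ m := by nlinarith
      have h4 : Nat.card Ω = Nat.card T ^ (m - l) := by
        have h5 := D.card_mul_index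
        rw [h2, Nat.card_fun, Nat.card_fin, ← h1] at h5
        have h6 : Nat.card T ^ l * Nat.card T ^ (m - l) = Nat.card T ^ m := by rw [← pow_add]; congr 1; omega
        rw [← h6] at h5
        exact Nat.eq_of_mul_eq_mul_left (pow_pos Nat.card_pos _) h5
      obtain ⟨r, hr, hrd⟩ := exists_sq_dvd hT
      have hrm : r ^ m ∣ Nat.card Ω := by
        rw [h4]
        refine (pow_dvd_pow r (by omega : m ≤ 2 * (m - l))).trans ?_
        rw [pow_mul]
        exact pow_dvd_pow_of_dvd hrd _
      have hS : ∀ s ∈ S, ∃ n : M, (n : G)⁻¹ * (s : G) ∈ centralizer (M : Set G) := fun s hs =>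
        h.exists_mem hm hT hd e ⟨r, hr, hrm⟩ hs
      obtain ⟨f, hf⟩ := h.exists_embed hM hT e hS
      obtain ⟨h5, h6, h7⟩ := eq_of_pow hRT f hf (e := S.index) (c := m - l) (by rw [← h4, hScard]) hSdvd
      have hl0 : l ≠ 0 := by rintro h8; rw [h8, zero_mul] at h3; omega
      have hm2 : m = 2 := by omega
      subst hm2
      refine ⟨M, T, inferInstance, hMn, hC, hTs, hT, ⟨e.trans ?_⟩, h.equiv hf h7 h6⟩
      exact
        { toFun x := (x 0, x 1)
          invFun y := ![y.1, y.2]
          left_inv x := by funext i; fin_cases i <;> rfl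
          right_inv y := rfl
          map_mul' x y := rfl }
  · -- two minimal normal subgroups
    left
    have hCt := tr_of_normal hprim hC
    have hMC : ∀ n ∈ M, ∀ c ∈ centralizer (M : Set G), n * c = c * n := fun n hn c hc =>
      mem_centralizer_iff.mp hc n hn
    have hfM : ∀ x ∈ M, ∀ ω : Ω, x • ω = ω → x = 1 := fun x hx ω hω =>
      free_of_commute hCt (fun c hc => (hMC x hx c hc).symm) hω
    have h4 : Nat.card Ω = Nat.card T ^ m := by rw [← card_of_free hMt hfM ω, hMcard]
    obtain ⟨r, hr, hrd⟩ := exists_sq_dvd hT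
    have hrm : r ^ m ∣ Nat.card Ω := by
      rw [h4]
      exact pow_dvd_pow_of_dvd ((dvd_pow_self r two_ne_zero).trans hrd) _
    have hS : ∀ s ∈ S, ∃ n : M, (n : G)⁻¹ * (s : G) ∈ centralizer (M : Set G) := fun s hs =>
      h.exists_mem hm hT hd e ⟨r, hr, hrm⟩ hs
    obtain ⟨f, hf⟩ := h.exists_embed hM hT e hS
    obtain ⟨h5, h6, h7⟩ := eq_of_pow hRT f hf (e := S.index) (c := m) (by rw [← h4, hScard]) hSdvd
    subst h5
    have e' : M ≃* T := e.trans (MulEquiv.funUnique (Fin 1) T)
    obtain ⟨g, hg⟩ := exists_hom_centralizer hMt hCt hMC ω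
    have e'' : centralizer (M : Set G) ≃* T := (MulEquiv.ofBijective g hg).trans e'
    have hZ : Subgroup.center T = ⊥ := by
      rcases (inferInstance : (Subgroup.center T).Normal).eq_bot_or_eq_top with h1 | h1
      · exact h1
      · exfalso
        apply hT
        refine ⟨⟨fun a b => ?_⟩⟩
        have h2 : b ∈ Subgroup.center T := by rw [h1]; trivial
        exact Subgroup.mem_center_iff.mp h2 a
    -- elements of `C` centralizing `C` are trivial
    have hCC : ∀ x ∈ centralizer (M : Set G), (∀ y ∈ centralizer (M : Set G), y * x = x * y) → x = 1 := by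
      intro x hx hxy
      have h1 : e'' ⟨x, hx⟩ ∈ Subgroup.center T := by
        rw [Subgroup.mem_center_iff]
        intro t
        obtain ⟨y, rfl⟩ := e''.surjective t
        rw [← map_mul, ← map_mul]
        congr 1
        exact Subtype.ext (hxy y y.2)
      rw [hZ, mem_bot] at h1
      have h2 := e''.injective (h1.trans (map_one e'').symm)
      exact congrArg Subtype.val h2
    have hMM : ∀ x ∈ M, (∀ y ∈ M, y * x = x * y) → x = 1 := by
      intro x hx hxy
      have h1 : e' ⟨x, hx⟩ ∈ Subgroup.center T := by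
        rw [Subgroup.mem_center_iff]
        intro t
        obtain ⟨y, rfl⟩ := e'.surjective t
        rw [← map_mul, ← map_mul]
        congr 1
        exact Subtype.ext (hxy y y.2)
      rw [hZ, mem_bot] at h1
      have h2 := e'.injective (h1.trans (map_one e').symm)
      exact congrArg Subtype.val h2
    have hCn : (centralizer (M : Set G)).Normal := inferInstance
    refine ⟨M ⊔ centralizer (M : Set G), T, inferInstance, inferInstance, ?_, hTs, hT, ?_, h.equiv hf h7 h6⟩
    · rw [eq_bot_iff]
      intro x hx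
      rw [mem_centralizer_iff] at hx
      rw [mem_bot]
      apply hCC x
      · rw [mem_centralizer_iff]
        intro y hy
        exact hx y (mem_sup_left hy)
      · intro y hy
        exact hx y (mem_sup_right hy)
    · let F : M × centralizer (M : Set G) →* ↥(M ⊔ centralizer (M : Set G)) :=
        (MonoidHom.noncommCoprod (M.subtype) ((centralizer (M : Set G)).subtype) (fun x y => hMC x x.2 y y.2)).codRestrict _
          (fun z => mul_mem (mem_sup_left z.1.2) (mem_sup_right z.2.2))
      have hF : ∀ z, ((F z : ↥(M ⊔ centralizer (M : Set G))) : G) = (z.1 : G) * z.2 := fun z => rfl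
      have hbij : Function.Bijective F := by
        constructor
        · rw [injective_iff_map_eq_one]
          rintro ⟨x, y⟩ hxy
          have h1 : (x : G) * (y : G) = 1 := by
            have := congrArg Subtype.val hxy
            rwa [hF] at this
          have h2 : (x : G) = (y : G)⁻¹ := eq_inv_of_mul_eq_one_left h1
          have h3 : (x : G) = 1 := by
            apply hMM x x.2
            intro z hz
            rw [h2]
            exact hMC z hz _ (inv_mem y.2)
          have h4 : (y : G) = 1 := by rwa [h3, one_mul] at h1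
          exact Prod.ext (Subtype.ext h3) (Subtype.ext h4)
        · rintro ⟨x, hx⟩
          have hx' : x ∈ ((M ⊔ centralizer (M : Set G) : Subgroup G) : Set G) := hx
          rw [Subgroup.mul_normal] at hx'
          obtain ⟨y, hy, z, hz, rfl⟩ := hx'
          exact ⟨(⟨y, hy⟩, ⟨z, hz⟩), rfl⟩
      exact ⟨(MulEquiv.ofBijective F hbij).symm.trans (MulEquiv.prodCongr e' e'')⟩

end

end Cfsg.Agent.H429.Reg
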